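import Cfsg.Agent.H135.SLCyc
set_option linter.all false

-- part: H110/D/Mon
section
/-!
# Transvections and monomial matrices in `SL` (helper110, for S2295: type D)
-/

set_option autoImplicit false

namespace Cfsg.Agent.H110.D

open Matrix Equiv
open Matrix (SpecialLinearGroup)

variable {I F : Type*} [Fintype I] [DecidableEq I] [Field F]

/-- the root element `1 + t E_ij` (and `1` if `i = j`) -/
def X (i j : I) (t : F) : SpecialLinearGroup I F :=
  if h : i ≠ j then SpecialLinearGroup.transvection h t else 1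

theorem X_of {i j : I} (h : i ≠ j) (t : F) : X i j t = SpecialLinearGroup.transvection h t := dif_pos h

theorem coe_X {i j : I} (h : i ≠ j) (t : F) : (X i j t : Matrix I I F) = 1 + single i j t := by
  rw [X_of h]; rfl

theorem X_add {i j : I} (s t : F) : X i j (s + t) = X i j s * X i j t := by
  by_cases h : i ≠ j
  · rw [X_of h, X_of h, X_of h]
    apply Subtype.ext
    exact (Matrix.transvection_mul_transvection_same _ _ h _ _).symm
  · unfold X; rw [dif_neg h, dif_neg h, dif_neg h, one_mul]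

@[simp] theorem X_zero {i j : I} : X i j (0 : F) = 1 := by
  by_cases h : i ≠ j
  · rw [X_of h]
    apply Subtype.ext
    exact Matrix.transvection_zero _ _
  · unfold X; rw [dif_neg h]

theorem X_inv {i j : I} (t : F) : (X i j t)⁻¹ = X i j (-t) := by
  rw [inv_eq_iff_mul_eq_one, ← X_add, add_neg_cancel, X_zero]

theorem s0 {i j k l : I} (h : j ≠ k) (a b : F) : single i j a * single k l b = (0 : Matrix I I F) :=
  single_mul_single_of_ne (h := h) ..

theorem X_comm {i j k l : I} (hij : i ≠ j) (hkl : k ≠ l) (hjk : j ≠ k) (hil : i ≠ l) (s t : F) :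
    Commute (X i j s) (X k l t) := by
  apply Subtype.ext
  rw [Matrix.SpecialLinearGroup.coe_mul, Matrix.SpecialLinearGroup.coe_mul, coe_X hij, coe_X hkl]
  simp only [mul_add, add_mul, one_mul, mul_one, s0 hjk, s0 hil.symm]
  abel

theorem X_braid {i j k : I} (hij : i ≠ j) (hjk : j ≠ k) (hik : i ≠ k) (s t : F) :
    X i j s * X j k t = X i k (s * t) * X j k t * X i j s := by
  apply Subtype.ext
  rw [Matrix.SpecialLinearGroup.coe_mul, Matrix.SpecialLinearGroup.coe_mul, Matrix.SpecialLinearGroup.coe_mul,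
    coe_X hij, coe_X hjk, coe_X hik]
  simp only [mul_add, add_mul, one_mul, mul_one, single_mul_single_same, s0 hij.symm, s0 hjk.symm, s0 hik.symm,
    zero_mul, add_zero, zero_add]
  abel

/-- `M` is monomial: `M e_b = c b • e_{π b}`. -/
def Mon (m : SpecialLinearGroup I F) (π : Perm I) (c : I → F) : Prop :=
  (∀ a b, (m : Matrix I I F) a b = if a = π b then c b else 0) ∧ ∀ a, c a ≠ 0

namespace Mon

variable {m m' : SpecialLinearGroup I F} {π π' : Perm I} {c c' : I → F}

theorem one : Mon (1 : SpecialLinearGroup I F) 1 fun _ => 1 :=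
  ⟨fun a b => by rw [Matrix.SpecialLinearGroup.coe_one, one_apply]; rfl, fun _ => one_ne_zero⟩

theorem mul (h : Mon m π c) (h' : Mon m' π' c') : Mon (m * m') (π * π') fun b => c (π' b) * c' b := by
  refine ⟨fun a b => ?_, fun a => mul_ne_zero (h.2 _) (h'.2 _)⟩
  rw [Matrix.SpecialLinearGroup.coe_mul, mul_apply, Finset.sum_eq_single (π' b)]
  · rw [h.1, h'.1, if_pos rfl, Perm.mul_apply]
    split_ifs <;> simp
  · intro k _ hk
    rw [h'.1, if_neg hk, mul_zero]
  · intro h; exact absurd (Finset.mem_univ _) h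

theorem ext_eq (h : Mon m π c) (h' : Mon m' π c) : m = m' := by
  apply Subtype.ext
  ext a b
  rw [h.1, h'.1]

theorem inv (h : Mon m π c) : Mon m⁻¹ π⁻¹ fun b => (c (π⁻¹ b))⁻¹ := by
  refine ⟨?_, fun a => inv_ne_zero (h.2 _)⟩
  have key : (m : Matrix I I F) * (Matrix.of fun a b => if a = π⁻¹ b then (c (π⁻¹ b))⁻¹ else 0) = 1 := by
    ext a b
    rw [mul_apply, Finset.sum_eq_single (π⁻¹ b)]
    · rw [h.1, of_apply, if_pos rfl, one_apply]
      by_cases hab : a = b
      · subst hab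
        simp [h.2]
      · simp [hab]
    · intro k _ hk
      rw [of_apply, if_neg hk, mul_zero]
    · intro h; exact absurd (Finset.mem_univ _) h
  have e : ((m⁻¹ : SpecialLinearGroup I F) : Matrix I I F) =
      Matrix.of fun a b => if a = π⁻¹ b then (c (π⁻¹ b))⁻¹ else 0 := by
    have h1 : ((m⁻¹ : SpecialLinearGroup I F) : Matrix I I F) * (m : Matrix I I F) = 1 := by
      rw [← Matrix.SpecialLinearGroup.coe_mul, inv_mul_cancel, Matrix.SpecialLinearGroup.coe_one]
    calc ((m⁻¹ : SpecialLinearGroup I F) : Matrix I I F)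
        = ((m⁻¹ : SpecialLinearGroup I F) : Matrix I I F) * ((m : Matrix I I F) *
          (Matrix.of fun a b => if a = π⁻¹ b then (c (π⁻¹ b))⁻¹ else 0)) := by rw [key, mul_one]
      _ = _ := by rw [← mul_assoc, h1, one_mul]
  intro a b
  rw [e, of_apply]

theorem conj_X (h : Mon m π c) {i j : I} (hij : i ≠ j) (t : F) :
    m * X i j t * m⁻¹ = X (π i) (π j) (c i * t * (c j)⁻¹) := by
  rw [X_of hij, X_of (π.injective.ne hij)]
  exact Cfsg.Agent.H135.SLCyc.conj_of_mono h.1 h.2 hij t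

/-- products of monomials with prescribed data -/
theorem congr (h : Mon m π c) (hπ : π = π') (hc : ∀ a, c a = c' a) : Mon m π' c' := by
  subst hπ
  have : c = c' := funext hc
  subst this
  exact h

end Mon

/-- the Weyl element `w_ij(u)` -/
def Wu (i j : I) (u : F) : SpecialLinearGroup I F := X i j u * X j i (-u⁻¹) * X i j u

theorem mon_Wu {i j : I} (hij : i ≠ j) {u : F} (hu : u ≠ 0) :
    Mon (Wu i j u) (swap i j) fun k => if k = i then -u⁻¹ else if k = j then u else 1 := by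
  refine ⟨fun a b => ?_, fun a => ?_⟩
  swap
  · dsimp only
    split_ifs
    · exact neg_ne_zero.2 (inv_ne_zero hu)
    · exact hu
    · exact one_ne_zero
  have e : (Wu i j u : Matrix I I F) = 1 + single i j u + single j i (-u⁻¹) - single i i 1 - single j j 1 := by
    unfold Wu
    rw [Matrix.SpecialLinearGroup.coe_mul, Matrix.SpecialLinearGroup.coe_mul, coe_X hij, coe_X hij.symm]
    simp only [mul_add, add_mul, one_mul, mul_one, single_mul_single_same, s0 hij.symm]
    have h1 : u * -u⁻¹ = -1 := by field_simp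
    have h2 : -u⁻¹ * u = -1 := by field_simp
    simp only [h1, h2, neg_one_mul, zero_mul, add_zero]
    have h3 : ∀ p q : I, single p q (-1 : F) = - single p q 1 := fun p q => by
      rw [← single_neg]
    have h4 : single i j (-u) = - single i j u := by rw [← single_neg]
    rw [h3, h3, h4]
    abel
  rw [e, Matrix.sub_apply, Matrix.sub_apply, Matrix.add_apply, Matrix.add_apply, one_apply, single_apply, single_apply, single_apply,
    single_apply]
  dsimp only
  by_cases hbi : b = i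
  · subst hbi
    rw [swap_apply_left, if_pos (rfl : b = b)]
    by_cases ha : a = b
    · subst ha
      simp [hij, hij.symm]
    · by_cases ha' : a = j
      · subst ha'
        simp [hij, hij.symm]
      · simp [ha, ha', Ne.symm ha, Ne.symm ha', hij.symm]
  · by_cases hbj : b = j
    · subst hbj
      rw [swap_apply_right, if_neg hij.symm, if_pos (rfl : b = b)]
      by_cases ha : a = b
      · subst ha
        simp [hij, hij.symm]
      · by_cases ha' : a = i
        · subst ha'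
          simp [hij, hij.symm]
        · simp [ha, ha', Ne.symm ha, Ne.symm ha', hij]
    · rw [swap_apply_of_ne_of_ne hbi hbj, if_neg hbi, if_neg hbj]
      simp [Ne.symm hbi, Ne.symm hbj]

/-- the torus element `h_ij(u)` -/
def Hd (i j : I) (u : F) : SpecialLinearGroup I F := Wu i j u * Wu i j (-1)

theorem mon_Hd {i j : I} (hij : i ≠ j) {u : F} (hu : u ≠ 0) :
    Mon (Hd i j u) 1 fun k => if k = i then u else if k = j then u⁻¹ else 1 := by
  refine ((mon_Wu hij hu).mul (mon_Wu hij (neg_ne_zero.2 one_ne_zero))).congr (swap_mul_self _ _) fun a => ?_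
  by_cases hai : a = i
  · subst hai
    simp [hij.symm]
  · by_cases haj : a = j
    · subst haj
      simp [hij.symm]
    · rw [swap_apply_of_ne_of_ne hai haj]
      simp [hai, haj]

theorem Wu_inv {i j : I} (u : F) : (Wu i j u)⁻¹ = Wu i j (-u) := by
  unfold Wu
  rw [_root_.mul_inv_rev, _root_.mul_inv_rev, X_inv, X_inv, inv_neg, neg_neg, ← mul_assoc]

theorem Wu_neg_mul {i j : I} (hij : i ≠ j) {u : F} (hu : u ≠ 0) : Wu i j (-u) * Wu i j 1 = Hd i j u := by
  refine ((mon_Wu hij (neg_ne_zero.2 hu)).mul (mon_Wu hij one_ne_zero)).ext_eq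
    ((mon_Hd hij hu).congr (swap_mul_self _ _).symm fun a => ?_)
  by_cases h : a = i
  · simp [h, hij.symm]
  · by_cases h' : a = j
    · simp [h', hij.symm]
    · simp [h, h', swap_apply_of_ne_of_ne h h']

theorem Wu_mul_Hd {i j : I} (hij : i ≠ j) {u : F} (hu : u ≠ 0) : Wu i j 1 * Hd i j u⁻¹ = Wu i j u := by
  refine ((mon_Wu hij one_ne_zero).mul (mon_Hd hij (inv_ne_zero hu))).ext_eq
    ((mon_Wu hij hu).congr (mul_one _).symm fun a => ?_)
  by_cases h : a = i
  · simp [h]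
  · by_cases h' : a = j
    · simp [h', hij.symm]
    · simp [h, h']

theorem Hd_mul {i j : I} (hij : i ≠ j) {u v : F} (hu : u ≠ 0) (hv : v ≠ 0) :
    Hd i j (u * v) = Hd i j u * Hd i j v := by
  refine (mon_Hd hij (mul_ne_zero hu hv)).ext_eq (((mon_Hd hij hu).mul (mon_Hd hij hv)).congr (one_mul _) fun a => ?_)
  simp only [Perm.one_apply]
  by_cases h : a = i
  · simp [h]
  · by_cases h' : a = j
    · simp [h', hij.symm, mul_comm]
    · simp [h, h']

theorem Hd_symm {i j : I} (hij : i ≠ j) {u : F} (hu : u ≠ 0) : Hd j i u = Hd i j u⁻¹ := by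
  refine (mon_Hd hij.symm hu).ext_eq ((mon_Hd hij (inv_ne_zero hu)).congr rfl fun a => ?_)
  by_cases h : a = i
  · simp [h, hij]
  · by_cases h' : a = j
    · simp [h', hij.symm]
    · simp [h, h']

theorem Hd_trans {i j k : I} (hij : i ≠ j) (hik : i ≠ k) (hjk : j ≠ k) {u : F} (hu : u ≠ 0) :
    Hd i k u = Hd i j u * Hd j k u := by
  refine (mon_Hd hik hu).ext_eq (((mon_Hd hij hu).mul (mon_Hd hjk hu)).congr (one_mul _) fun a => ?_)
  simp only [Perm.one_apply]
  by_cases h : a = i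
  · simp [h, hij, hik]
  · by_cases h' : a = j
    · simp [h', hij.symm, hjk, hu]
    · by_cases h'' : a = k
      · simp [h'', hik.symm, hjk.symm]
      · simp [h, h', h'']

end Cfsg.Agent.H110.D
end

-- part: H110/D/Sys
section
/-!
# The abstract group of type `D`: the elements `ss p q` (helper110, for S2295)

`φ : SL(I, F) →* J` and `s : J` (sign change in the planes `o`, `l`).
-/

set_option autoImplicit false

namespace Cfsg.Agent.H110.D

open Equiv Matrix

variable {I F : Type*} [Fintype I] [DecidableEq I] [Field F] {J : Type*} [Group J]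

/-- `g` acts on the complement of `o, l` only -/
def InC (o l : I) (g : Matrix.SpecialLinearGroup I F) : Prop :=
  ∀ a, (g : Matrix I I F) a o = (1 : Matrix I I F) a o ∧ (g : Matrix I I F) a l = (1 : Matrix I I F) a l ∧
    (g : Matrix I I F) o a = (1 : Matrix I I F) o a ∧ (g : Matrix I I F) l a = (1 : Matrix I I F) l a

/-- the 3-cycle `o → l → c → o` -/
def zz (F : Type*) [Field F] (o l c : I) : Matrix.SpecialLinearGroup I F := Wu l o 1 * Wu c l 1

/-- the 3-cycle `o → l → c → o` -/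
def tau (o l c : I) : Perm I := swap l o * swap c l

omit [Fintype I] in
theorem tau_o {o l c : I} (hol : o ≠ l) (hoc : o ≠ c) : tau o l c o = l := by
  unfold tau
  rw [Perm.mul_apply, swap_apply_of_ne_of_ne hoc hol, swap_apply_right]

omit [Fintype I] in
theorem tau_l {o l c : I} (hoc : o ≠ c) (hlc : l ≠ c) : tau o l c l = c := by
  unfold tau
  rw [Perm.mul_apply, swap_apply_right, swap_apply_of_ne_of_ne hlc.symm hoc.symm]

omit [Fintype I] in
theorem tau_c {o l c : I} : tau o l c c = o := by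
  unfold tau
  rw [Perm.mul_apply, swap_apply_left, swap_apply_left]

omit [Fintype I] in
theorem tau_other {o l c a : I} (h1 : a ≠ o) (h2 : a ≠ l) (h3 : a ≠ c) : tau o l c a = a := by
  unfold tau
  rw [Perm.mul_apply, swap_apply_of_ne_of_ne h3 h2, swap_apply_of_ne_of_ne h2 h1]

theorem mon_zz {o l c : I} (hol : o ≠ l) (hoc : o ≠ c) (hlc : l ≠ c) : Mon (zz F o l c) (tau o l c) fun _ => 1 := by
  refine ((mon_Wu hol.symm one_ne_zero).mul (mon_Wu hlc.symm one_ne_zero)).congr rfl fun a => ?_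
  by_cases h1 : a = o
  · subst h1
    simp only [swap_apply_of_ne_of_ne hoc hol, if_neg hol, if_neg hoc]
    simp
  · by_cases h2 : a = l
    · subst h2
      simp [hlc, hlc.symm, hoc.symm]
    · by_cases h3 : a = c
      · subst h3
        simp
      · simp only [swap_apply_of_ne_of_ne h3 h2, if_neg h1, if_neg h2, if_neg h3, mul_one]

theorem zz3 {o l c : I} (hol : o ≠ l) (hoc : o ≠ c) (hlc : l ≠ c) : zz F o l c * zz F o l c * zz F o l c = 1 := by
  have hm := mon_zz (F := F) hol hoc hlc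
  refine ((hm.mul hm).mul hm).ext_eq (Mon.one.congr ?_ fun a => by simp)
  ext a
  simp only [Perm.mul_apply, Perm.one_apply]
  have e1 := tau_o hol hoc
  have e2 := tau_l hoc hlc
  have e3 := tau_c (o := o) (l := l) (c := c)
  by_cases h1 : a = o
  · simp only [h1, e1, e2, e3]
  · by_cases h2 : a = l
    · simp only [h2, e1, e2, e3]
    · by_cases h3 : a = c
      · simp only [h3, e1, e2, e3]
      · simp only [tau_other h1 h2 h3]

theorem zz_W {o l c : I} (hol : o ≠ l) (hoc : o ≠ c) (hlc : l ≠ c) :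
    Wu o l 1 * (zz F o l c * zz F o l c) = zz F o l c * (Wu o l 1)⁻¹ := by
  have hm := mon_zz (F := F) hol hoc hlc
  have e1 := tau_o hol hoc
  have e2 := tau_l hoc hlc
  have e3 := tau_c (o := o) (l := l) (c := c)
  rw [eq_mul_inv_iff_mul_eq]
  refine (((mon_Wu hol one_ne_zero).mul (hm.mul hm)).mul (mon_Wu hol one_ne_zero)).ext_eq
    (hm.congr ?_ fun a => ?_)
  · ext a
    simp only [Perm.mul_apply]
    by_cases h1 : a = o
    · simp only [h1, swap_apply_left, e1, e2, e3]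
    · by_cases h2 : a = l
      · simp only [h2, swap_apply_right, e1, e2, e3, swap_apply_of_ne_of_ne hoc.symm hlc.symm]
      · by_cases h3 : a = c
        · simp only [h3, swap_apply_of_ne_of_ne hoc.symm hlc.symm, e1, e2, e3, swap_apply_right]
        · simp only [swap_apply_of_ne_of_ne h1 h2, tau_other h1 h2 h3]
  · simp only [Perm.mul_apply]
    by_cases h1 : a = o
    · simp [h1, e1, e2, e3]
    · by_cases h2 : a = l
      · simp [h2, e1, e2, e3, hol.symm, hoc.symm, hlc.symm]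
      · by_cases h3 : a = c
        · simp [h3, e1, e2, e3, hol.symm, hoc.symm, hlc.symm, swap_apply_of_ne_of_ne hoc.symm hlc.symm]
        · simp [h1, h2, tau_other h1 h2 h3, swap_apply_of_ne_of_ne h1 h2]

/-- First hypotheses. -/
structure Sys1 (φ : Matrix.SpecialLinearGroup I F →* J) (s : J) (o l c : I) : Prop where
  hol : o ≠ l
  hoc : o ≠ c
  hlc : l ≠ c
  hI : 4 ≤ Fintype.card I
  sq : s * s = 1
  sC : ∀ g, InC o l g → Commute s (φ g)
  sB : ∀ t, MulAut.conj s (φ (X o l t)) = φ (X l o (-t))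
  s3 : s * MulAut.conj (φ (zz F o l c)) s * MulAut.conj (φ (zz F o l c * zz F o l c)) s = 1

theorem conj_conj (a b x : J) : MulAut.conj (MulAut.conj a b) (MulAut.conj a x) = MulAut.conj a (MulAut.conj b x) := by
  simp only [MulAut.conj_apply]
  group

/-- signs -/
def Sgn (c : I → F) : Prop := ∀ a, c a = 1 ∨ c a = -1

theorem Sgn.mul {c c' : I → F} (π : Perm I) (h : Sgn c) (h' : Sgn c') : Sgn fun b => c (π b) * c' b := by
  intro b
  rcases h (π b) with h1 | h1 <;> rcases h' b with h2 | h2 <;> simp [h1, h2]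

theorem Sgn.inv {c : I → F} (π : Perm I) (h : Sgn c) : Sgn fun b => (c (π b))⁻¹ := by
  intro b
  rcases h (π b) with h1 | h1
  · left; simp [h1]
  · right; simp only [h1]; rw [inv_neg, inv_one]

theorem sgn_Wu (i j : I) : Sgn fun k => if k = i then -(1 : F)⁻¹ else if k = j then 1 else 1 := by
  intro b
  dsimp only
  split_ifs <;> simp

theorem exists_smon (π : Perm I) :
    ∃ (m : Matrix.SpecialLinearGroup I F) (c : I → F), Mon m π c ∧ Sgn c := by
  induction π using Perm.swap_induction_on with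
  | one => exact ⟨1, _, Mon.one, fun _ => Or.inl rfl⟩
  | swap_mul π i j hij ih =>
    obtain ⟨m, c, hm, hc⟩ := ih
    exact ⟨_, _, (mon_Wu hij one_ne_zero).mul hm, (sgn_Wu i j).mul π hc⟩

theorem exists_perm3 {o l c p q r : I} (h1 : o ≠ l) (h2 : o ≠ c) (h3 : l ≠ c) (h4 : p ≠ q) (h5 : p ≠ r)
    (h6 : q ≠ r) : ∃ π : Perm I, π o = p ∧ π l = q ∧ π c = r := by
  have a1 : swap o p l ≠ p := by
    intro e
    have : l = o := (swap o p).injective (by rw [e, swap_apply_left])
    exact h1 this.symm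
  set l' := swap o p l
  have a2 : swap l' q p = p := swap_apply_of_ne_of_ne a1.symm h4
  have e1 : (swap l' q * swap o p) o = p := by rw [Perm.mul_apply, swap_apply_left, a2]
  have e2 : (swap l' q * swap o p) l = q := by rw [Perm.mul_apply]; exact swap_apply_left _ _
  set c' := (swap l' q * swap o p) c
  have b1 : c' ≠ p := by
    intro e
    exact h2 ((swap l' q * swap o p).injective (e1.trans e.symm))
  have b2 : c' ≠ q := by
    intro e
    exact h3 ((swap l' q * swap o p).injective (e2.trans e.symm))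
  refine ⟨swap c' r * (swap l' q * swap o p), ?_, ?_, ?_⟩
  · rw [Perm.mul_apply, e1, swap_apply_of_ne_of_ne b1.symm h5]
  · rw [Perm.mul_apply, e2, swap_apply_of_ne_of_ne b2.symm h6]
  · rw [Perm.mul_apply]; exact swap_apply_left _ _

theorem exists_out (h : 4 ≤ Fintype.card I) (i j k : I) : ∃ d : I, d ≠ i ∧ d ≠ j ∧ d ≠ k := by
  by_contra hcon
  push Not at hcon
  have : (Finset.univ : Finset I) ⊆ {i, j, k} := by
    intro d _
    simp only [Finset.mem_insert, Finset.mem_singleton]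
    by_cases h1 : d = i
    · exact Or.inl h1
    · by_cases h2 : d = j
      · exact Or.inr (Or.inl h2)
      · exact Or.inr (Or.inr (hcon d h1 h2))
  have h1 := Finset.card_le_card this
  rw [Finset.card_univ] at h1
  have h2 : ({i, j, k} : Finset I).card ≤ 3 := Finset.card_le_three
  omega

namespace Sys1

variable {φ : Matrix.SpecialLinearGroup I F →* J} {s : J} {o l c : I} (A : Sys1 φ s o l c)
include A

theorem inv_s : s⁻¹ = s := inv_eq_of_mul_eq_one_right A.sq

theorem sB' (t : F) : MulAut.conj s (φ (X l o t)) = φ (X o l (-t)) := by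
  have h := A.sB (-t)
  rw [neg_neg] at h
  rw [← h]
  simp only [MulAut.conj_apply]
  have h1 := A.sq
  have h2 := A.inv_s
  rw [h2]
  calc s * (s * φ (X o l (-t)) * s) * s = (s * s) * φ (X o l (-t)) * (s * s) := by group
    _ = _ := by rw [h1, one_mul, mul_one]

theorem comm_W : Commute s (φ (Wu o l 1)) := by
  have h1 : MulAut.conj s (φ (Wu o l 1)) = φ (Wu l o (-1)) := by
    unfold Wu
    rw [map_mul, map_mul, map_mul, map_mul, A.sB, A.sB', map_mul, map_mul]
    simp
  have h2 : (Wu l o (-1) : Matrix.SpecialLinearGroup I F) = Wu o l 1 := by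
    refine (mon_Wu A.hol.symm (neg_ne_zero.2 one_ne_zero)).ext_eq
      ((mon_Wu A.hol one_ne_zero).congr (swap_comm _ _) fun a => ?_)
    by_cases h : a = o
    · subst h; simp [A.hol]
    · by_cases h' : a = l
      · subst h'; simp [h]
      · simp [h, h']
  rw [h2, MulAut.conj_apply, mul_inv_eq_iff_eq_mul] at h1
  exact h1

/-- `s` commutes with the sign change in `l, c`. -/
theorem comm_D : Commute s (φ (zz F o l c * (Wu o l 1 * Wu o l 1) * (zz F o l c)⁻¹)) := by
  have hz3 := zz3 (F := F) A.hol A.hoc A.hlc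
  have hW := zz_W (F := F) A.hol A.hoc A.hlc
  set z := zz F o l c with hz
  set W := Wu (F := F) o l 1 with hWdef
  have hs := A.sq
  have hc := A.comm_W
  rw [← hWdef] at hc
  set s12 := MulAut.conj (φ z) s with h12
  set s20 := MulAut.conj (φ (z * z)) s with h20
  have q12 : s12 * s12 = 1 := by rw [h12, ← map_mul, hs, map_one]
  have q20 : s20 * s20 = 1 := by rw [h20, ← map_mul, hs, map_one]
  have h3 : s * s12 * s20 = 1 := A.s3
  -- conjugation by `W`
  have c20 : MulAut.conj (φ W) s20 = s12 := by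
    rw [h20, ← MulAut.mul_apply, ← map_mul, ← map_mul, hW, map_mul, map_mul, MulAut.mul_apply, map_inv, map_inv]
    have : (MulAut.conj (φ W))⁻¹ s = s := by
      rw [MulAut.conj_inv_apply]
      rw [mul_assoc, hc.eq]; group
    rw [this]
  have cs : MulAut.conj (φ W) s = s := by
    rw [MulAut.conj_apply, ← hc.eq, mul_inv_cancel_right]
  have h4 : s * MulAut.conj (φ W) s12 * s12 = 1 := by
    have := congrArg (MulAut.conj (φ W)) h3
    rwa [map_mul, map_mul, cs, c20, map_one] at this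
  have h5 : MulAut.conj (φ W) s12 = s20 := by
    have e1 : MulAut.conj (φ W) s12 = s * s12 := by
      calc MulAut.conj (φ W) s12 = s⁻¹ * (s * MulAut.conj (φ W) s12 * s12) * s12⁻¹ := by group
        _ = s * s12 := by
          rw [h4, mul_one, inv_eq_of_mul_eq_one_right hs, inv_eq_of_mul_eq_one_right q12]
    have e2 : s20 = s * s12 := by
      have : s20⁻¹ = s * s12 := by
        rw [inv_eq_iff_mul_eq_one]
        rw [mul_eq_one_iff_eq_inv] at h3
        rw [h3, mul_inv_cancel]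
      rw [← this, inv_eq_of_mul_eq_one_right q20]
    rw [e1, e2]
  have h6 : MulAut.conj (φ (W * W)) s20 = s20 := by
    rw [map_mul, map_mul, MulAut.mul_apply, c20, h5]
  have h7 : MulAut.conj (φ z) s20 = s := by
    rw [h20, ← MulAut.mul_apply, ← map_mul, ← map_mul, ← mul_assoc, hz3, map_one, map_one, MulAut.one_apply]
  have h8 : MulAut.conj (φ (z * (W * W) * z⁻¹)) s = s := by
    have : z * (W * W) * z⁻¹ * z = z * (W * W) := by group
    rw [← h7, ← MulAut.mul_apply, ← map_mul, ← map_mul, this, map_mul, map_mul, MulAut.mul_apply, h6, h7]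
  rw [MulAut.conj_apply, mul_inv_eq_iff_eq_mul] at h8
  exact h8.symm

theorem mon_WW : Mon (Wu o l 1 * Wu o l 1) 1 fun a => if a = o ∨ a = l then (-1 : F) else 1 := by
  refine ((mon_Wu A.hol one_ne_zero).mul (mon_Wu A.hol one_ne_zero)).congr (swap_mul_self _ _) fun a => ?_
  by_cases h1 : a = o
  · simp [h1, A.hol.symm]
  · by_cases h2 : a = l
    · simp [h2, A.hol.symm]
    · simp [h1, h2, swap_apply_of_ne_of_ne h1 h2]

theorem mon_D : Mon (zz F o l c * (Wu o l 1 * Wu o l 1) * (zz F o l c)⁻¹) 1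
    fun a => if a = l ∨ a = c then (-1 : F) else 1 := by
  have hm := mon_zz (F := F) A.hol A.hoc A.hlc
  have e1 := tau_o A.hol A.hoc
  have e2 := tau_l A.hoc A.hlc
  refine ((hm.mul A.mon_WW).mul hm.inv).congr (by group) fun a => ?_
  have h1 : (tau o l c)⁻¹ a = o ↔ a = l := by
    rw [Perm.inv_eq_iff_eq, e1]
  have h2 : (tau o l c)⁻¹ a = l ↔ a = c := by
    rw [Perm.inv_eq_iff_eq, e2]
  simp only [h1, h2, inv_one, mul_one, one_mul]

theorem comm_fix {m : Matrix.SpecialLinearGroup I F} {π : Perm I} {e : I → F} (hm : Mon m π e)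
    (h1 : π o = o) (h2 : π l = l) (h3 : e o = 1) (h4 : e l = 1) : Commute s (φ m) := by
  apply A.sC
  intro a
  refine ⟨?_, ?_, ?_, ?_⟩
  · rw [hm.1, h1, h3, one_apply]
  · rw [hm.1, h2, h4, one_apply]
  · rw [hm.1, one_apply]
    by_cases ha : o = a
    · subst ha; rw [h1, h3]
    · rw [if_neg ha, if_neg]
      intro h
      exact ha (π.injective (h1.trans h))
  · rw [hm.1, one_apply]
    by_cases ha : l = a
    · subst ha; rw [h2, h4]
    · rw [if_neg ha, if_neg]
      intro h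
      exact ha (π.injective (h2.trans h))

theorem comm_fix' {m : Matrix.SpecialLinearGroup I F} {π : Perm I} {e : I → F} (hm : Mon m π e) (he : Sgn e)
    (h1 : π o = o) (h2 : π l = l) : Commute s (φ m) := by
  have hWW : Commute s (φ (Wu o l 1 * Wu o l 1)) := by
    rw [map_mul]; exact A.comm_W.mul_right A.comm_W
  have hcl : ∀ m' : Matrix.SpecialLinearGroup I F, Commute s (φ m') → Commute s (φ (m * m')) → Commute s (φ m) := by
    intro m' h h'
    have : φ m = φ (m * m') * (φ m')⁻¹ := by rw [map_mul, mul_inv_cancel_right]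
    rw [this]
    exact h'.mul_right h.inv_right
  rcases he o with ho | ho <;> rcases he l with hl | hl
  · exact A.comm_fix hm h1 h2 ho hl
  · -- sign at `l`
    refine hcl _ A.comm_D (A.comm_fix (hm.mul A.mon_D) h1 h2 ?_ ?_)
    · simp [ho, A.hol, A.hoc]
    · simp [hl]
  · -- sign at `o`
    refine hcl _ (show Commute s (φ ((Wu o l 1 * Wu o l 1) * (zz F o l c * (Wu o l 1 * Wu o l 1) * (zz F o l c)⁻¹)))
      from by rw [map_mul]; exact hWW.mul_right A.comm_D)
      (A.comm_fix (hm.mul (A.mon_WW.mul A.mon_D)) h1 h2 ?_ ?_)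
    · simp [ho, A.hol, A.hoc]
    · simp [hl]
  · refine hcl _ hWW (A.comm_fix (hm.mul A.mon_WW) h1 h2 ?_ ?_)
    · simp [ho]
    · simp [hl]

/-- **The stabilizer of `{o, l}` centralizes `s`.** -/
theorem comm_stab {m : Matrix.SpecialLinearGroup I F} {π : Perm I} {e : I → F} (hm : Mon m π e) (he : Sgn e)
    (h : (π o = o ∧ π l = l) ∨ (π o = l ∧ π l = o)) : Commute s (φ m) := by
  rcases h with h | h
  · exact A.comm_fix' hm he h.1 h.2
  · have h1 : Commute s (φ (m * Wu o l 1)) := by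
      refine A.comm_fix' (hm.mul (mon_Wu A.hol one_ne_zero)) (he.mul (swap o l) (sgn_Wu o l)) ?_ ?_
      · rw [Perm.mul_apply, swap_apply_left, h.2]
      · rw [Perm.mul_apply, swap_apply_right, h.1]
    have : φ m = φ (m * Wu o l 1) * (φ (Wu o l 1))⁻¹ := by rw [map_mul, mul_inv_cancel_right]
    rw [this]
    exact h1.mul_right A.comm_W.inv_right

theorem exists_mm {p q : I} (h : p ≠ q) : ∃ (m : Matrix.SpecialLinearGroup I F) (π : Perm I) (e : I → F),
    Mon m π e ∧ Sgn e ∧ π o = p ∧ π l = q := by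
  obtain ⟨r, hr1, hr2, -⟩ := exists_out A.hI p q q
  obtain ⟨π, h1, h2, -⟩ := exists_perm3 A.hol A.hoc A.hlc h hr1.symm hr2.symm
  obtain ⟨m, e, hm, he⟩ := exists_smon (F := F) π
  exact ⟨m, π, e, hm, he, h1, h2⟩

end Sys1

open Classical in
/-- the sign change in the planes `p`, `q` -/
noncomputable def ss (φ : Matrix.SpecialLinearGroup I F →* J) (s : J) (o l : I) (p q : I) : J :=
  if h : p ≠ q ∧ ∃ (m : Matrix.SpecialLinearGroup I F) (π : Perm I) (e : I → F),
    Mon m π e ∧ Sgn e ∧ π o = p ∧ π l = q then MulAut.conj (φ h.2.choose) s else 1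

theorem ss_self (φ : Matrix.SpecialLinearGroup I F →* J) (s : J) (o l p : I) : ss φ s o l p p = 1 :=
  dif_neg (fun h => h.1 rfl)

namespace Sys1

variable {φ : Matrix.SpecialLinearGroup I F →* J} {s : J} {o l c : I} (A : Sys1 φ s o l c)
include A

theorem ss_spec {p q : I} (h : p ≠ q) : ∃ (m : Matrix.SpecialLinearGroup I F) (π : Perm I) (e : I → F),
    Mon m π e ∧ Sgn e ∧ π o = p ∧ π l = q ∧ ss φ s o l p q = MulAut.conj (φ m) s := by
  have h' := A.exists_mm h
  refine ⟨h'.choose, h'.choose_spec.choose, h'.choose_spec.choose_spec.choose,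
    h'.choose_spec.choose_spec.choose_spec.1, h'.choose_spec.choose_spec.choose_spec.2.1,
    h'.choose_spec.choose_spec.choose_spec.2.2.1, h'.choose_spec.choose_spec.choose_spec.2.2.2, ?_⟩
  exact dif_pos ⟨h, h'⟩

theorem ss_of {m : Matrix.SpecialLinearGroup I F} {π : Perm I} {e : I → F} (hm : Mon m π e) (he : Sgn e)
    {p q : I} (h : (π o = p ∧ π l = q) ∨ (π o = q ∧ π l = p)) : ss φ s o l p q = MulAut.conj (φ m) s := by
  have hpq : p ≠ q := by
    rcases h with h | h
    · rw [← h.1, ← h.2]; exact π.injective.ne A.hol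
    · rw [← h.1, ← h.2]; exact π.injective.ne A.hol.symm
  obtain ⟨m', π', e', hm', he', h1, h2, h3⟩ := A.ss_spec hpq
  rw [h3]
  have h4 := A.comm_stab (hm'.inv.mul hm) ((he'.inv π'⁻¹).mul π he) (by
    simp only [Perm.mul_apply, Perm.inv_eq_iff_eq]
    rcases h with h | h
    · left; rw [h.1, h.2, h1, h2]; exact ⟨rfl, rfl⟩
    · right; rw [h.1, h.2, h1, h2]; exact ⟨rfl, rfl⟩)
  have h5 : MulAut.conj (φ (m'⁻¹ * m)) s = s := by
    rw [MulAut.conj_apply, ← h4.eq, mul_inv_cancel_right]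
  have h6 : m = m' * (m'⁻¹ * m) := by group
  rw [h6, map_mul, map_mul, MulAut.mul_apply, h5]

theorem ss_symm (p q : I) : ss φ s o l p q = ss φ s o l q p := by
  by_cases h : p = q
  · rw [h]
  · obtain ⟨m, π, e, hm, he, h1, h2, h3⟩ := A.ss_spec h
    rw [h3, A.ss_of hm he (Or.inr ⟨h1, h2⟩)]

theorem ss_ol : ss φ s o l o l = s := by
  have h := A.ss_of (p := o) (q := l) Mon.one (fun _ => Or.inl rfl) (Or.inl ⟨rfl, rfl⟩)
  rw [h, map_one, map_one, MulAut.one_apply]

theorem ss_conj {m : Matrix.SpecialLinearGroup I F} {π : Perm I} {e : I → F} (hm : Mon m π e) (he : Sgn e)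
    (p q : I) : MulAut.conj (φ m) (ss φ s o l p q) = ss φ s o l (π p) (π q) := by
  by_cases h : p = q
  · rw [h, ss_self, ss_self, map_one]
  · obtain ⟨m', π', e', hm', he', h1, h2, h3⟩ := A.ss_spec h
    rw [h3, ← MulAut.mul_apply, ← map_mul, ← map_mul]
    symm
    refine A.ss_of (hm.mul hm') (he.mul π' he') (Or.inl ⟨?_, ?_⟩)
    · rw [Perm.mul_apply, h1]
    · rw [Perm.mul_apply, h2]

theorem ss_sq (p q : I) : ss φ s o l p q * ss φ s o l p q = 1 := by
  by_cases h : p = q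
  · rw [h, ss_self, one_mul]
  · obtain ⟨m', π', e', hm', he', h1, h2, h3⟩ := A.ss_spec h
    rw [h3, ← map_mul, A.sq, map_one]

theorem ss_inv (p q : I) : (ss φ s o l p q)⁻¹ = ss φ s o l p q := inv_eq_of_mul_eq_one_right (A.ss_sq p q)

theorem ss_mul (p q r : I) : ss φ s o l p q * ss φ s o l q r = ss φ s o l p r := by
  by_cases h1 : p = q
  · rw [h1, ss_self, one_mul]
  by_cases h2 : q = r
  · rw [h2, ss_self, mul_one]
  by_cases h3 : p = r
  · rw [h3, ss_self, A.ss_symm, A.ss_sq]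
  obtain ⟨π, h4, h5, h6⟩ := exists_perm3 A.hol A.hoc A.hlc h1 h3 h2
  obtain ⟨m, e, hm, he⟩ := exists_smon (F := F) π
  have hz := mon_zz (F := F) A.hol A.hoc A.hlc
  have e1 : MulAut.conj (φ (zz F o l c)) s = ss φ s o l l c := by
    symm
    exact A.ss_of hz (fun _ => Or.inl rfl) (Or.inl ⟨tau_o A.hol A.hoc, tau_l A.hoc A.hlc⟩)
  have e2 : MulAut.conj (φ (zz F o l c * zz F o l c)) s = ss φ s o l o c := by
    symm
    refine A.ss_of (hz.mul hz) (fun _ => Or.inl (by norm_num)) (Or.inr ⟨?_, ?_⟩)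
    · rw [Perm.mul_apply, tau_o A.hol A.hoc, tau_l A.hoc A.hlc]
    · rw [Perm.mul_apply, tau_l A.hoc A.hlc, tau_c]
  have h7 := A.s3
  rw [e1, e2, mul_eq_one_iff_eq_inv, A.ss_inv] at h7
  have h8 : ss φ s o l o l * ss φ s o l l c = ss φ s o l o c := by rw [A.ss_ol, h7]
  have h9 := congrArg (MulAut.conj (φ m)) h8
  rwa [map_mul, A.ss_conj hm he, A.ss_conj hm he, A.ss_conj hm he, h4, h5, h6] at h9

theorem ss_comm (p q r t : I) : Commute (ss φ s o l p q) (ss φ s o l r t) := by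
  have key : ∀ b x y, ss φ s o l b x * ss φ s o l b y = ss φ s o l x y := by
    intro b x y
    rw [A.ss_symm b x, A.ss_mul]
  have key2 : ∀ b x y, Commute (ss φ s o l b x) (ss φ s o l b y) := by
    intro b x y
    rw [Commute, SemiconjBy, key, key, A.ss_symm]
  rw [← A.ss_mul p o q, ← A.ss_mul r o t, A.ss_symm p o, A.ss_symm r o]
  exact ((key2 _ _ _).mul_left (key2 _ _ _)).mul_right ((key2 _ _ _).mul_left (key2 _ _ _))

theorem ss_X {p q k j : I} (hpk : p ≠ k) (hpj : p ≠ j) (hqk : q ≠ k) (hqj : q ≠ j) (t : F) :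
    Commute (ss φ s o l p q) (φ (X k j t)) := by
  by_cases h : p = q
  · rw [h, ss_self]; exact Commute.one_left _
  by_cases hkj : k = j
  · have : X k j t = 1 := dif_neg (by simpa using hkj)
    rw [this, map_one]; exact Commute.one_right _
  obtain ⟨m, π, e, hm, he, h1, h2, h3⟩ := A.ss_spec h
  obtain ⟨k', hk'⟩ := π.surjective k
  obtain ⟨j', hj'⟩ := π.surjective j
  have a1 : o ≠ k' := by rintro h; apply hpk; rw [← h1, h, hk']
  have a2 : o ≠ j' := by rintro h; apply hpj; rw [← h1, h, hj']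
  have a3 : l ≠ k' := by rintro h; apply hqk; rw [← h2, h, hk']
  have a4 : l ≠ j' := by rintro h; apply hqj; rw [← h2, h, hj']
  have a5 : k' ≠ j' := by rintro h; apply hkj; rw [← hk', ← hj', h]
  have h4 : ∀ u, Commute s (φ (X k' j' u)) := by
    intro u
    apply A.sC
    intro a
    simp only [coe_X a5, Matrix.add_apply, single_apply]
    refine ⟨?_, ?_, ?_, ?_⟩
    · simp [a2.symm]
    · simp [a4.symm]
    · simp [a1.symm]
    · simp [a3.symm]
  have h5 := hm.conj_X a5 ((e k')⁻¹ * t * (e j'))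
  rw [hk', hj'] at h5
  have h6 : e k' * ((e k')⁻¹ * t * e j') * (e j')⁻¹ = t := by
    have := hm.2 k'
    have := hm.2 j'
    field_simp
  rw [h6] at h5
  rw [h3, ← h5, map_mul, map_mul, map_inv, ← MulAut.conj_apply]
  exact (h4 _).map (MulAut.conj (φ m))

theorem ss_X' {p q : I} (h : p ≠ q) (t : F) :
    MulAut.conj (ss φ s o l p q) (φ (X p q t)) = φ (X q p (-t)) := by
  obtain ⟨m, π, e, hm, he, h1, h2, h3⟩ := A.ss_spec h
  have h5 := hm.conj_X A.hol ((e o)⁻¹ * t * (e l))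
  rw [h1, h2] at h5
  have h6 : e o * ((e o)⁻¹ * t * e l) * (e l)⁻¹ = t := by
    have := hm.2 o
    have := hm.2 l
    field_simp
  rw [h6] at h5
  have h7 := hm.conj_X A.hol.symm (-((e o)⁻¹ * t * (e l)))
  rw [h1, h2] at h7
  have h8 : e l * -((e o)⁻¹ * t * e l) * (e o)⁻¹ = -t := by
    have e1 : e l * e l = 1 := by rcases he l with hl | hl <;> rw [hl] <;> norm_num
    have e2 : (e o)⁻¹ * (e o)⁻¹ = 1 := by
      rcases he o with hl | hl
      · rw [hl]; norm_num
      · rw [hl, inv_neg, inv_one]; norm_num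
    calc e l * -((e o)⁻¹ * t * e l) * (e o)⁻¹ = -((e l * e l) * ((e o)⁻¹ * (e o)⁻¹) * t) := by ring
      _ = _ := by rw [e1, e2, one_mul, one_mul]
  rw [h8] at h7
  have h9 := congrArg (MulAut.conj (φ m)) (A.sB ((e o)⁻¹ * t * (e l)))
  have h10 : ∀ x, φ (m * x * m⁻¹) = MulAut.conj (φ m) (φ x) := fun x => by
    rw [map_mul, map_mul, map_inv, MulAut.conj_apply]
  rw [h3, ← h5, ← h7, h10, h10, conj_conj, h9]

end Sys1

end Cfsg.Agent.H110.D
end

-- part: H110/D/Roots
section
/-!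
# The abstract group of type `D`: root elements (helper110, for S2295)

Signed indices: `Sum.inl i = +i`, `Sum.inr i = -i`.  `Y a b t` is the root element of the root `a + b`.
-/

set_option autoImplicit false

namespace Cfsg.Agent.H110.D

open Equiv Matrix

section signed

variable {I : Type*} [DecidableEq I]

/-- underlying index -/
def idx : I ⊕ I → I := Sum.elim id id

/-- negative -/
def ng : I ⊕ I → I ⊕ I := Sum.swap

/-- change the sign of index `p` -/
def fl (p : I) (a : I ⊕ I) : I ⊕ I := if idx a = p then ng a else a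

@[simp] theorem idx_inl (i : I) : idx (Sum.inl i) = i := rfl
@[simp] theorem idx_inr (i : I) : idx (Sum.inr i) = i := rfl
@[simp] theorem ng_inl (i : I) : ng (Sum.inl i) = Sum.inr i := rfl
@[simp] theorem ng_inr (i : I) : ng (Sum.inr i) = Sum.inl i := rfl
@[simp] theorem ng_ng (a : I ⊕ I) : ng (ng a) = a := by rcases a with a | a <;> rfl
@[simp] theorem idx_ng (a : I ⊕ I) : idx (ng a) = idx a := by rcases a with a | a <;> rfl
@[simp] theorem fl_inl_self (p : I) : fl p (Sum.inl p) = Sum.inr p := by simp [fl]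
@[simp] theorem fl_inr_self (p : I) : fl p (Sum.inr p) = Sum.inl p := by simp [fl]
theorem fl_self {p : I} {a : I ⊕ I} (h : idx a = p) : fl p a = ng a := if_pos h
theorem fl_of_ne {p : I} {a : I ⊕ I} (h : idx a ≠ p) : fl p a = a := if_neg h
@[simp] theorem idx_fl (p : I) (a : I ⊕ I) : idx (fl p a) = idx a := by
  unfold fl; split_ifs <;> simp
@[simp] theorem fl_fl (p : I) (a : I ⊕ I) : fl p (fl p a) = a := by
  by_cases h : idx a = p
  · rw [fl_self (a := a) h, fl_self (by rwa [idx_ng]), ng_ng]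
  · rw [fl_of_ne h, fl_of_ne h]
theorem fl_comm (p q : I) (a : I ⊕ I) : fl p (fl q a) = fl q (fl p a) := by
  by_cases hp : idx a = p <;> by_cases hq : idx a = q
  · subst hp; subst hq; rfl
  · rw [fl_of_ne hq, fl_of_ne (a := fl p a) (by simpa using hq)]
  · rw [fl_of_ne hp, fl_of_ne (a := fl q a) (by simpa using hp)]
  · rw [fl_of_ne hp, fl_of_ne hq, fl_of_ne hp]
theorem ng_fl (p : I) (a : I ⊕ I) : ng (fl p a) = fl p (ng a) := by
  by_cases h : idx a = p
  · rw [fl_self h, fl_self (by rwa [idx_ng])]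
  · rw [fl_of_ne h, fl_of_ne (by rwa [idx_ng])]

end signed

/-- The data. -/
structure Pre (I F : Type*) [Fintype I] [DecidableEq I] [Field F] (J : Type*) [Group J] where
  φ : Matrix.SpecialLinearGroup I F →* J
  s : J
  o : I
  l : I
  c : I

variable {I F : Type*} [Fintype I] [DecidableEq I] [Field F] {J : Type*} [Group J]

open Classical in
/-- a third index -/
noncomputable def th (i j : I) : I := if h : ∃ d, d ≠ i ∧ d ≠ j then h.choose else i

namespace Pre

variable (P : Pre I F J)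

/-- first hypotheses -/
def S1 : Prop := Sys1 P.φ P.s P.o P.l P.c

/-- sign changes -/
noncomputable def σ (p q : I) : J := ss P.φ P.s P.o P.l p q

/-- root elements -/
noncomputable def Y : I ⊕ I → I ⊕ I → F → J
  | .inr j, .inl i, t => P.φ (X i j t)
  | .inr j, .inr i, t => MulAut.conj (P.σ (th i j) i) (P.φ (X i j t))
  | .inl j, .inl i, t => MulAut.conj (P.σ (th i j) j) (P.φ (X i j t))
  | .inl j, .inr i, t => P.φ (X j i (-t))

variable {P}

theorem Y_rl (i j : I) (t : F) : P.Y (.inr j) (.inl i) t = P.φ (X i j t) := rfl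
theorem Y_lr (i j : I) (t : F) : P.Y (.inl j) (.inr i) t = P.φ (X j i (-t)) := rfl

namespace S1

variable (A : P.S1)
include A

theorem th_spec (i j : I) : th i j ≠ i ∧ th i j ≠ j := by
  obtain ⟨d, h1, h2, -⟩ := exists_out A.hI i j j
  have h : ∃ d, d ≠ i ∧ d ≠ j := ⟨d, h1, h2⟩
  unfold th
  rw [dif_pos h]
  exact h.choose_spec

theorem σ_symm (p q : I) : P.σ p q = P.σ q p := Sys1.ss_symm A p q
theorem σ_sq (p q : I) : P.σ p q * P.σ p q = 1 := Sys1.ss_sq A p q
theorem σ_inv (p q : I) : (P.σ p q)⁻¹ = P.σ p q := Sys1.ss_inv A p q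
theorem σ_mul (p q r : I) : P.σ p q * P.σ q r = P.σ p r := Sys1.ss_mul A p q r
theorem σ_mul' (b p q : I) : P.σ b p * P.σ b q = P.σ p q := by rw [A.σ_symm b p, A.σ_mul]
omit A in
theorem σ_self (p : I) : P.σ p p = 1 := ss_self _ _ _ _ _
theorem σ_comm (p q r t : I) : Commute (P.σ p q) (P.σ r t) := Sys1.ss_comm A p q r t

theorem conj_σ_mul (p q r : I) (x : J) :
    MulAut.conj (P.σ p q) (MulAut.conj (P.σ q r) x) = MulAut.conj (P.σ p r) x := by
  rw [← MulAut.mul_apply, ← map_mul, A.σ_mul]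

theorem conj_σ_mul' (b p q : I) (x : J) :
    MulAut.conj (P.σ b p) (MulAut.conj (P.σ b q) x) = MulAut.conj (P.σ p q) x := by
  rw [← MulAut.mul_apply, ← map_mul, A.σ_mul']

theorem conj_σ_comm (p q r t : I) (x : J) :
    MulAut.conj (P.σ p q) (MulAut.conj (P.σ r t) x) = MulAut.conj (P.σ r t) (MulAut.conj (P.σ p q) x) := by
  rw [← MulAut.mul_apply, ← MulAut.mul_apply, ← map_mul, ← map_mul, (A.σ_comm p q r t).eq]

theorem conj_σ_sq (p q : I) (x : J) : MulAut.conj (P.σ p q) (MulAut.conj (P.σ p q) x) = x := by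
  rw [← MulAut.mul_apply, ← map_mul, A.σ_sq, map_one, MulAut.one_apply]

/-- `σ p q` centralizes `X i j` -/
theorem σ_X {p q i j : I} (h1 : p ≠ i) (h2 : p ≠ j) (h3 : q ≠ i) (h4 : q ≠ j) (t : F) :
    MulAut.conj (P.σ p q) (P.φ (X i j t)) = P.φ (X i j t) := by
  have h := Sys1.ss_X A h1 h2 h3 h4 t
  rw [MulAut.conj_apply]
  change P.σ p q * P.φ (X i j t) = P.φ (X i j t) * P.σ p q at h
  rw [h, mul_inv_cancel_right]

theorem σ_X' {i j : I} (h : i ≠ j) (t : F) : MulAut.conj (P.σ i j) (P.φ (X i j t)) = P.φ (X j i (-t)) :=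
  Sys1.ss_X' A h t

/-- the auxiliary index is arbitrary -/
theorem Y_rr {i j c : I} (hi : c ≠ i) (hj : c ≠ j) (t : F) :
    P.Y (.inr j) (.inr i) t = MulAut.conj (P.σ c i) (P.φ (X i j t)) := by
  obtain ⟨h1, h2⟩ := th_spec A i j
  change MulAut.conj (P.σ (th i j) i) (P.φ (X i j t)) = _
  rw [← A.conj_σ_mul (th i j) c i, A.conj_σ_comm, A.σ_X h1 h2 hi hj]

theorem Y_ll {i j c : I} (hi : c ≠ i) (hj : c ≠ j) (t : F) :
    P.Y (.inl j) (.inl i) t = MulAut.conj (P.σ c j) (P.φ (X i j t)) := by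
  obtain ⟨h1, h2⟩ := th_spec A i j
  change MulAut.conj (P.σ (th i j) j) (P.φ (X i j t)) = _
  rw [← A.conj_σ_mul (th i j) c j, A.conj_σ_comm, A.σ_X h1 h2 hi hj]

/-- change of one sign (and of the sign of an auxiliary index) -/
theorem fl_conj1 {a b : I ⊕ I} (hab : idx a ≠ idx b) {c : I} (ha : c ≠ idx a) (hb : c ≠ idx b) (p : I) (t : F) :
    MulAut.conj (P.σ c p) (P.Y a b t) = P.Y (fl p a) (fl p b) t := by
  rcases a with j | j <;> rcases b with i | i <;> simp only [idx_inl, idx_inr] at hab ha hb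
  · -- ll
    rw [A.Y_ll hb ha]
    by_cases hpi : p = i
    · subst hpi
      rw [fl_inl_self, fl_of_ne (p := p) (a := .inl j) hab, Y_lr, A.conj_σ_mul', A.σ_X' hab.symm]
    · by_cases hpj : p = j
      · subst hpj
        rw [fl_inl_self, fl_of_ne (p := p) (a := .inl i) hab.symm, Y_rl, A.conj_σ_sq]
      · rw [fl_of_ne (a := .inl j) (Ne.symm hpj), fl_of_ne (a := .inl i) (Ne.symm hpi), A.Y_ll hb ha, A.conj_σ_comm,
          A.σ_X hb ha hpi hpj]
  · -- lr
    rw [Y_lr]
    by_cases hpi : p = i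
    · subst hpi
      rw [fl_inr_self, fl_of_ne (p := p) (a := .inl j) hab, A.Y_ll hb ha, ← A.σ_X' hab.symm, A.conj_σ_mul]
    · by_cases hpj : p = j
      · subst hpj
        rw [fl_inl_self, fl_of_ne (p := p) (a := .inr i) hab.symm, A.Y_rr hb ha, ← A.σ_X' hab.symm, A.σ_symm i,
          A.conj_σ_mul]
      · rw [fl_of_ne (a := .inl j) (Ne.symm hpj), fl_of_ne (a := .inr i) (Ne.symm hpi), Y_lr,
          A.σ_X ha hb hpj hpi]
  · -- rl
    rw [Y_rl]
    by_cases hpi : p = i
    · subst hpi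
      rw [fl_inl_self, fl_of_ne (p := p) (a := .inr j) hab, A.Y_rr hb ha]
    · by_cases hpj : p = j
      · subst hpj
        rw [fl_inr_self, fl_of_ne (p := p) (a := .inl i) hab.symm, A.Y_ll hb ha]
      · rw [fl_of_ne (a := .inr j) (Ne.symm hpj), fl_of_ne (a := .inl i) (Ne.symm hpi), Y_rl,
          A.σ_X hb ha hpi hpj]
  · -- rr
    rw [A.Y_rr hb ha]
    by_cases hpi : p = i
    · subst hpi
      rw [fl_inr_self, fl_of_ne (p := p) (a := .inr j) hab, Y_rl, A.conj_σ_sq]
    · by_cases hpj : p = j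
      · subst hpj
        rw [fl_inr_self, fl_of_ne (p := p) (a := .inr i) hab.symm, Y_lr, A.conj_σ_mul', A.σ_symm,
          A.σ_X' hab.symm]
      · rw [fl_of_ne (a := .inr j) (Ne.symm hpj), fl_of_ne (a := .inr i) (Ne.symm hpi), A.Y_rr hb ha, A.conj_σ_comm,
          A.σ_X hb ha hpi hpj]

/-- **the action of `σ p q`** -/
theorem fl_conj {a b : I ⊕ I} (hab : idx a ≠ idx b) (p q : I) (t : F) :
    MulAut.conj (P.σ p q) (P.Y a b t) = P.Y (fl p (fl q a)) (fl p (fl q b)) t := by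
  obtain ⟨d, h1, h2, -⟩ := exists_out A.hI (idx a) (idx b) (idx b)
  rw [← A.σ_mul' d p q, map_mul, MulAut.mul_apply, A.fl_conj1 hab h1 h2,
    A.fl_conj1 (by simpa using hab) (by simpa using h1) (by simpa using h2)]

theorem Y_symm {a b : I ⊕ I} (hab : idx a ≠ idx b) (t : F) : P.Y b a t = P.Y a b (-t) := by
  obtain ⟨d, h1, h2, -⟩ := exists_out A.hI (idx a) (idx b) (idx b)
  rcases a with j | j <;> rcases b with i | i <;> simp only [idx_inl, idx_inr] at hab h1 h2
  · rw [A.Y_ll h1 h2, A.Y_ll h2 h1, ← A.conj_σ_mul d j i]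
    congr 1
    rw [A.σ_X' hab]
  · rw [Y_lr, Y_rl, neg_neg]
  · rw [Y_lr, Y_rl]
  · rw [A.Y_rr h1 h2, A.Y_rr h2 h1, ← A.conj_σ_mul d j i]
    congr 1
    rw [A.σ_symm, A.σ_X' hab.symm, neg_neg]

/-- **the action of monomial matrices** -/
theorem mon_conj {m : Matrix.SpecialLinearGroup I F} {π : Perm I} {e : I → F} (hm : Mon m π e) (he : Sgn e)
    {a b : I ⊕ I} (hab : idx a ≠ idx b) (t : F) :
    MulAut.conj (P.φ m) (P.Y a b t) =
      P.Y (Sum.map π π a) (Sum.map π π b) (e (idx a) * e (idx b) * t) := by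
  obtain ⟨d, h1, h2, -⟩ := exists_out A.hI (idx a) (idx b) (idx b)
  have hσ : ∀ p q, MulAut.conj (P.φ m) (P.σ p q) = P.σ (π p) (π q) := fun p q => Sys1.ss_conj A hm he p q
  have hX : ∀ i j u, i ≠ j → MulAut.conj (P.φ m) (P.φ (X i j u)) = P.φ (X (π i) (π j) (e i * e j * u)) := by
    intro i j u hij
    rw [MulAut.conj_apply, ← map_inv, ← map_mul, ← map_mul, hm.conj_X hij]
    have : (e j)⁻¹ = e j := by
      rcases he j with h | h
      · rw [h, inv_one]
      · rw [h, inv_neg, inv_one]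
    rw [this]
    congr 2
    ring
  rcases a with j | j <;> rcases b with i | i <;> simp only [idx_inl, idx_inr] at hab h1 h2 <;>
    simp only [Sum.map_inl, Sum.map_inr, idx_inl, idx_inr]
  · rw [A.Y_ll h2 h1, A.Y_ll (π.injective.ne h2) (π.injective.ne h1), ← hσ, ← mul_comm (e i), ← hX _ _ _ hab.symm,
      conj_conj]
  · rw [Y_lr, Y_lr, hX _ _ _ hab, mul_neg]
  · rw [Y_rl, Y_rl, hX _ _ _ hab.symm, mul_comm (e i)]
  · rw [A.Y_rr h2 h1, A.Y_rr (π.injective.ne h2) (π.injective.ne h1), ← hσ, ← mul_comm (e i), ← hX _ _ _ hab.symm,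
      conj_conj]

theorem Y_add {a b : I ⊕ I} (t u : F) : P.Y a b (t + u) = P.Y a b t * P.Y a b u := by
  rcases a with j | j <;> rcases b with i | i
  · change MulAut.conj _ (P.φ _) = MulAut.conj _ (P.φ _) * MulAut.conj _ (P.φ _)
    rw [← map_mul, ← map_mul, X_add]
  · rw [Y_lr, Y_lr, Y_lr, neg_add, X_add, map_mul]
  · rw [Y_rl, Y_rl, Y_rl, X_add, map_mul]
  · change MulAut.conj _ (P.φ _) = MulAut.conj _ (P.φ _) * MulAut.conj _ (P.φ _)
    rw [← map_mul, ← map_mul, X_add]

theorem Y_zero {a b : I ⊕ I} : P.Y a b 0 = 1 := by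
  have h := A.Y_add (a := a) (b := b) 0 0
  rw [add_zero] at h
  exact (mul_eq_left.1 h.symm)

theorem Y_inv {a b : I ⊕ I} (t : F) : (P.Y a b t)⁻¹ = P.Y a b (-t) := by
  rw [inv_eq_iff_mul_eq_one, ← A.Y_add, add_neg_cancel, A.Y_zero]

/-- A statement about roots in three indices is true if it is true in `φ(SL)`. -/
theorem sign3 {i j k : I} (hij : i ≠ j) (hik : i ≠ k) (hjk : j ≠ k)
    (Q : I ⊕ I → I ⊕ I → I ⊕ I → Prop)
    (hQ : ∀ (a b e : I ⊕ I) (p q : I), idx a = i → idx b = j → idx e = k →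
      Q a b e → Q (fl p (fl q a)) (fl p (fl q b)) (fl p (fl q e)))
    {a₀ b₀ e₀ : I ⊕ I} (h1 : idx a₀ = i) (h2 : idx b₀ = j) (h3 : idx e₀ = k) (h : Q a₀ b₀ e₀)
    {a b e : I ⊕ I} (h1' : idx a = i) (h2' : idx b = j) (h3' : idx e = k) : Q a b e := by
  obtain ⟨d, d1, d2, d3⟩ := exists_out A.hI i j k
  -- one flip at a time
  have f1 : ∀ a b e : I ⊕ I, idx a = i → idx b = j → idx e = k → Q a b e → Q (ng a) b e := by
    intro a b e ha hb he h
    have := hQ a b e i d ha hb he h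
    rwa [fl_of_ne (a := a) (by rw [ha]; exact d1.symm), fl_of_ne (a := b) (by rw [hb]; exact d2.symm),
      fl_of_ne (a := e) (by rw [he]; exact d3.symm), fl_self ha, fl_of_ne (by rw [hb]; exact hij.symm),
      fl_of_ne (by rw [he]; exact hik.symm)] at this
  have f2 : ∀ a b e : I ⊕ I, idx a = i → idx b = j → idx e = k → Q a b e → Q a (ng b) e := by
    intro a b e ha hb he h
    have := hQ a b e j d ha hb he h
    rwa [fl_of_ne (a := a) (by rw [ha]; exact d1.symm), fl_of_ne (a := b) (by rw [hb]; exact d2.symm),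
      fl_of_ne (a := e) (by rw [he]; exact d3.symm), fl_self hb, fl_of_ne (by rw [ha]; exact hij),
      fl_of_ne (by rw [he]; exact hjk.symm)] at this
  have f3 : ∀ a b e : I ⊕ I, idx a = i → idx b = j → idx e = k → Q a b e → Q a b (ng e) := by
    intro a b e ha hb he h
    have := hQ a b e k d ha hb he h
    rwa [fl_of_ne (a := a) (by rw [ha]; exact d1.symm), fl_of_ne (a := b) (by rw [hb]; exact d2.symm),
      fl_of_ne (a := e) (by rw [he]; exact d3.symm), fl_self he, fl_of_ne (by rw [ha]; exact hik),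
      fl_of_ne (by rw [hb]; exact hjk)] at this
  have g : ∀ {x y : I ⊕ I}, idx x = idx y → y = x ∨ y = ng x := by
    intro x y hxy
    rcases x with x | x <;> rcases y with y | y <;> simp only [idx_inl, idx_inr] at hxy <;> subst hxy <;> simp
  rcases g (h1.trans h1'.symm) with rfl | rfl <;> rcases g (h2.trans h2'.symm) with rfl | rfl <;>
    rcases g (h3.trans h3'.symm) with rfl | rfl
  · exact h
  · exact f3 _ _ _ h1 h2 h3 h
  · exact f2 _ _ _ h1 h2 h3 h
  · exact f3 _ _ _ h1 (by simpa using h2) h3 (f2 _ _ _ h1 h2 h3 h)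
  · exact f1 _ _ _ h1 h2 h3 h
  · exact f1 _ _ _ h1 h2 (by simpa using h3) (f3 _ _ _ h1 h2 h3 h)
  · exact f1 _ _ _ h1 (by simpa using h2) h3 (f2 _ _ _ h1 h2 h3 h)
  · exact f1 _ _ _ h1 (by simpa using h2) (by simpa using h3)
      (f3 _ _ _ h1 (by simpa using h2) h3 (f2 _ _ _ h1 h2 h3 h))

/-- **Commutator relation.** -/
theorem comm1 {a b e : I ⊕ I} (hab : idx a ≠ idx b) (hae : idx a ≠ idx e) (hbe : idx b ≠ idx e) (t u : F) :
    P.Y a b t * P.Y (ng b) e u = P.Y a e (-(t * u)) * P.Y (ng b) e u * P.Y a b t := by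
  refine A.sign3 hab hae hbe
    (fun a b e => P.Y a b t * P.Y (ng b) e u = P.Y a e (-(t * u)) * P.Y (ng b) e u * P.Y a b t) ?_
    (a₀ := .inr (idx a)) (b₀ := .inl (idx b)) (e₀ := .inl (idx e)) rfl rfl rfl ?_ rfl rfl rfl
  · intro a' b' e' p q ha hb he h
    have h1 := congrArg (MulAut.conj (P.σ p q)) h
    simp only [map_mul] at h1
    rw [A.fl_conj (by rw [ha, hb]; exact hab), A.fl_conj (by rw [idx_ng, he, hb]; exact hbe),
      A.fl_conj (by rw [ha, he]; exact hae)] at h1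
    rw [ng_fl, ng_fl]
    exact h1
  · simp only [ng_inl]
    rw [Y_rl, Y_rl, Y_rl, ← map_mul, ← map_mul, ← map_mul]
    congr 1
    have h := X_braid hbe.symm hab.symm hae.symm u t
    rw [mul_assoc _ (X (idx e) (idx b) u), h, mul_comm u t, ← X_inv]
    group

/-- two roots with a common term commute -/
theorem comm2 {a b e : I ⊕ I} (hab : idx a ≠ idx b) (hae : idx a ≠ idx e) (hbe : idx b ≠ idx e) (t u : F) :
    P.Y a b t * P.Y a e u = P.Y a e u * P.Y a b t := by
  refine A.sign3 hab hae hbe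
    (fun a b e => P.Y a b t * P.Y a e u = P.Y a e u * P.Y a b t) ?_
    (a₀ := .inr (idx a)) (b₀ := .inl (idx b)) (e₀ := .inl (idx e)) rfl rfl rfl ?_ rfl rfl rfl
  · intro a' b' e' p q ha hb he h
    have h1 := congrArg (MulAut.conj (P.σ p q)) h
    simp only [map_mul] at h1
    rwa [A.fl_conj (by rw [ha, hb]; exact hab), A.fl_conj (by rw [ha, he]; exact hae)] at h1
  · rw [Y_rl, Y_rl, ← map_mul, ← map_mul]
    congr 1
    exact (X_comm hab.symm hae.symm hae hab.symm t u).eq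

theorem comm2' {a b e : I ⊕ I} (hab : idx a ≠ idx b) (hae : idx a ≠ idx e) (hbe : idx b ≠ idx e) (t u : F) :
    P.Y b a t * P.Y e a u = P.Y e a u * P.Y b a t := by
  rw [A.Y_symm hab, A.Y_symm hae, A.comm2 hab hae hbe]

/-- every root element is conjugate to one in `φ(SL)` -/
theorem exists_conj {a b : I ⊕ I} (hab : idx a ≠ idx b) : ∃ x : J,
    (∀ t, P.Y a b t = MulAut.conj x (P.φ (X (idx b) (idx a) t))) ∧
      ∀ t, P.Y (ng a) (ng b) t = MulAut.conj x (P.φ (X (idx a) (idx b) (-t))) := by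
  obtain ⟨d, h1, h2, -⟩ := exists_out A.hI (idx a) (idx b) (idx b)
  rcases a with j | j <;> rcases b with i | i <;> simp only [idx_inl, idx_inr] at hab h1 h2 <;>
    simp only [idx_inl, idx_inr, ng_inl, ng_inr]
  · refine ⟨P.σ d j, fun t => A.Y_ll h2 h1 t, fun t => ?_⟩
    rw [A.Y_rr h2 h1, ← A.conj_σ_mul d j i, A.σ_symm j i, A.σ_X' hab.symm]
  · refine ⟨P.σ i j, fun t => ?_, fun t => ?_⟩
    · rw [Y_lr, A.σ_X' hab.symm]
    · rw [Y_rl, A.σ_symm, A.σ_X' hab, neg_neg]
  · refine ⟨1, fun t => ?_, fun t => ?_⟩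
    · rw [map_one, Y_rl]; rfl
    · rw [map_one, Y_lr]; rfl
  · refine ⟨P.σ d i, fun t => A.Y_rr h2 h1 t, fun t => ?_⟩
    rw [A.Y_ll h2 h1, ← A.conj_σ_mul d i j, A.σ_X' hab.symm]

end S1

/-- Weyl elements -/
noncomputable def WW (P : Pre I F J) (a b : I ⊕ I) (u : F) : J :=
  P.Y a b u * P.Y (ng a) (ng b) u⁻¹ * P.Y a b u

/-- torus elements -/
noncomputable def HH (P : Pre I F J) (a b : I ⊕ I) (u : F) : J := P.WW a b u * P.WW a b (-1)

namespace S1

variable (A : P.S1)
include A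

theorem exists_conj' {a b : I ⊕ I} (hab : idx a ≠ idx b) : ∃ x : J,
    (∀ t, P.Y a b t = MulAut.conj x (P.φ (X (idx b) (idx a) t))) ∧
      (∀ t, P.Y (ng a) (ng b) t = MulAut.conj x (P.φ (X (idx a) (idx b) (-t)))) ∧
      (∀ t, P.WW a b t = MulAut.conj x (P.φ (Wu (idx b) (idx a) t))) ∧
      (∀ t, P.HH a b t = MulAut.conj x (P.φ (Hd (idx b) (idx a) t))) := by
  obtain ⟨x, h1, h2⟩ := A.exists_conj hab
  have h3 : ∀ t, P.WW a b t = MulAut.conj x (P.φ (Wu (idx b) (idx a) t)) := by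
    intro t
    unfold WW Wu
    rw [h1, h2, ← map_mul, ← map_mul, ← map_mul, ← map_mul]
  refine ⟨x, h1, h2, h3, fun t => ?_⟩
  unfold HH Hd
  rw [h3, h3, ← map_mul, ← map_mul]

theorem fl_WW {a b : I ⊕ I} (hab : idx a ≠ idx b) (p q : I) (u : F) :
    MulAut.conj (P.σ p q) (P.WW a b u) = P.WW (fl p (fl q a)) (fl p (fl q b)) u := by
  unfold WW
  rw [map_mul, map_mul, A.fl_conj hab, A.fl_conj (by simpa using hab), ng_fl, ng_fl, ng_fl, ng_fl]

theorem fl_HH {a b : I ⊕ I} (hab : idx a ≠ idx b) (p q : I) (u : F) :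
    MulAut.conj (P.σ p q) (P.HH a b u) = P.HH (fl p (fl q a)) (fl p (fl q b)) u := by
  unfold HH
  rw [map_mul, A.fl_WW hab, A.fl_WW hab]

end S1

/-- `g` acts on root subgroups by scalars -/
def Scal (P : Pre I F J) (g : J) : Prop := ∀ a b : I ⊕ I, idx a ≠ idx b → ∃ κ : F, κ ≠ 0 ∧
  (∀ t, MulAut.conj g (P.Y a b t) = P.Y a b (κ * t)) ∧
    ∀ t, MulAut.conj g (P.Y (ng a) (ng b) t) = P.Y (ng a) (ng b) (κ⁻¹ * t)

namespace Scal

theorem mul {g h : J} (hg : P.Scal g) (hh : P.Scal h) : P.Scal (g * h) := by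
  intro a b hab
  obtain ⟨κ, h1, h2, h3⟩ := hg a b hab
  obtain ⟨μ, k1, k2, k3⟩ := hh a b hab
  refine ⟨κ * μ, mul_ne_zero h1 k1, fun t => ?_, fun t => ?_⟩
  · rw [map_mul, MulAut.mul_apply, k2, h2, mul_assoc]
  · rw [map_mul, MulAut.mul_apply, k3, h3, mul_inv, mul_assoc]

theorem one : P.Scal 1 := by
  intro a b hab
  exact ⟨1, one_ne_zero, fun t => by rw [map_one, one_mul]; rfl, fun t => by rw [map_one, inv_one, one_mul]; rfl⟩

theorem inv {g : J} (hg : P.Scal g) : P.Scal g⁻¹ := by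
  intro a b hab
  obtain ⟨κ, h1, h2, h3⟩ := hg a b hab
  refine ⟨κ⁻¹, inv_ne_zero h1, fun t => ?_, fun t => ?_⟩
  · apply (MulAut.conj g).injective
    rw [← MulAut.mul_apply, ← map_mul, mul_inv_cancel, map_one, MulAut.one_apply, h2, mul_inv_cancel_left₀ h1]
  · apply (MulAut.conj g).injective
    rw [← MulAut.mul_apply, ← map_mul, mul_inv_cancel, map_one, MulAut.one_apply, h3, inv_inv,
      inv_mul_cancel_left₀ h1]

end Scal

namespace S1

variable (A : P.S1)
include A

/-- `Scal` is preserved by sign changes -/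
theorem Scal_σ {g : J} (hg : P.Scal g) (p q : I) : P.Scal (MulAut.conj (P.σ p q) g) := by
  intro a b hab
  have hab' : idx (fl p (fl q a)) ≠ idx (fl p (fl q b)) := by simpa using hab
  obtain ⟨κ, h1, h2, h3⟩ := hg (fl p (fl q a)) (fl p (fl q b)) hab'
  have e : ∀ a : I ⊕ I, fl p (fl q (fl p (fl q a))) = a := by
    intro a
    rw [fl_comm q p, fl_fl, fl_fl]
  have e1 : ∀ t, P.Y a b t = MulAut.conj (P.σ p q) (P.Y (fl p (fl q a)) (fl p (fl q b)) t) := by
    intro t
    rw [A.fl_conj hab', e, e]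
  have e2 : ∀ t, P.Y (ng a) (ng b) t =
      MulAut.conj (P.σ p q) (P.Y (ng (fl p (fl q a))) (ng (fl p (fl q b))) t) := by
    intro t
    rw [A.fl_conj (by simpa using hab), ng_fl, ng_fl, ng_fl, ng_fl, e, e]
  refine ⟨κ, h1, fun t => ?_, fun t => ?_⟩
  · rw [e1, conj_conj, h2, ← e1]
  · rw [e2, conj_conj, h3, ← e2]

theorem σ_Hd {p q i j : I} (h1 : p ≠ i) (h2 : p ≠ j) (h3 : q ≠ i) (h4 : q ≠ j) (u : F) :
    MulAut.conj (P.σ p q) (P.φ (Hd i j u)) = P.φ (Hd i j u) := by
  unfold Hd Wu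
  simp only [map_mul, A.σ_X h1 h2 h3 h4, A.σ_X h2 h1 h4 h3]

theorem σ_Hd' {i j : I} (h : i ≠ j) {u : F} (hu : u ≠ 0) :
    MulAut.conj (P.σ i j) (P.φ (Hd i j u)) = P.φ (Hd i j u⁻¹) := by
  have h1 : ∀ t, MulAut.conj (P.σ i j) (P.φ (X j i t)) = P.φ (X i j (-t)) := by
    intro t
    rw [A.σ_symm, A.σ_X' h.symm]
  have h2 : (Hd i j u⁻¹ : Matrix.SpecialLinearGroup I F) = Wu j i (-u) * Wu j i 1 := by
    refine (mon_Hd h (inv_ne_zero hu)).ext_eq
      (((mon_Wu h.symm (neg_ne_zero.2 hu)).mul (mon_Wu h.symm one_ne_zero)).congr (swap_mul_self _ _) fun a => ?_)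
    by_cases hai : a = i
    · simp only [hai, swap_apply_right, if_neg h, if_true, inv_neg, neg_neg, mul_one]
    · by_cases haj : a = j
      · simp only [haj, swap_apply_left, if_neg h.symm, if_neg h, if_true, inv_one, inv_inv]
        ring
      · simp only [if_neg hai, if_neg haj, swap_apply_of_ne_of_ne haj hai, mul_one]
  rw [h2]
  unfold Hd Wu
  simp only [map_mul, A.σ_X' h, h1, inv_neg, neg_neg, inv_one]

/-- **The torus action**, one index in common. -/
theorem tor1 {a b : I ⊕ I} (hab : idx a ≠ idx b) {d : I} (ha : d ≠ idx a) (hb : d ≠ idx b) {u : F} (hu : u ≠ 0)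
    (t : F) : MulAut.conj (P.φ (Hd (idx a) d u)) (P.Y a b t) =
      P.Y a b ((a.elim (fun _ => u) fun _ => u⁻¹) * t) := by
  obtain ⟨e, e1, e2, e3⟩ := exists_out A.hI (idx a) (idx b) d
  -- the base case
  have hbase : ∀ (v : F), v ≠ 0 → ∀ t, MulAut.conj (P.φ (Hd (idx a) d v)) (P.Y (.inr (idx a)) (.inl (idx b)) t) =
      P.Y (.inr (idx a)) (.inl (idx b)) (v⁻¹ * t) := by
    intro v hv t
    rw [Y_rl, Y_rl, MulAut.conj_apply, ← map_inv, ← map_mul, ← map_mul, (mon_Hd ha.symm hv).conj_X hab.symm]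
    simp [hab.symm, hb.symm, mul_comm]
  -- flip of `b`
  have hb1 : ∀ (v : F), v ≠ 0 → ∀ t, MulAut.conj (P.φ (Hd (idx a) d v)) (P.Y (.inr (idx a)) b t) =
      P.Y (.inr (idx a)) b (v⁻¹ * t) := by
    intro v hv t
    rcases b with i | i
    · exact hbase v hv t
    · simp only [idx_inr] at *
      have h1 := congrArg (MulAut.conj (P.σ e i)) (hbase v hv t)
      have h2 : ∀ t, MulAut.conj (P.σ e i) (P.Y (.inr (idx a)) (.inl i) t) = P.Y (.inr (idx a)) (.inr i) t := by
        intro t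
        rw [A.fl_conj1 (by simpa using hab) (by simpa using e1) (by simpa using e2), fl_inl_self,
          fl_of_ne (a := .inr (idx a)) (by simpa using hab)]
      rw [← conj_conj, h2, h2, A.σ_Hd e1 e3 hab.symm hb.symm] at h1
      exact h1
  rcases a with j | j
  · simp only [idx_inl, Sum.elim_inl] at *
    have h2 : ∀ t, MulAut.conj (P.σ d j) (P.Y (.inr j) b t) = P.Y (.inl j) b t := by
      intro t
      rw [A.fl_conj1 (by simpa using hab) (by simpa using ha) (by simpa using hb), fl_inr_self,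
        fl_of_ne (a := b) hab.symm]
    have h1 := congrArg (MulAut.conj (P.σ d j)) (hb1 u⁻¹ (inv_ne_zero hu) t)
    rw [← conj_conj, h2, h2, A.σ_symm, A.σ_Hd' ha.symm (inv_ne_zero hu), inv_inv] at h1
    exact h1
  · simp only [idx_inr, Sum.elim_inr] at *
    exact hb1 u hu t

theorem Scal_Hd1 {k d : I} (hkd : k ≠ d) {u : F} (hu : u ≠ 0) {a b : I ⊕ I} (hab : idx a ≠ idx b)
    (ha : idx a = k) (hb : d ≠ idx b) : ∃ κ : F, κ ≠ 0 ∧
  (∀ t, MulAut.conj (P.φ (Hd k d u)) (P.Y a b t) = P.Y a b (κ * t)) ∧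
    ∀ t, MulAut.conj (P.φ (Hd k d u)) (P.Y (ng a) (ng b) t) = P.Y (ng a) (ng b) (κ⁻¹ * t) := by
  subst ha
  refine ⟨a.elim (fun _ => u) fun _ => u⁻¹, ?_, fun t => A.tor1 hab hkd.symm hb hu t, fun t => ?_⟩
  · rcases a with a | a
    · exact hu
    · exact inv_ne_zero hu
  · have h := A.tor1 (a := ng a) (b := ng b) (by simpa using hab) (d := d) (by simpa using hkd.symm)
      (by simpa using hb) hu t
    rw [idx_ng] at h
    rw [h]
    rcases a with a | a <;> simp

/-- **The torus of `SL` acts by scalars.** -/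
theorem Scal_Hd {i j : I} (hij : i ≠ j) {u : F} (hu : u ≠ 0) : P.Scal (P.φ (Hd i j u)) := by
  have hc : ∀ {g h : J} {a b : I ⊕ I}, (∃ κ : F, κ ≠ 0 ∧ (∀ t, MulAut.conj g (P.Y a b t) = P.Y a b (κ * t)) ∧
      ∀ t, MulAut.conj g (P.Y (ng a) (ng b) t) = P.Y (ng a) (ng b) (κ⁻¹ * t)) →
      (∃ κ : F, κ ≠ 0 ∧ (∀ t, MulAut.conj h (P.Y a b t) = P.Y a b (κ * t)) ∧
      ∀ t, MulAut.conj h (P.Y (ng a) (ng b) t) = P.Y (ng a) (ng b) (κ⁻¹ * t)) →
      (∃ κ : F, κ ≠ 0 ∧ (∀ t, MulAut.conj (g * h) (P.Y a b t) = P.Y a b (κ * t)) ∧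
      ∀ t, MulAut.conj (g * h) (P.Y (ng a) (ng b) t) = P.Y (ng a) (ng b) (κ⁻¹ * t)) := by
    rintro g h a b ⟨κ, h1, h2, h3⟩ ⟨μ, k1, k2, k3⟩
    refine ⟨κ * μ, mul_ne_zero h1 k1, fun t => ?_, fun t => ?_⟩
    · rw [map_mul, MulAut.mul_apply, k2, h2, mul_assoc]
    · rw [map_mul, MulAut.mul_apply, k3, h3, mul_inv, mul_assoc]
  have hs : ∀ {g : J} {a b : I ⊕ I}, idx a ≠ idx b →
      (∃ κ : F, κ ≠ 0 ∧ (∀ t, MulAut.conj g (P.Y b a t) = P.Y b a (κ * t)) ∧
      ∀ t, MulAut.conj g (P.Y (ng b) (ng a) t) = P.Y (ng b) (ng a) (κ⁻¹ * t)) →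
      (∃ κ : F, κ ≠ 0 ∧ (∀ t, MulAut.conj g (P.Y a b t) = P.Y a b (κ * t)) ∧
      ∀ t, MulAut.conj g (P.Y (ng a) (ng b) t) = P.Y (ng a) (ng b) (κ⁻¹ * t)) := by
    rintro g a b hab ⟨κ, h1, h2, h3⟩
    refine ⟨κ, h1, fun t => ?_, fun t => ?_⟩
    · rw [A.Y_symm hab.symm, h2, A.Y_symm hab.symm]; congr 1; ring
    · rw [A.Y_symm (a := ng b) (b := ng a) (by simpa using hab.symm), h3,
        A.Y_symm (a := ng b) (b := ng a) (by simpa using hab.symm)]; congr 1; ring
  have key : ∀ {i j : I}, i ≠ j → ∀ {u : F}, u ≠ 0 → ∀ {a b : I ⊕ I}, idx a ≠ idx b → idx a = i →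
      (∃ κ : F, κ ≠ 0 ∧ (∀ t, MulAut.conj (P.φ (Hd i j u)) (P.Y a b t) = P.Y a b (κ * t)) ∧
      ∀ t, MulAut.conj (P.φ (Hd i j u)) (P.Y (ng a) (ng b) t) = P.Y (ng a) (ng b) (κ⁻¹ * t)) := by
    intro i j hij u hu a b hab ha
    by_cases hb : j = idx b
    · obtain ⟨d, d1, d2, -⟩ := exists_out A.hI i j j
      rw [Hd_trans d1.symm hij d2 hu, map_mul]
      refine hc (A.Scal_Hd1 d1.symm hu hab ha (by rw [← hb]; exact d2)) ?_
      rw [Hd_symm d2.symm hu]
      refine hs hab (A.Scal_Hd1 d2.symm (inv_ne_zero hu) hab.symm hb.symm (by rw [ha]; exact d1))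
    · exact A.Scal_Hd1 hij hu hab ha hb
  intro a b hab
  by_cases h1 : idx a = i
  · exact key hij hu hab h1
  by_cases h2 : idx b = i
  · exact hs hab (key hij hu hab.symm h2)
  by_cases h3 : idx a = j
  · rw [Hd_symm hij.symm hu]
    exact key hij.symm (inv_ne_zero hu) hab h3
  by_cases h4 : idx b = j
  · rw [Hd_symm hij.symm hu]
    exact hs hab (key hij.symm (inv_ne_zero hu) hab.symm h4)
  · rw [Hd_trans (Ne.symm h1) hij h3 hu, map_mul, Hd_symm h1 hu]
    exact hc (key h1 (inv_ne_zero hu) hab rfl) (key h3 hu hab rfl)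

/-- all signs at once -/
theorem flips {Q : I ⊕ I → I ⊕ I → Prop} {i j : I} (hij : i ≠ j)
    (hQ : ∀ (a b : I ⊕ I) (p q : I), idx a = i → idx b = j → Q a b → Q (fl p (fl q a)) (fl p (fl q b)))
    {a₀ b₀ : I ⊕ I} (h1 : idx a₀ = i) (h2 : idx b₀ = j) (h : Q a₀ b₀)
    {a b : I ⊕ I} (h1' : idx a = i) (h2' : idx b = j) : Q a b := by
  obtain ⟨k, k1, k2, -⟩ := exists_out A.hI i j j
  exact A.sign3 (k := k) (e₀ := .inl k) (e := .inl k) hij k1.symm k2.symm (fun a b _ => Q a b)
    (fun a b e p q ha hb _ h => hQ a b p q ha hb h) h1 h2 rfl h h1' h2' rfl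

theorem Scal_HH {a b : I ⊕ I} (hab : idx a ≠ idx b) {u : F} (hu : u ≠ 0) : P.Scal (P.HH a b u) := by
  refine A.flips (Q := fun a b => P.Scal (P.HH a b u)) hab ?_ (a₀ := .inr (idx a)) (b₀ := .inl (idx b)) rfl rfl ?_
    rfl rfl
  · intro a' b' p q ha hb h
    have := A.Scal_σ h p q
    rwa [A.fl_HH (by rw [ha, hb]; exact hab)] at this
  · obtain ⟨x, h1, h2, h3, h4⟩ := A.exists_conj' (a := .inr (idx a)) (b := .inl (idx b)) hab
    have : P.HH (.inr (idx a)) (.inl (idx b)) u = P.φ (Hd (idx b) (idx a) u) := by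
      unfold HH WW Hd Wu
      simp only [ng_inl, ng_inr, Y_rl, Y_lr, map_mul]
    rw [this]
    exact A.Scal_Hd hab.symm hu

end S1

end Pre

end Cfsg.Agent.H110.D
end

-- part: H110/D/Comm
section
/-!
# The abstract group of type `D`: all commutator relations (helper110, for S2295)
-/

set_option autoImplicit false

namespace Cfsg.Agent.H110.D

open Equiv Matrix
open scoped commutatorElement

section group

variable {G : Type*} [Group G]

theorem grp1 {A B A' B' y : G} (f1 : A * y = A' * y * A) (f2 : B' * y = B * y * B') (f3 : A * B' = B' * A)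
    (f4 : A' * B = B * A') : ⁅A, B⁆ = ⁅B', A'⁆ := by
  have h1 : B' * A' * y * A = A * B * y * B' := by
    calc B' * A' * y * A = B' * (A' * y * A) := by group
      _ = (B' * A) * y := by rw [← f1]; group
      _ = A * (B' * y) := by rw [← f3]; group
      _ = _ := by rw [f2]; group
  have h2 : y * A = A'⁻¹ * A * y := by
    rw [mul_assoc, f1]; group
  have h3 : y * B'⁻¹ = B'⁻¹ * B * y := by
    rw [mul_inv_eq_iff_eq_mul]
    calc y = B'⁻¹ * (B' * y) := by group
      _ = _ := by rw [f2]; group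
  have h4 : A * B'⁻¹ = B'⁻¹ * A := by
    rw [mul_inv_eq_iff_eq_mul, mul_assoc, f3]; group
  have h5 : B * A'⁻¹ = A'⁻¹ * B := by
    rw [mul_inv_eq_iff_eq_mul, mul_assoc, ← f4]; group
  have h6 : B' * A' * B'⁻¹ * A'⁻¹ * B * A * y = A * B * y := by
    calc B' * A' * B'⁻¹ * A'⁻¹ * B * A * y = B' * A' * B'⁻¹ * (A'⁻¹ * B) * A * y := by group
      _ = B' * A' * B'⁻¹ * B * (A'⁻¹ * A * y) := by rw [← h5]; group
      _ = B' * A' * (B'⁻¹ * B * y) * A := by rw [← h2]; group
      _ = B' * A' * y * (B'⁻¹ * A) := by rw [← h3]; group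
      _ = (B' * A' * y * A) * B'⁻¹ := by rw [← h4]; group
      _ = _ := by rw [h1]; group
  have h7 : B' * A' * B'⁻¹ * A'⁻¹ * B * A = A * B := mul_right_cancel h6
  rw [commutatorElement_def, commutatorElement_def]
  calc A * B * A⁻¹ * B⁻¹ = (B' * A' * B'⁻¹ * A'⁻¹ * B * A) * A⁻¹ * B⁻¹ := by rw [h7]
    _ = _ := by group

theorem grp2 {g R S Z P : G} (f1 : R * S = Z * S * R) (f2 : g * R = P * R * g) (f3 : g * S = S * g)
    (f4 : P * Z = Z * P) : ⁅Z⁻¹, g⁆ = ⁅P, S⁆ := by
  have h1 : P * Z * S = g * Z * g⁻¹ * S * P := by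
    apply mul_right_cancel (b := R * g)
    calc P * Z * S * (R * g) = P * (Z * S * R) * g := by group
      _ = P * R * (S * g) := by rw [← f1]; group
      _ = (P * R * g) * S := by rw [← f3]; group
      _ = g * (R * S) := by rw [← f2]; group
      _ = g * Z * g⁻¹ * (g * S) * R := by rw [f1]; group
      _ = g * Z * g⁻¹ * S * (g * R) := by rw [f3]; group
      _ = _ := by rw [f2]; group
  rw [commutatorElement_def, commutatorElement_def, inv_inv]
  calc Z⁻¹ * g * Z * g⁻¹ = Z⁻¹ * (g * Z * g⁻¹ * S * P) * P⁻¹ * S⁻¹ := by group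
    _ = Z⁻¹ * (P * Z) * S * P⁻¹ * S⁻¹ := by rw [← h1]; group
    _ = _ := by rw [f4]; group

theorem comm_add {A A' B : G} (h : Commute A ⁅A', B⁆) : ⁅A * A', B⁆ = ⁅A', B⁆ * ⁅A, B⁆ := by
  have : ⁅A * A', B⁆ = A * ⁅A', B⁆ * A⁻¹ * ⁅A, B⁆ := by
    simp only [commutatorElement_def]; group
  rw [this, h.eq, mul_inv_cancel_right]

end group

variable {I F : Type*} [Fintype I] [DecidableEq I] [Field F] {J : Type*} [Group J] {P : Pre I F J}

namespace Pre.S1

variable (A : P.S1)
include A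

/-! ### Type II -/

theorem K1 {a b e : I ⊕ I} (hab : idx a ≠ idx b) (hae : idx a ≠ idx e) (hbe : idx b ≠ idx e) (u t v : F) :
    ⁅P.Y a b u, P.Y a (ng b) (t * v)⁆ = ⁅P.Y a (ng e) t, P.Y a e (-(u * v))⁆ := by
  refine grp1 (y := P.Y (ng b) e v) (A.comm1 hab hae hbe u v) ?_
    (A.comm2 hab (by simpa using hae) (by simpa using hbe) _ _) ?_
  · have h := A.comm1 (a := a) (b := ng e) (e := ng b) (by simpa using hae) (by simpa using hab)
      (by simpa using hbe.symm) t (-v)
    rw [ng_ng, A.Y_symm (a := ng b) (b := e) (by simpa using hbe), neg_neg, mul_neg, neg_neg] at h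
    exact h
  · exact A.comm2 hae (by simpa using hab) (by simpa using hbe.symm) _ _

theorem K_comm {a b : I ⊕ I} (hab : idx a ≠ idx b) (u t x : F) :
    Commute (P.Y a b x) ⁅P.Y a b u, P.Y a (ng b) t⁆ := by
  obtain ⟨d, h1, h2, -⟩ := exists_out A.hI (idx a) (idx b) (idx b)
  have h := A.K1 (e := .inl d) hab h1.symm h2.symm u t 1
  rw [mul_one] at h
  rw [h]
  have c1 : Commute (P.Y a b x) (P.Y a (ng (.inl d)) t) :=
    A.comm2 hab (by simpa using h1.symm) (by simpa using h2.symm) _ _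
  have c2 : Commute (P.Y a b x) (P.Y a (.inl d) (-(u * 1))) :=
    A.comm2 hab (by simpa using h1.symm) (by simpa using h2.symm) _ _
  rw [commutatorElement_def]
  exact ((c1.mul_right c2).mul_right c1.inv_right).mul_right c2.inv_right

theorem K_add {a b : I ⊕ I} (hab : idx a ≠ idx b) (u u' t : F) :
    ⁅P.Y a b (u + u'), P.Y a (ng b) t⁆ = ⁅P.Y a b u', P.Y a (ng b) t⁆ * ⁅P.Y a b u, P.Y a (ng b) t⁆ := by
  rw [A.Y_add, comm_add (A.K_comm hab _ _ _)]

/-- the commutator depends on the product only -/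
theorem K2 {a b : I ⊕ I} (hab : idx a ≠ idx b) (u t : F) :
    ⁅P.Y a b u, P.Y a (ng b) t⁆ = ⁅P.Y a b (u * t), P.Y a (ng b) 1⁆ := by
  obtain ⟨d, h1, h2, -⟩ := exists_out A.hI (idx a) (idx b) (idx b)
  have h := A.K1 (e := .inl d) hab h1.symm h2.symm u 1 t
  have h' := A.K1 (e := .inl d) hab h1.symm h2.symm (u * t) 1 1
  rw [one_mul] at h h'
  rw [mul_one] at h'
  rw [h, h']

theorem K3 {a b : I ⊕ I} (hab : idx a ≠ idx b) (u t : F) :
    ⁅P.Y a b u, P.Y a (ng b) t⁆ = ⁅P.Y a b t, P.Y a (ng b) u⁆⁻¹ := by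
  obtain ⟨d, h1, h2, -⟩ := exists_out A.hI (idx a) (idx b) (idx b)
  have e1 := A.K1 (e := .inl d) hab h1.symm h2.symm u t 1
  have e2 := A.K1 (a := a) (b := ng (.inl d)) (e := b) (by simpa using h1.symm) hab (by simpa using h2) t (-(u * 1)) 1
  rw [ng_ng, mul_one, mul_one, mul_one] at e2
  rw [mul_one, mul_one] at e1
  rw [e1, e2, commutatorElement_inv]
  have e3 := A.K2 hab (-t) (-u)
  have e4 := A.K2 hab t u
  rw [neg_mul_neg, ← e4] at e3
  rw [← commutatorElement_inv, e3, commutatorElement_inv]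

theorem K_sq {a b : I ⊕ I} (hab : idx a ≠ idx b) (u t : F) :
    ⁅P.Y a b u, P.Y a (ng b) t⁆ * ⁅P.Y a b u, P.Y a (ng b) t⁆ = 1 := by
  have h := A.K3 hab u t
  rw [A.K2 hab t u, mul_comm t u, ← A.K2 hab u t] at h
  exact mul_eq_one_iff_eq_inv.2 h

end Pre.S1

/-- All hypotheses. -/
structure Pre.S2 (P : Pre I F J) : Prop where
  s1 : P.S1
  sqr : (2 : F) = 0 → ∀ x : F, ∃ y, y * y = x
  II : (2 : F) = 0 → Commute (P.Y (.inl P.o) (.inl P.l) 1) (P.Y (.inl P.o) (.inr P.l) 1)
  III : (2 : F) = 0 → Fintype.card I = 4 → ∃ d, d ≠ P.o ∧ d ≠ P.l ∧ d ≠ P.c ∧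
    Commute (P.Y (.inl P.o) (.inr P.l) 1) (P.Y (.inl P.c) (.inl d) 1)

namespace Pre.S2

variable (A : P.S2)
include A

omit A in
theorem neg_eq (h : (2 : F) = 0) (x : F) : -x = x := by
  rw [neg_eq_iff_add_eq_zero, ← two_mul, h, zero_mul]

omit A in
theorem sgn_eq (h : (2 : F) = 0) {e : I → F} (he : Sgn e) (i : I) : e i = 1 := by
  rcases he i with h1 | h1
  · exact h1
  · rw [h1, neg_eq h]

theorem II_all (h2 : (2 : F) = 0) {a b : I ⊕ I} (hab : idx a ≠ idx b) :
    Commute (P.Y a b 1) (P.Y a (ng b) 1) := by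
  have hol : P.o ≠ P.l := A.s1.hol
  refine A.s1.flips (Q := fun a b => Commute (P.Y a b 1) (P.Y a (ng b) 1)) hab ?_
    (a₀ := .inl (idx a)) (b₀ := .inl (idx b)) rfl rfl ?_ rfl rfl
  · intro a' b' p q ha hb h
    have h1 := h.map (MulAut.conj (P.σ p q)).toMonoidHom
    have h3 : idx a' ≠ idx b' := by rw [ha, hb]; exact hab
    change Commute (MulAut.conj (P.σ p q) _) (MulAut.conj (P.σ p q) _) at h1
    rw [A.s1.fl_conj h3, A.s1.fl_conj (by simpa using h3)] at h1
    rw [ng_fl, ng_fl]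
    exact h1
  · obtain ⟨r, hr1, hr2, -⟩ := exists_out A.s1.hI (idx a) (idx b) (idx b)
    obtain ⟨π, h4, h5, -⟩ := exists_perm3 hol A.s1.hoc A.s1.hlc hab hr1.symm hr2.symm
    obtain ⟨m, e, hm, he⟩ := exists_smon (F := F) π
    have h1 := (A.II h2).map (MulAut.conj (P.φ m)).toMonoidHom
    change Commute (MulAut.conj (P.φ m) _) (MulAut.conj (P.φ m) _) at h1
    rw [A.s1.mon_conj (a := .inl P.o) (b := .inl P.l) hm he hol,
      A.s1.mon_conj (a := .inl P.o) (b := .inr P.l) hm he hol] at h1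
    simp only [Sum.map_inl, Sum.map_inr, h4, h5, idx_inl, idx_inr, sgn_eq h2 he, mul_one] at h1
    exact h1

/-- **Type II.** -/
theorem comm4 {a b : I ⊕ I} (hab : idx a ≠ idx b) (u t : F) : Commute (P.Y a b u) (P.Y a (ng b) t) := by
  rw [← commutatorElement_eq_one_iff_commute]
  by_cases h2 : (2 : F) = 0
  · obtain ⟨y, hy⟩ := A.sqr h2 (u * t)
    rw [A.s1.K2 hab, ← hy]
    by_cases hy0 : y = 0
    · rw [hy0, mul_zero, A.s1.Y_zero, commutatorElement_one_left]
    obtain ⟨d, d1, d2, -⟩ := exists_out A.s1.hI (idx a) (idx b) (idx b)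
    obtain ⟨v, hv, hv'⟩ : ∃ v : F, v ≠ 0 ∧ (a.elim (fun _ => v) fun _ => v⁻¹) = y := by
      rcases a with a | a
      · exact ⟨y, hy0, rfl⟩
      · exact ⟨y⁻¹, inv_ne_zero hy0, inv_inv y⟩
    have h1 := (A.II_all h2 hab).map (MulAut.conj (P.φ (Hd (idx a) d v))).toMonoidHom
    change Commute (MulAut.conj (P.φ (Hd (idx a) d v)) _) (MulAut.conj (P.φ (Hd (idx a) d v)) _) at h1
    rw [A.s1.tor1 hab d1 d2 hv, A.s1.tor1 (by simpa using hab) d1 (by simpa using d2) hv, hv', mul_one,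
      ← commutatorElement_eq_one_iff_commute, A.s1.K2 hab] at h1
    exact h1
  · have h := A.s1.K_add hab (u / 2) (u / 2) t
    have e : u / 2 + u / 2 = u := by field_simp; ring
    rw [A.s1.K_sq hab, e] at h
    exact h

end Pre.S2

namespace Pre.S1

variable (A : P.S1)
include A

/-! ### Type III -/

theorem L1 {a b c d : I ⊕ I} (hab : idx a ≠ idx b) (hac : idx a ≠ idx c) (had : idx a ≠ idx d)
    (hbc : idx b ≠ idx c) (hbd : idx b ≠ idx d) (hcd : idx c ≠ idx d) (u t' u' : F) :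
    ⁅P.Y c d (t' * u'), P.Y a b u⁆ = ⁅P.Y b c (-(u * t')), P.Y a d u'⁆ := by
  have h := grp2 (g := P.Y a b u) (R := P.Y c (ng a) t') (S := P.Y a d u') (Z := P.Y c d (-(t' * u')))
    (P := P.Y b c (-(u * t'))) ?_ ?_ (A.comm2 hab had hbd _ _) ?_
  · rwa [A.Y_inv, neg_neg] at h
  · have h := A.comm1 (a := c) (b := ng a) (e := d) (by simpa using hac.symm) hcd (by simpa using had) t' u'
    rwa [ng_ng] at h
  · rw [A.Y_symm hab.symm u, A.Y_symm (a := ng a) (b := c) (by simpa using hac) t']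
    have h := A.comm1 (a := b) (b := a) (e := c) hab.symm hbc hac (-u) (-t')
    rwa [neg_mul_neg] at h
  · rw [A.Y_symm hbc.symm]
    exact A.comm2 hbc.symm hcd hbd _ _

theorem L_comm {a b c d : I ⊕ I} (hab : idx a ≠ idx b) (hac : idx a ≠ idx c) (had : idx a ≠ idx d)
    (hbc : idx b ≠ idx c) (hbd : idx b ≠ idx d) (hcd : idx c ≠ idx d) (x u t : F) :
    Commute (P.Y a b x) ⁅P.Y a b u, P.Y c d t⁆ := by
  rw [← commutatorElement_inv]
  apply Commute.inv_right
  have h := A.L1 hab hac had hbc hbd hcd u 1 t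
  rw [one_mul] at h
  rw [h]
  have c1 : Commute (P.Y a b x) (P.Y b c (-(u * 1))) := by
    rw [A.Y_symm hab.symm]
    exact A.comm2 hab.symm hbc hac _ _
  have c2 : Commute (P.Y a b x) (P.Y a d t) := A.comm2 hab had hbd _ _
  rw [commutatorElement_def]
  exact ((c1.mul_right c2).mul_right c1.inv_right).mul_right c2.inv_right

theorem L_add {a b c d : I ⊕ I} (hab : idx a ≠ idx b) (hac : idx a ≠ idx c) (had : idx a ≠ idx d)
    (hbc : idx b ≠ idx c) (hbd : idx b ≠ idx d) (hcd : idx c ≠ idx d) (u u' t : F) :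
    ⁅P.Y a b (u + u'), P.Y c d t⁆ = ⁅P.Y a b u', P.Y c d t⁆ * ⁅P.Y a b u, P.Y c d t⁆ := by
  rw [A.Y_add, comm_add (A.L_comm hab hac had hbc hbd hcd _ _ _)]

theorem L_neg {a b c d : I ⊕ I} (hab : idx a ≠ idx b) (hac : idx a ≠ idx c) (had : idx a ≠ idx d)
    (hbc : idx b ≠ idx c) (hbd : idx b ≠ idx d) (hcd : idx c ≠ idx d) (u t : F) :
    ⁅P.Y a b (-u), P.Y c d t⁆ = ⁅P.Y a b u, P.Y c d t⁆⁻¹ := by
  have h := A.L_add hab hac had hbc hbd hcd u (-u) t
  rw [add_neg_cancel, A.Y_zero, commutatorElement_one_left] at h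
  exact eq_inv_of_mul_eq_one_left h.symm

theorem L2 {a b c d : I ⊕ I} (hab : idx a ≠ idx b) (hac : idx a ≠ idx c) (had : idx a ≠ idx d)
    (hbc : idx b ≠ idx c) (hbd : idx b ≠ idx d) (hcd : idx c ≠ idx d) (u t : F) :
    ⁅P.Y a b u, P.Y c d t⁆ = ⁅P.Y a b (u * t), P.Y c d 1⁆ := by
  have h1 := A.L1 (a := c) (b := a) (c := b) (d := d) hac.symm hbc.symm hcd hab had hbd (-u) 1 t
  have h2 := A.L1 (a := c) (b := a) (c := b) (d := d) hac.symm hbc.symm hcd hab had hbd (-u) t 1
  rw [one_mul, mul_one, neg_neg] at h1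
  rw [mul_one, neg_mul, neg_neg] at h2
  rw [← h1, h2]

theorem L3 {a b c d : I ⊕ I} (hab : idx a ≠ idx b) (hac : idx a ≠ idx c) (had : idx a ≠ idx d)
    (hbc : idx b ≠ idx c) (hbd : idx b ≠ idx d) (hcd : idx c ≠ idx d) (x : F) :
    ⁅P.Y a b x, P.Y c d 1⁆ = ⁅P.Y b c x, P.Y a d 1⁆ := by
  have h1 := A.L1 hab hac had hbc hbd hcd x 1 1
  rw [mul_one, mul_one] at h1
  rw [← commutatorElement_inv, h1, A.L_neg hbc hab.symm hbd hac.symm hcd had, inv_inv]

theorem L4 {a b c d : I ⊕ I} (hab : idx a ≠ idx b) (hac : idx a ≠ idx c) (had : idx a ≠ idx d)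
    (hbc : idx b ≠ idx c) (hbd : idx b ≠ idx d) (hcd : idx c ≠ idx d) (x : F) :
    ⁅P.Y a b x, P.Y d c 1⁆ = ⁅P.Y a b x, P.Y c d 1⁆⁻¹ := by
  rw [A.Y_symm hcd, A.L2 hab hac had hbc hbd hcd, mul_neg, mul_one, A.L_neg hab hac had hbc hbd hcd]

theorem L_sq {a b c d : I ⊕ I} (hab : idx a ≠ idx b) (hac : idx a ≠ idx c) (had : idx a ≠ idx d)
    (hbc : idx b ≠ idx c) (hbd : idx b ≠ idx d) (hcd : idx c ≠ idx d) (u t : F) :
    ⁅P.Y a b u, P.Y c d t⁆ * ⁅P.Y a b u, P.Y c d t⁆ = 1 := by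
  rw [A.L2 hab hac had hbc hbd hcd]
  set x := u * t
  have e1 : ⁅P.Y a b x, P.Y c d 1⁆ = ⁅P.Y c d x, P.Y a b 1⁆ := by
    rw [A.L3 hab hac had hbc hbd hcd, ← inv_inv ⁅P.Y b c x, P.Y a d 1⁆,
      ← A.L4 hbc hab.symm hbd hac.symm hcd had,
      A.L3 hbc hbd hab.symm hcd hac.symm had.symm, A.L4 hcd hac.symm hbc.symm had.symm hbd.symm hab, inv_inv]
  have e2 : ⁅P.Y a b x, P.Y c d 1⁆ = ⁅P.Y c d x, P.Y a b 1⁆⁻¹ := by
    rw [← commutatorElement_inv, A.L2 hcd hac.symm hbc.symm had.symm hbd.symm hab, one_mul]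
  rw [mul_eq_one_iff_eq_inv]
  calc ⁅P.Y a b x, P.Y c d 1⁆ = ⁅P.Y c d x, P.Y a b 1⁆⁻¹ := e2
    _ = _ := by rw [← e1]

theorem HH_base (i j : I) (u : F) : P.HH (.inr j) (.inl i) u = P.φ (Hd i j u) := by
  unfold HH WW Hd Wu
  simp only [ng_inl, ng_inr, Y_rl, Y_lr, map_mul]

/-- the torus element of the root `a + c` acts on the root `a + b` -/
theorem HH_left {a b c : I ⊕ I} (hab : idx a ≠ idx b) (hac : idx a ≠ idx c) (hbc : idx b ≠ idx c) {v : F}
    (hv : v ≠ 0) (t : F) : MulAut.conj (P.HH a c v) (P.Y a b t) = P.Y a b (v * t) := by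
  refine A.sign3 hab hac hbc
    (fun a b c => MulAut.conj (P.HH a c v) (P.Y a b t) = P.Y a b (v * t)) ?_
    (a₀ := .inr (idx a)) (b₀ := .inl (idx b)) (e₀ := .inl (idx c)) rfl rfl rfl ?_ rfl rfl rfl
  · intro a' b' c' p q ha hb hc h
    have h1 : idx a' ≠ idx b' := by rw [ha, hb]; exact hab
    have h2 : idx a' ≠ idx c' := by rw [ha, hc]; exact hac
    have h3 := congrArg (MulAut.conj (P.σ p q)) h
    rwa [← conj_conj, A.fl_HH h2, A.fl_conj h1, A.fl_conj h1] at h3
  · rw [A.HH_base, Hd_symm hac hv]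
    have h := A.tor1 (a := .inr (idx a)) (b := .inl (idx b)) hab (d := idx c) hac.symm hbc.symm (inv_ne_zero hv) t
    simpa using h

theorem Y_symm_all {a b : I ⊕ I} (hab : idx a ≠ idx b) : P.Y b a = fun t => P.Y a b (-t) :=
  funext fun t => A.Y_symm hab t

theorem HH_right {a b c : I ⊕ I} (hab : idx a ≠ idx b) (hac : idx a ≠ idx c) (hbc : idx b ≠ idx c) {v : F}
    (hv : v ≠ 0) (t : F) : MulAut.conj (P.HH a c v) (P.Y c b t) = P.Y c b (v * t) := by
  refine A.sign3 hab hac hbc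
    (fun a b c => MulAut.conj (P.HH a c v) (P.Y c b t) = P.Y c b (v * t)) ?_
    (a₀ := .inr (idx a)) (b₀ := .inl (idx b)) (e₀ := .inl (idx c)) rfl rfl rfl ?_ rfl rfl rfl
  · intro a' b' c' p q ha hb hc h
    have h1 : idx c' ≠ idx b' := by rw [hc, hb]; exact hbc.symm
    have h2 : idx a' ≠ idx c' := by rw [ha, hc]; exact hac
    have h3 := congrArg (MulAut.conj (P.σ p q)) h
    rwa [← conj_conj, A.fl_HH h2, A.fl_conj h1, A.fl_conj h1] at h3
  · rw [A.HH_base]
    have h := A.tor1 (a := .inl (idx c)) (b := .inl (idx b)) hbc.symm (d := idx a) hac hab hv t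
    simpa using h

end Pre.S1

/-- parity-preserving sign changes in four indices -/
theorem sign4 {I : Type*} [DecidableEq I] {i j k m : I} (hij : i ≠ j) (hik : i ≠ k) (him : i ≠ m) (hjk : j ≠ k)
    (hjm : j ≠ m) (hkm : k ≠ m) (Q : I ⊕ I → I ⊕ I → I ⊕ I → I ⊕ I → Prop)
    (hQ : ∀ (a b c d : I ⊕ I) (p q : I), idx a = i → idx b = j → idx c = k → idx d = m →
      Q a b c d → Q (fl p (fl q a)) (fl p (fl q b)) (fl p (fl q c)) (fl p (fl q d)))
    (h1 : Q (.inr i) (.inl j) (.inr k) (.inl m)) (h2 : Q (.inr i) (.inl j) (.inr k) (.inr m))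
    {a b c d : I ⊕ I} (ha : idx a = i) (hb : idx b = j) (hc : idx c = k) (hd : idx d = m) : Q a b c d := by
  have g : ∀ {x : I ⊕ I} {p : I}, idx x = p → x = .inl p ∨ x = .inr p := by
    rintro (x | x) p rfl
    · exact Or.inl rfl
    · exact Or.inr rfl
  have f1 : ∀ a b c : I ⊕ I, idx a = i → idx b = j → idx c = k → (∀ d, idx d = m → Q a b c d) →
      ∀ d, idx d = m → Q (ng a) b c d := by
    intro a b c ha hb hc h d hd
    have := hQ a b c (ng d) i m ha hb hc (by simpa using hd) (h (ng d) (by simpa using hd))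
    rwa [fl_of_ne (p := m) (a := a) (by rw [ha]; exact him), fl_of_ne (p := m) (a := b) (by rw [hb]; exact hjm),
      fl_of_ne (p := m) (a := c) (by rw [hc]; exact hkm), fl_self (p := m) (a := ng d) (by simpa using hd), ng_ng,
      fl_self ha, fl_of_ne (p := i) (a := b) (by rw [hb]; exact hij.symm),
      fl_of_ne (p := i) (a := c) (by rw [hc]; exact hik.symm),
      fl_of_ne (p := i) (a := d) (by rw [hd]; exact him.symm)] at this
  have f2 : ∀ a b c : I ⊕ I, idx a = i → idx b = j → idx c = k → (∀ d, idx d = m → Q a b c d) →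
      ∀ d, idx d = m → Q a (ng b) c d := by
    intro a b c ha hb hc h d hd
    have := hQ a b c (ng d) j m ha hb hc (by simpa using hd) (h (ng d) (by simpa using hd))
    rwa [fl_of_ne (p := m) (a := a) (by rw [ha]; exact him), fl_of_ne (p := m) (a := b) (by rw [hb]; exact hjm),
      fl_of_ne (p := m) (a := c) (by rw [hc]; exact hkm), fl_self (p := m) (a := ng d) (by simpa using hd), ng_ng,
      fl_self hb, fl_of_ne (p := j) (a := a) (by rw [ha]; exact hij),
      fl_of_ne (p := j) (a := c) (by rw [hc]; exact hjk.symm),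
      fl_of_ne (p := j) (a := d) (by rw [hd]; exact hjm.symm)] at this
  have f3 : ∀ a b c : I ⊕ I, idx a = i → idx b = j → idx c = k → (∀ d, idx d = m → Q a b c d) →
      ∀ d, idx d = m → Q a b (ng c) d := by
    intro a b c ha hb hc h d hd
    have := hQ a b c (ng d) k m ha hb hc (by simpa using hd) (h (ng d) (by simpa using hd))
    rwa [fl_of_ne (p := m) (a := a) (by rw [ha]; exact him), fl_of_ne (p := m) (a := b) (by rw [hb]; exact hjm),
      fl_of_ne (p := m) (a := c) (by rw [hc]; exact hkm), fl_self (p := m) (a := ng d) (by simpa using hd), ng_ng,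
      fl_self hc, fl_of_ne (p := k) (a := a) (by rw [ha]; exact hik),
      fl_of_ne (p := k) (a := b) (by rw [hb]; exact hjk),
      fl_of_ne (p := k) (a := d) (by rw [hd]; exact hkm.symm)] at this
  have h0 : ∀ d, idx d = m → Q (.inr i) (.inl j) (.inr k) d := by
    intro d hd
    rcases g hd with rfl | rfl
    · exact h1
    · exact h2
  have hi : ∀ d, idx d = m → Q (.inl i) (.inl j) (.inr k) d := f1 _ _ _ rfl rfl rfl h0
  have hij' : ∀ d, idx d = m → Q (.inr i) (.inr j) (.inr k) d := f2 _ _ _ rfl rfl rfl h0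
  have hij'' : ∀ d, idx d = m → Q (.inl i) (.inr j) (.inr k) d := f1 _ _ _ rfl rfl rfl hij'
  rcases g ha with rfl | rfl <;> rcases g hb with rfl | rfl <;> rcases g hc with rfl | rfl
  · exact f3 _ _ _ rfl rfl rfl hi _ hd
  · exact hi _ hd
  · exact f3 _ _ _ rfl rfl rfl hij'' _ hd
  · exact hij'' _ hd
  · exact f3 _ _ _ rfl rfl rfl h0 _ hd
  · exact h0 _ hd
  · exact f3 _ _ _ rfl rfl rfl hij' _ hd
  · exact hij' _ hd

namespace Pre.S2

variable (A : P.S2)
include A

theorem III_all (h2 : (2 : F) = 0) {a b c d : I ⊕ I} (hab : idx a ≠ idx b) (hac : idx a ≠ idx c)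
    (had : idx a ≠ idx d) (hbc : idx b ≠ idx c) (hbd : idx b ≠ idx d) (hcd : idx c ≠ idx d) :
    Commute (P.Y a b 1) (P.Y c d 1) := by
  have hQ : ∀ (a' b' c' d' : I ⊕ I) (p q : I), idx a' ≠ idx b' → idx c' ≠ idx d' →
      Commute (P.Y a' b' 1) (P.Y c' d' 1) →
      Commute (P.Y (fl p (fl q a')) (fl p (fl q b')) 1) (P.Y (fl p (fl q c')) (fl p (fl q d')) 1) := by
    intro a' b' c' d' p q ha hc h
    have h1 := h.map (MulAut.conj (P.σ p q)).toMonoidHom
    change Commute (MulAut.conj (P.σ p q) _) (MulAut.conj (P.σ p q) _) at h1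
    rwa [A.s1.fl_conj ha, A.s1.fl_conj hc] at h1
  have hbase : ∀ {i j k m : I}, i ≠ j → i ≠ k → i ≠ m → j ≠ k → j ≠ m → k ≠ m →
      Commute (P.Y (.inr i) (.inl j) 1) (P.Y (.inr k) (.inl m) 1) := by
    intro i j k m hij hik him hjk hjm hkm
    rw [Y_rl, Y_rl]
    exact (X_comm hij.symm hkm.symm him hjk _ _).map P.φ
  refine sign4 hab hac had hbc hbd hcd (fun a b c d => Commute (P.Y a b 1) (P.Y c d 1))
    (fun a' b' c' d' p q ha hb hc hd h => hQ a' b' c' d' p q (by rw [ha, hb]; exact hab)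
      (by rw [hc, hd]; exact hcd) h)
    (hbase hab hac had hbc hbd hcd) ?_ rfl rfl rfl rfl
  by_cases h4 : Fintype.card I = 4
  · obtain ⟨e, e1, e2, e3, h⟩ := A.III h2 h4
    obtain ⟨π, p1, p2, p3⟩ := exists_perm3 A.s1.hol A.s1.hoc A.s1.hlc hab hac hbc
    obtain ⟨m, f, hm, hf⟩ := exists_smon (F := F) π
    have p4 : π e = idx d := by
      -- the fourth index
      have hne1 : π e ≠ idx a := by rw [← p1]; exact π.injective.ne e1
      have hne2 : π e ≠ idx b := by rw [← p2]; exact π.injective.ne e2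
      have hne3 : π e ≠ idx c := by rw [← p3]; exact π.injective.ne e3
      by_contra hne4
      have : ({idx a, idx b, idx c, idx d, π e} : Finset I).card = 5 := by
        rw [Finset.card_insert_of_notMem, Finset.card_insert_of_notMem, Finset.card_insert_of_notMem,
          Finset.card_insert_of_notMem, Finset.card_singleton]
        · simpa using Ne.symm hne4
        · simp [hcd, hne3.symm]
        · simp [hbc, hbd, hne2.symm]
        · simp [hab, hac, had, hne1.symm]
      have h5 := Finset.card_le_univ ({idx a, idx b, idx c, idx d, π e} : Finset I)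
      omega
    have h1 := h.map (MulAut.conj (P.φ m)).toMonoidHom
    change Commute (MulAut.conj (P.φ m) _) (MulAut.conj (P.φ m) _) at h1
    rw [A.s1.mon_conj (a := .inl P.o) (b := .inr P.l) hm hf A.s1.hol,
      A.s1.mon_conj (a := .inl P.c) (b := .inl e) hm hf e3.symm] at h1
    simp only [Sum.map_inl, Sum.map_inr, p1, p2, p3, p4, idx_inl, idx_inr, sgn_eq h2 hf, mul_one] at h1
    have h3 := hQ _ _ _ _ (idx a) (idx b) (by simpa using hab) (by simpa using hcd) h1
    rw [fl_of_ne (p := idx b) (a := .inl (idx a)) (by simpa using hab), fl_inl_self, fl_inr_self,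
      fl_of_ne (p := idx a) (a := .inl (idx b)) (by simpa using hab.symm),
      fl_of_ne (p := idx b) (a := .inl (idx c)) (by simpa using hbc.symm),
      fl_of_ne (p := idx a) (a := .inl (idx c)) (by simpa using hac.symm),
      fl_of_ne (p := idx b) (a := .inl (idx d)) (by simpa using hbd.symm),
      fl_of_ne (p := idx a) (a := .inl (idx d)) (by simpa using had.symm)] at h3
    have h4 := hQ _ _ _ _ (idx c) (idx d) (by simpa using hab) (by simpa using hcd) h3
    rwa [fl_of_ne (p := idx d) (a := .inl (idx c)) (by simpa using hcd), fl_inl_self, fl_inl_self,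
      fl_of_ne (p := idx c) (a := .inr (idx d)) (by simpa using hcd.symm),
      fl_of_ne (p := idx d) (a := .inl (idx b)) (by simpa using hbd),
      fl_of_ne (p := idx c) (a := .inl (idx b)) (by simpa using hbc),
      fl_of_ne (p := idx d) (a := .inr (idx a)) (by simpa using had),
      fl_of_ne (p := idx c) (a := .inr (idx a)) (by simpa using hac)] at h4
  · -- a fifth index
    obtain ⟨e, he⟩ : ∃ e : I, e ∉ ({idx a, idx b, idx c, idx d} : Finset I) := by
      by_contra hcon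
      push Not at hcon
      have h5 : (Finset.univ : Finset I) ⊆ {idx a, idx b, idx c, idx d} := fun x _ => hcon x
      have h6 := Finset.card_le_card h5
      rw [Finset.card_univ] at h6
      have h7 : ({idx a, idx b, idx c, idx d} : Finset I).card ≤ 4 := Finset.card_le_four
      have := A.s1.hI
      omega
    simp only [Finset.mem_insert, Finset.mem_singleton, not_or] at he
    obtain ⟨e1, e2, e3, e4⟩ := he
    have h3 := hQ _ _ _ _ (idx d) e (by simpa using hab) (by simpa using hcd) (hbase hab hac had hbc hbd hcd)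
    rwa [fl_of_ne (p := e) (a := .inr (idx a)) (by simpa using Ne.symm e1),
      fl_of_ne (p := e) (a := .inl (idx b)) (by simpa using Ne.symm e2),
      fl_of_ne (p := e) (a := .inr (idx c)) (by simpa using Ne.symm e3),
      fl_of_ne (p := e) (a := .inl (idx d)) (by simpa using Ne.symm e4), fl_inl_self,
      fl_of_ne (p := idx d) (a := .inr (idx a)) (by simpa using had),
      fl_of_ne (p := idx d) (a := .inl (idx b)) (by simpa using hbd),
      fl_of_ne (p := idx d) (a := .inr (idx c)) (by simpa using hcd)] at h3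

/-- **Type III.** -/
theorem comm3 {a b c d : I ⊕ I} (hab : idx a ≠ idx b) (hac : idx a ≠ idx c)
    (had : idx a ≠ idx d) (hbc : idx b ≠ idx c) (hbd : idx b ≠ idx d) (hcd : idx c ≠ idx d) (u t : F) :
    Commute (P.Y a b u) (P.Y c d t) := by
  rw [← commutatorElement_eq_one_iff_commute]
  by_cases h2 : (2 : F) = 0
  · obtain ⟨y, hy⟩ := A.sqr h2 (u * t)
    rw [A.s1.L2 hab hac had hbc hbd hcd, ← hy]
    by_cases hy0 : y = 0
    · rw [hy0, mul_zero, A.s1.Y_zero, commutatorElement_one_left]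
    have h1 := (A.III_all h2 hab hac had hbc hbd hcd).map (MulAut.conj (P.HH a c y)).toMonoidHom
    change Commute (MulAut.conj (P.HH a c y) _) (MulAut.conj (P.HH a c y) _) at h1
    rw [A.s1.HH_left hab hac hbc hy0, A.s1.HH_right had hac hcd.symm hy0, mul_one,
      ← commutatorElement_eq_one_iff_commute, A.s1.L2 hab hac had hbc hbd hcd] at h1
    exact h1
  · have h := A.s1.L_add hab hac had hbc hbd hcd (u / 2) (u / 2) t
    have e : u / 2 + u / 2 = u := by field_simp; ring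
    rw [A.s1.L_sq hab hac had hbc hbd hcd, e] at h
    exact h

end Pre.S2

end Cfsg.Agent.H110.D
end
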