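import Cfsg.Agent.H110.D.Tor2
import Cfsg.Agent.H111.Inj
set_option linter.all false

-- part: H110/D/Root
section
/-!
# The root datum of type `D` (helper110, for S2295)
-/

set_option autoImplicit false

namespace Cfsg.Agent.H110.D

open Equiv Matrix
open Cfsg.Agent.ChevalleyStructure.SteinbergBruhat

/-- signed indices -/
abbrev Sg (m : ℕ) : Type := Fin (m + 2) ⊕ Fin (m + 2)

variable {m : ℕ}

/-- weights of signed indices -/
def wt (a : Sg m) : ℤ := a.elim (fun i => (m : ℤ) + 1 - i.val) fun i => -((m : ℤ) + 1 - i.val)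

theorem wt_inl (i : Fin (m + 2)) : wt (.inl i : Sg m) = (m : ℤ) + 1 - i.val := rfl
theorem wt_inr (i : Fin (m + 2)) : wt (.inr i : Sg m) = -((m : ℤ) + 1 - i.val) := rfl

theorem wt_ng (a : Sg m) : wt (ng a) = - wt a := by
  rcases a with a | a
  · rfl
  · rw [ng_inr, wt_inl, wt_inr, neg_neg]

theorem wt_add_ne {a b : Sg m} (h : idx a ≠ idx b) : wt a + wt b ≠ 0 := by
  intro e
  apply h
  apply Fin.ext
  rcases a with a | a <;> rcases b with b | b <;> simp only [wt_inl, wt_inr] at e <;>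
    simp only [idx_inl, idx_inr] <;> have := a.isLt <;> have := b.isLt <;> omega

/-- The roots. -/
def Root (m : ℕ) : Type := {r : Sym2 (Sg m) // ¬ (r.map idx).IsDiag}

instance finite_root (m : ℕ) : Finite (Root m) := by unfold Root; infer_instance

theorem isRoot_iff {a b : Sg m} : ¬ ((s(a, b) : Sym2 (Sg m)).map idx).IsDiag ↔ idx a ≠ idx b := by
  rw [Sym2.map_mk, Sym2.mk_isDiag_iff]

/-- The root `{a, b}`. -/
def mkR (a b : Sg m) (h : idx a ≠ idx b) : Root m := ⟨s(a, b), isRoot_iff.2 h⟩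

theorem Root.ind {P : Root m → Prop} (h : ∀ a b h, P (mkR a b h)) (r : Root m) : P r := by
  obtain ⟨r, hr⟩ := r
  induction r using Sym2.ind with
  | _ a b => exact h a b (isRoot_iff.1 hr)

theorem mkR_eq {a b c d : Sg m} {h : idx a ≠ idx b} {h' : idx c ≠ idx d} :
    mkR a b h = mkR c d h' ↔ (a = c ∧ b = d) ∨ (a = d ∧ b = c) :=
  Subtype.ext_iff.trans Sym2.eq_iff

/-- height of a root -/
def Root.ht (r : Root m) : ℤ := Sym2.lift ⟨fun a b => wt a + wt b, fun a b => add_comm _ _⟩ r.1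

@[simp] theorem ht_mkR (a b : Sg m) (h : idx a ≠ idx b) : (mkR a b h).ht = wt a + wt b := rfl

/-- image of a root -/
def Root.im (f : Sg m → Sg m) (hf : ∀ a b, idx a ≠ idx b → idx (f a) ≠ idx (f b)) (r : Root m) :
    Root m :=
  ⟨r.1.map f, by
    revert r
    refine Root.ind fun a b h => ?_
    change ¬ (((s(a, b) : Sym2 (Sg m)).map f).map idx).IsDiag
    rw [Sym2.map_mk, isRoot_iff]
    exact hf a b h⟩

theorem im_mkR (f : Sg m → Sg m) (hf : ∀ a b, idx a ≠ idx b → idx (f a) ≠ idx (f b)) (a b : Sg m)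
    (h : idx a ≠ idx b) : (mkR a b h).im f hf = mkR (f a) (f b) (hf a b h) := rfl

/-- The index set of simple roots -/
abbrev Sim (m : ℕ) : Type := Fin (m + 1) ⊕ Unit

/-- first member of a simple root -/
def sa : Sim m → Sg m
  | .inl i => .inl i.castSucc
  | .inr _ => .inl (Fin.last m).castSucc

/-- second member of a simple root -/
def sb : Sim m → Sg m
  | .inl i => .inr i.succ
  | .inr _ => .inl (Fin.last m).succ

theorem cs_ne (i : Fin (m + 1)) : i.castSucc ≠ i.succ := by
  intro h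
  have := congrArg Fin.val h
  simp at this

theorem sab (i : Sim m) : idx (sa i) ≠ idx (sb i) := by
  rcases i with i | i <;> exact cs_ne _

theorem wt_sab (i : Sim m) : wt (sa i) + wt (sb i) = 1 := by
  rcases i with i | i
  · change wt (.inl i.castSucc : Sg m) + wt (.inr i.succ : Sg m) = 1
    rw [wt_inl, wt_inr, Fin.val_castSucc, Fin.val_succ]
    push_cast; ring
  · change wt (.inl (Fin.last m).castSucc : Sg m) + wt (.inl (Fin.last m).succ : Sg m) = 1
    rw [wt_inl, wt_inl, Fin.val_castSucc, Fin.val_succ, Fin.val_last]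
    push_cast; ring

theorem wt_rho {a b : Sg m} (hab : idx a ≠ idx b) (h : wt a + wt b = 1) (x : Sg m) :
    wt (rho a b x) = wt x + ((if x = ng a ∨ x = ng b then 1 else 0) - if x = a ∨ x = b then 1 else 0) := by
  have n1 : a ≠ b := fun e => hab (by rw [e])
  have n2 : a ≠ ng b := fun e => hab (by rw [e, idx_ng])
  have n3 : ng a ≠ b := fun e => hab (by rw [← e, idx_ng])
  have n4 : ng a ≠ ng b := fun e => hab (by rw [← idx_ng a, e, idx_ng])
  refine rho_cases (a := a) (b := b) (fun x => wt (rho a b x) = wt x +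
    ((if x = ng a ∨ x = ng b then 1 else 0) - if x = a ∨ x = b then 1 else 0)) ?_ ?_ ?_ ?_ ?_ x
  · rw [rho_left, wt_ng, if_neg, if_pos (Or.inl rfl)]
    · omega
    · rintro (e | e)
      · exact ng_ne a e.symm
      · exact n2 e
  · rw [rho_left', wt_ng, if_pos (Or.inl rfl), if_neg]
    · omega
    · rintro (e | e)
      · exact ng_ne a e
      · exact n3 e
  · rw [rho_right hab, wt_ng, if_neg, if_pos (Or.inr rfl)]
    · omega
    · rintro (e | e)
      · exact n3 e.symm
      · exact ng_ne b e.symm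
  · rw [rho_right' hab, wt_ng, if_pos (Or.inr rfl), if_neg]
    · omega
    · rintro (e | e)
      · exact n2 e.symm
      · exact ng_ne b e
  · intro x h1 h2
    rw [rho_other h1 h2, if_neg, if_neg]
    · omega
    · rintro (rfl | rfl)
      · exact h1 rfl
      · exact h2 rfl
    · rintro (rfl | rfl)
      · exact h1 (idx_ng _)
      · exact h2 (idx_ng _)

/-- The negative of a root. -/
def Root.neg (r : Root m) : Root m := r.im ng fun a b h => by rwa [idx_ng, idx_ng]

theorem rho_idx_ne {a b : Sg m} (hab : idx a ≠ idx b) (x y : Sg m) (h : idx x ≠ idx y) :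
    idx (rho a b x) ≠ idx (rho a b y) := by
  rw [idx_rho hab, idx_rho hab]
  exact (Equiv.swap _ _).injective.ne h

/-- Simple reflections. -/
def Root.refl (i : Sim m) (r : Root m) : Root m := r.im (rho (sa i) (sb i)) (rho_idx_ne (sab i))

/-- Simple roots. -/
def simR (i : Sim m) : Root m := mkR (sa i) (sb i) (sab i)

theorem Root.ht_ne (r : Root m) : r.ht ≠ 0 := by
  revert r
  exact Root.ind fun a b h => wt_add_ne h

theorem Root.ht_neg (r : Root m) : r.neg.ht = - r.ht := by
  revert r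
  refine Root.ind fun a b h => ?_
  rw [Root.neg, im_mkR, ht_mkR, ht_mkR, wt_ng, wt_ng]
  ring

theorem Root.refl_refl (i : Sim m) (r : Root m) : (r.refl i).refl i = r := by
  revert r
  refine Root.ind fun a b h => ?_
  rw [Root.refl, Root.refl, im_mkR, im_mkR, mkR_eq, rho_rho (sab i), rho_rho (sab i)]
  exact Or.inl ⟨rfl, rfl⟩

theorem Root.refl_neg (i : Sim m) (r : Root m) : r.neg.refl i = (r.refl i).neg := by
  revert r
  refine Root.ind fun a b h => ?_
  rw [Root.refl, Root.refl, Root.neg, Root.neg, im_mkR, im_mkR, im_mkR, im_mkR, mkR_eq, rho_ng (sab i),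
    rho_ng (sab i)]
  exact Or.inl ⟨rfl, rfl⟩

theorem refl_simR (i : Sim m) : (simR i).refl i = (simR i).neg := by
  rw [simR, Root.refl, Root.neg, im_mkR, im_mkR, mkR_eq, rho_left, rho_right (sab i)]
  exact Or.inr ⟨rfl, rfl⟩

theorem ht_simR (i : Sim m) : (simR i).ht = 1 := wt_sab i

theorem Root.refl_pos (i : Sim m) (r : Root m) (hr : 0 < r.ht) (hne : r ≠ simR i) : 0 < (r.refl i).ht := by
  revert r
  refine Root.ind fun a b h => ?_
  intro hr hne
  have h0 := (( mkR a b h).refl i).ht_ne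
  rw [ht_mkR] at hr
  rw [Root.refl, im_mkR, ht_mkR] at h0 ⊢
  rw [simR, Ne, mkR_eq] at hne
  rw [wt_rho (sab i) (wt_sab i), wt_rho (sab i) (wt_sab i)] at h0 ⊢
  have key : ¬ ((a = sa i ∨ a = sb i) ∧ (b = sa i ∨ b = sb i)) := by
    rintro ⟨h1 | h1, h2 | h2⟩
    · exact h (by rw [h1, h2])
    · exact hne (Or.inl ⟨h1, h2⟩)
    · exact hne (Or.inr ⟨h1, h2⟩)
    · exact h (by rw [h1, h2])
  by_cases h1 : a = sa i ∨ a = sb i
  · rw [if_neg (fun h2 => key ⟨h1, h2⟩ : ¬ (b = sa i ∨ b = sb i))] at h0 ⊢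
    rw [if_pos h1] at h0 ⊢
    split_ifs at h0 ⊢ <;> omega
  · rw [if_neg h1] at h0 ⊢
    split_ifs at h0 ⊢ <;> omega

/-- some simple reflection raises the height of a negative root -/
theorem Root.exists_raise (r : Root m) (hr : r.ht < 0) : ∃ i, r.ht < (r.refl i).ht := by
  revert r
  refine Root.ind fun x y h => ?_
  -- the first member has negative weight
  have main : ∀ x y : Sg m, ∀ h : idx x ≠ idx y, wt x < 0 → ∃ i, (mkR x y h).ht < ((mkR x y h).refl i).ht := by
    intro x y h hx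
    rcases x with i | i
    · rw [wt_inl] at hx
      have := i.isLt
      omega
    · rw [wt_inr] at hx
      obtain ⟨i, hi⟩ := i
      simp only at hx
      have hi' : i < m + 1 := by omega
      set j : Fin (m + 1) := ⟨i, hi'⟩ with hj
      have ej : (⟨i, hi⟩ : Fin (m + 2)) = j.castSucc := rfl
      rw [ej] at h
      have hsa : sa (.inl j : Sim m) = .inl j.castSucc := rfl
      have hsb : sb (.inl j : Sim m) = .inr j.succ := rfl
      rw [idx_inr] at h
      by_cases hy : y = .inr j.succ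
      · -- use the next simple root
        subst hy
        by_cases hlast : i + 1 < m + 1
        · set k : Fin (m + 1) := ⟨i + 1, hlast⟩ with hk
          have ek : j.succ = k.castSucc := rfl
          have hsa' : sa (.inl k : Sim m) = .inl k.castSucc := rfl
          have hsb' : sb (.inl k : Sim m) = .inr k.succ := rfl
          refine ⟨.inl k, ?_⟩
          rw [Root.refl, im_mkR, ht_mkR, ht_mkR, wt_rho (sab _) (wt_sab _), wt_rho (sab _) (wt_sab _), hsa', hsb',
            ng_inl, ng_inr, ej, ek]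
          have e1 : j.castSucc ≠ k.castSucc := by
            intro e; have := congrArg Fin.val e; simp [hj, hk] at this
          have e2 : j.castSucc ≠ k.succ := by
            intro e; have := congrArg Fin.val e; simp only [hj, hk, Fin.val_castSucc, Fin.val_succ] at this; omega
          have e3 := cs_ne k
          simp [e1, e2, e3]
        · have him : i = m := by omega
          subst him
          have e1 : j = Fin.last i := rfl
          have hsa' : sa (.inr () : Sim i) = .inl (Fin.last i).castSucc := rfl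
          have hsb' : sb (.inr () : Sim i) = .inl (Fin.last i).succ := rfl
          refine ⟨.inr (), ?_⟩
          rw [Root.refl, im_mkR, ht_mkR, ht_mkR, wt_rho (sab _) (wt_sab _), wt_rho (sab _) (wt_sab _), hsa', hsb',
            ng_inl, ng_inl, ej, e1]
          simp
          omega
      · refine ⟨.inl j, ?_⟩
        rw [Root.refl, im_mkR, ht_mkR, ht_mkR, wt_rho (sab _) (wt_sab _), wt_rho (sab _) (wt_sab _), hsa, hsb,
          ng_inl, ng_inr, ej]
        have e3 := cs_ne j
        have e4 : y ≠ .inl j.castSucc := by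
          rintro rfl
          exact h rfl
        have e5 : ¬ (y = .inl j.castSucc ∨ y = .inr j.succ) := by
          rintro (e | e)
          · exact e4 e
          · exact hy e
        rw [if_neg e5, if_pos (Or.inl rfl), if_neg (show ¬ ((.inr j.castSucc : Sg m) = .inl j.castSucc ∨
          (.inr j.castSucc : Sg m) = .inr j.succ) by simp [e3])]
        split_ifs <;> omega
  intro hr
  rw [ht_mkR] at hr
  by_cases hx : wt x < 0
  · exact main x y h hx
  · have hy : wt y < 0 := by omega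
    obtain ⟨i, hi⟩ := main y x h.symm hy
    refine ⟨i, ?_⟩
    have e : mkR y x h.symm = mkR x y h := mkR_eq.2 (Or.inr ⟨rfl, rfl⟩)
    rwa [e] at hi

end Cfsg.Agent.H110.D
end

-- part: H110/D/Datum
section
/-!
# The root datum of type `D` in `J` (helper110, for S2295)
-/

set_option autoImplicit false

namespace Cfsg.Agent.H110.D

open Equiv Matrix
open Cfsg.Agent.ChevalleyStructure.SteinbergBruhat

variable {m : ℕ} {F : Type*} [Field F] {J : Type*} [Group J]

/-- The root datum. -/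
noncomputable def Pre.rd (P : Pre (Fin (m + 2)) F J) : RData J (Root m) (Sim m) where
  pos r := 0 < r.ht
  neg := Root.neg
  sim := simR
  refl := Root.refl
  X r := Subgroup.closure {x | ∃ a b t, r.1 = s(a, b) ∧ x = P.Y a b t}
  H := P.H
  n i := P.WW (sa i) (sb i) 1

namespace Pre

variable {P : Pre (Fin (m + 2)) F J}

namespace S2

variable (A : P.S2)
include A

/-- root subgroups -/
def XR (A : P.S2) (a b : Sg m) : Subgroup J where
  carrier := {x | ∃ t, x = P.Y a b t}
  one_mem' := ⟨0, A.s1.Y_zero.symm⟩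
  mul_mem' := by
    rintro _ _ ⟨t, rfl⟩ ⟨u, rfl⟩
    exact ⟨t + u, (A.s1.Y_add t u).symm⟩
  inv_mem' := by
    rintro _ ⟨t, rfl⟩
    exact ⟨-t, A.s1.Y_inv t⟩

theorem X_mkR (a b : Sg m) (h : idx a ≠ idx b) : P.rd.X (mkR a b h) = A.XR a b := by
  apply le_antisymm
  · change Subgroup.closure _ ≤ _
    rw [Subgroup.closure_le]
    rintro x ⟨c, d, t, e, rfl⟩
    have e' : s(a, b) = s(c, d) := e
    rw [Sym2.eq_iff] at e'
    rcases e' with ⟨rfl, rfl⟩ | ⟨rfl, rfl⟩
    · exact ⟨t, rfl⟩
    · exact ⟨-t, A.s1.Y_symm h t⟩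
  · rintro x ⟨t, rfl⟩
    exact Subgroup.subset_closure ⟨a, b, t, rfl, rfl⟩

theorem mem_X (r : Root m) (x : J) : x ∈ P.rd.X r →
    ∃ a b, ∃ h : idx a ≠ idx b, ∃ t, r = mkR a b h ∧ x = P.Y a b t := by
  revert r
  refine Root.ind fun a b h hx => ?_
  rw [A.X_mkR] at hx
  obtain ⟨t, rfl⟩ := hx
  exact ⟨a, b, h, t, rfl, rfl⟩

theorem conj_H {h : J} (hh : h ∈ P.H) {a b : Sg m} (hab : idx a ≠ idx b) : ∀ x ∈ A.XR a b,
    h * x * h⁻¹ ∈ A.XR a b := by
  rintro x ⟨t, rfl⟩
  obtain ⟨κ, -, h2, -⟩ := A.s1.Scal_of_mem hh a b hab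
  exact ⟨κ * t, h2 t⟩

theorem conj_n (i : Sim m) {a b : Sg m} (hab : idx a ≠ idx b) (t : F) :
    P.rd.n i * P.Y a b t * (P.rd.n i)⁻¹ ∈ A.XR (rho (sa i) (sb i) a) (rho (sa i) (sb i) b) := by
  obtain ⟨κ, -, h2, -⟩ := A.s1.WW_conj (sab i) a b hab
  exact ⟨κ * t, h2 t⟩

/-- the commutator relations -/
theorem CM {a b c d : Sg m} (hab : idx a ≠ idx b) (hcd : idx c ≠ idx d) (h1 : 0 < wt a + wt b)
    (h2 : 0 < wt c + wt d) (T : Subgroup J)
    (hT : ∀ p q (_ : idx p ≠ idx q), wt a + wt b < wt p + wt q → wt c + wt d < wt p + wt q → A.XR p q ≤ T)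
    (t u : F) : P.Y a b t * P.Y c d u * (P.Y a b t)⁻¹ * (P.Y c d u)⁻¹ ∈ T := by
  have hcomm : ∀ {x y : J}, Commute x y → x * y * x⁻¹ * y⁻¹ ∈ T := by
    intro x y h
    rw [h.eq]
    have : y * x * x⁻¹ * y⁻¹ = 1 := by group
    rw [this]; exact T.one_mem
  -- the case of a common index
  have main : ∀ a b c d : Sg m, idx a ≠ idx b → idx c ≠ idx d → idx a = idx c → 0 < wt a + wt b →
      0 < wt c + wt d →
      (∀ p q (_ : idx p ≠ idx q), wt a + wt b < wt p + wt q → wt c + wt d < wt p + wt q → A.XR p q ≤ T) →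
      ∀ t u : F, P.Y a b t * P.Y c d u * (P.Y a b t)⁻¹ * (P.Y c d u)⁻¹ ∈ T := by
    intro a b c d hab hcd hac h1 h2 hT t u
    rcases eq_or_ng hac with rfl | hac'
    · -- same first member
      by_cases hbd : idx b = idx d
      · rcases eq_or_ng hbd with rfl | hbd'
        · apply hcomm
          rw [Commute, SemiconjBy, ← A.s1.Y_add, ← A.s1.Y_add, add_comm t u]
        · have hd : d = ng b := by rw [hbd', ng_ng]
          subst hd
          exact hcomm (A.comm4 hab t u)
      · exact hcomm (A.s1.comm2 hab hcd hbd t u)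
    · have hc : c = ng a := by rw [hac', ng_ng]
      subst hc
      by_cases hbd : idx b = idx d
      · rcases eq_or_ng hbd with rfl | hbd'
        · exact hcomm (A.comm4' hab t u)
        · have hd : d = ng b := by rw [hbd', ng_ng]
          subst hd
          rw [wt_ng, wt_ng] at h2
          omega
      · have hcd' : idx a ≠ idx d := by simpa using hcd
        have e := A.s1.comm1 hab.symm hbd hcd' (-t) u
        rw [A.s1.Y_symm hab, neg_neg] at e
        have : P.Y a b t * P.Y (ng a) d u * (P.Y a b t)⁻¹ * (P.Y (ng a) d u)⁻¹ = P.Y b d (-(-t * u)) := by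
          rw [e]; group
        rw [this]
        refine hT b d hbd ?_ ?_ ⟨_, rfl⟩
        · rw [wt_ng] at h2; omega
        · rw [wt_ng] at h2 ⊢; omega
  by_cases hac : idx a = idx c
  · exact main a b c d hab hcd hac h1 h2 hT t u
  by_cases had : idx a = idx d
  · have := main a b d c hab hcd.symm had h1 (by omega)
      (fun p q h k1 k2 => hT p q h k1 (by omega)) t (-u)
    rw [A.s1.Y_symm hcd, neg_neg] at this
    exact this
  by_cases hbc : idx b = idx c
  · have := main b a c d hab.symm hcd hbc (by omega) h2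
      (fun p q h k1 k2 => hT p q h (by omega) k2) (-t) u
    rw [A.s1.Y_symm hab, neg_neg] at this
    exact this
  by_cases hbd : idx b = idx d
  · have := main b a d c hab.symm hcd.symm hbd (by omega) (by omega)
      (fun p q h k1 k2 => hT p q h (by omega) (by omega)) (-t) (-u)
    rw [A.s1.Y_symm hab, A.s1.Y_symm hcd, neg_neg, neg_neg] at this
    exact this
  exact hcomm (A.comm3 hab hac had hbc hbd hcd t u)

theorem comm (r s : Root m) (hr : 0 < r.ht) (hs' : 0 < s.ht) (x : J) (hx : x ∈ P.rd.X r) (y : J)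
    (hy : y ∈ P.rd.X s) :
    x * y * x⁻¹ * y⁻¹ ∈ ⨆ t, ⨆ (_ : r.ht < Root.ht t ∧ s.ht < Root.ht t), P.rd.X t := by
  obtain ⟨a, b, hab, t, rfl, rfl⟩ := A.mem_X _ _ hx
  obtain ⟨c, d, hcd, u, rfl, rfl⟩ := A.mem_X _ _ hy
  refine A.CM hab hcd hr hs' _ ?_ t u
  intro p q hpq h1 h2
  rw [← A.X_mkR p q hpq]
  exact le_iSup₂_of_le (f := fun t (_ : (mkR a b hab).ht < Root.ht t ∧ (mkR c d hcd).ht < Root.ht t) => P.rd.X t)
    (mkR p q hpq) ⟨h1, h2⟩ le_rfl

theorem X_sim (i : Sim m) : P.rd.X (P.rd.sim i) = A.XR (sa i) (sb i) := A.X_mkR _ _ (sab i)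

theorem X_nsim (i : Sim m) : P.rd.X (P.rd.neg (P.rd.sim i)) = A.XR (ng (sa i)) (ng (sb i)) := by
  change P.rd.X (simR i).neg = _
  rw [simR, Root.neg, im_mkR, A.X_mkR]

theorem n_mem (i : Sim m) : P.rd.n i ∈ P.rd.X (P.rd.sim i) ⊔ P.rd.X (P.rd.neg (P.rd.sim i)) ⊔ P.rd.H := by
  rw [A.X_sim, A.X_nsim]
  refine (le_sup_left : _ ≤ A.XR (sa i) (sb i) ⊔ A.XR (ng (sa i)) (ng (sb i)) ⊔ P.rd.H) ?_
  have h1 : P.Y (sa i) (sb i) 1 ∈ A.XR (sa i) (sb i) := ⟨_, rfl⟩
  have h2 : P.Y (ng (sa i)) (ng (sb i)) 1⁻¹ ∈ A.XR (ng (sa i)) (ng (sb i)) := ⟨_, rfl⟩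
  exact Subgroup.mul_mem _ (Subgroup.mul_mem _ (Subgroup.mem_sup_left h1) (Subgroup.mem_sup_right h2))
    (Subgroup.mem_sup_left h1)

theorem X_neg (i : Sim m) : ∀ x ∈ P.rd.X (P.rd.neg (P.rd.sim i)), x = 1 ∨
    ∃ a ∈ P.rd.X (P.rd.sim i), ∃ h ∈ P.rd.H, ∃ b ∈ P.rd.X (P.rd.sim i), x = a * (P.rd.n i * h) * b := by
  rw [A.X_sim, A.X_nsim]
  rintro x ⟨t, rfl⟩
  by_cases ht : t = 0
  · left; rw [ht, A.s1.Y_zero]
  right
  have ht' : t⁻¹ ≠ 0 := inv_ne_zero ht
  refine ⟨(P.Y (sa i) (sb i) t⁻¹)⁻¹, (A.XR _ _).inv_mem ⟨_, rfl⟩,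
    (P.WW (sa i) (sb i) 1)⁻¹ * P.WW (sa i) (sb i) t⁻¹, ?_, (P.Y (sa i) (sb i) t⁻¹)⁻¹,
    (A.XR _ _).inv_mem ⟨_, rfl⟩, ?_⟩
  · rw [A.s1.WW_inv]
    exact A.s1.WW_mul_mem (sab i) (neg_ne_zero.2 one_ne_zero) ht'
  · change _ = _ * (P.WW (sa i) (sb i) 1 * _) * _
    rw [mul_inv_cancel_left]
    unfold WW
    rw [inv_inv]
    group

theorem gen (hgen : Subgroup.closure (Set.range P.φ ∪ {P.s}) = ⊤) :
    P.rd.B ⊔ Subgroup.closure (Set.range P.rd.n) = ⊤ := by
  set K := P.rd.B ⊔ Subgroup.closure (Set.range P.rd.n) with hK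
  have hn : ∀ i, P.rd.n i ∈ K := fun i =>
    (le_sup_right : _ ≤ K) (Subgroup.subset_closure ⟨i, rfl⟩)
  have hpos : ∀ r : Root m, 0 < r.ht → P.rd.X r ≤ K := by
    intro r hr
    refine le_trans ?_ (le_sup_left : _ ≤ K)
    refine le_trans ?_ (le_sup_left : P.rd.U ≤ P.rd.B)
    exact le_iSup₂_of_le (f := fun r (_ : P.rd.pos r) => P.rd.X r) r hr le_rfl
  have hall : ∀ (k : ℕ) (r : Root m), -(k : ℤ) ≤ r.ht → P.rd.X r ≤ K := by
    intro k
    induction k with
    | zero =>
      intro r hr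
      have := r.ht_ne
      exact hpos r (by push_cast at hr; omega)
    | succ k ih =>
      intro r hr
      by_cases h0 : 0 < r.ht
      · exact hpos r h0
      have h1 : r.ht < 0 := by
        have := r.ht_ne
        omega
      obtain ⟨i, hi⟩ := r.exists_raise h1
      have h2 := ih (r.refl i) (by push_cast at hr; omega)
      intro x hx
      have h3 : P.rd.n i * x * (P.rd.n i)⁻¹ ∈ K := by
        apply h2
        obtain ⟨a, b, hab, t, rfl, rfl⟩ := A.mem_X _ _ hx
        rw [Root.refl, im_mkR, A.X_mkR]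
        exact A.conj_n i hab t
      have h4 := K.mul_mem (K.mul_mem (K.inv_mem (hn i)) h3) (hn i)
      have e : (P.rd.n i)⁻¹ * (P.rd.n i * x * (P.rd.n i)⁻¹) * P.rd.n i = x := by group
      rwa [e] at h4
  have hY : ∀ a b : Sg m, idx a ≠ idx b → ∀ t, P.Y a b t ∈ K := by
    intro a b hab t
    have h1 := hall (-(mkR a b hab).ht).toNat (mkR a b hab) (by
      have := Int.self_le_toNat (-(mkR a b hab).ht)
      omega)
    apply h1
    rw [A.X_mkR]
    exact ⟨t, rfl⟩
  rw [eq_top_iff, ← hgen, Subgroup.closure_le]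
  rintro x (⟨g, rfl⟩ | hx)
  · have h1 : g ∈ Subgroup.closure (Cfsg.Agent.LieClassical.SLGen.transvections (Fin (m + 2)) F) := by
      rw [Cfsg.Agent.LieClassical.SLGen.closure_transvections]; trivial
    have h2 : Subgroup.closure (Cfsg.Agent.LieClassical.SLGen.transvections (Fin (m + 2)) F) ≤ K.comap P.φ := by
      rw [Subgroup.closure_le]
      rintro _ ⟨i, j, h, c, rfl⟩
      have := hY (.inr j) (.inl i) (by simpa using h.symm) c
      rw [Y_rl, X_of h] at this
      exact this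
    exact h2 h1
  · rw [Set.mem_singleton_iff] at hx
    subst hx
    have h1 : P.σ P.o P.l = P.s := Sys1.ss_ol A.s1
    rw [SetLike.mem_coe, ← h1, A.s1.σ_eq A.s1.hol]
    have hW : ∀ a b : Sg m, idx a ≠ idx b → P.WW a b 1 ∈ K := fun a b hab =>
      K.mul_mem (K.mul_mem (hY a b hab _) (hY _ _ (by simpa using hab) _)) (hY a b hab _)
    refine K.mul_mem (hW _ _ ?_) (K.inv_mem (hW _ _ ?_))
    · exact A.s1.hol.symm
    · exact A.s1.hol.symm

end S2

end Pre

end Cfsg.Agent.H110.D
end

-- part: H110/D/Model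
section
/-!
# The matrix model of type `D` (helper110, for S2295)
-/

set_option autoImplicit false

namespace Cfsg.Agent.H110.D

open Equiv Matrix

section mono

variable {K F : Type*} [Fintype K] [DecidableEq K] [Field F]

/-- monomial matrices -/
def MonG (M : GL K F) (π : Perm K) (c : K → F) : Prop :=
  ∀ a b, (M : Matrix K K F) a b = if a = π b then c b else 0

namespace MonG

variable {M M' : GL K F} {π π' : Perm K} {c c' : K → F}

theorem one : MonG (1 : GL K F) 1 fun _ => 1 := fun a b => by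
  rw [Units.val_one, one_apply]; rfl

theorem mul (h : MonG M π c) (h' : MonG M' π' c') : MonG (M * M') (π * π') fun b => c (π' b) * c' b := by
  intro a b
  rw [Units.val_mul, mul_apply, Finset.sum_eq_single (π' b)]
  · rw [h, h', if_pos rfl, Perm.mul_apply]
    split_ifs <;> simp
  · intro k _ hk
    rw [h', if_neg hk, mul_zero]
  · intro h; exact absurd (Finset.mem_univ _) h

theorem ext_eq (h : MonG M π c) (h' : MonG M' π c) : M = M' := by
  apply Units.ext
  ext a b
  rw [h, h']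

theorem congr (h : MonG M π c) (hπ : π = π') (hc : ∀ a, c a = c' a) : MonG M π' c' := by
  subst hπ
  have : c = c' := funext hc
  subst this
  exact h

end MonG

/-- permutation matrices -/
def pmat (F : Type*) [Field F] (π : Perm K) : Matrix K K F := of fun a b => if a = π b then 1 else 0

theorem pmat_mul (π : Perm K) (N : Matrix K K F) (a b : K) : (pmat F π * N) a b = N (π⁻¹ a) b := by
  rw [mul_apply, Finset.sum_eq_single (π⁻¹ a)]
  · simp [pmat]
  · intro k _ hk
    have : a ≠ π k := by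
      rintro rfl
      exact hk (by simp)
    simp [pmat, this]
  · intro h; exact absurd (Finset.mem_univ _) h

theorem mul_pmat (π : Perm K) (N : Matrix K K F) (a b : K) : (N * pmat F π) a b = N a (π b) := by
  rw [mul_apply, Finset.sum_eq_single (π b)]
  · simp [pmat]
  · intro k _ hk
    simp [pmat, hk]
  · intro h; exact absurd (Finset.mem_univ _) h

theorem pmat_one : pmat F (1 : Perm K) = 1 := by
  ext a b
  rw [one_apply]
  rfl

theorem pmat_comp (π σ : Perm K) : pmat F (π * σ) = pmat F π * pmat F σ := by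
  ext a b
  rw [pmat_mul]
  simp only [pmat, of_apply, Perm.mul_apply]
  congr 1
  exact propext ⟨fun h => by rw [h]; simp, fun h => by rw [← h]; simp⟩

/-- permutation matrices -/
def pm (F : Type*) [Field F] : Perm K →* GL K F where
  toFun π := ⟨pmat F π, pmat F π⁻¹, by rw [← pmat_comp, mul_inv_cancel, pmat_one],
    by rw [← pmat_comp, inv_mul_cancel, pmat_one]⟩
  map_one' := Units.ext pmat_one
  map_mul' π σ := Units.ext (pmat_comp π σ)

theorem coe_pm (π : Perm K) : (pm F π : Matrix K K F) = pmat F π := rfl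

theorem mon_pm (π : Perm K) : MonG (pm F π) π fun _ => 1 := fun _ _ => rfl

/-- monomial matrices commute with permutation matrices -/
theorem MonG.pm_comm {M : GL K F} {π : Perm K} {c : K → F} (h : MonG M π c) {f : Perm K} (hf : ∀ b, c (f b) = c b) :
    M * pm F f = pm F (π * f * π⁻¹) * M := by
  refine (h.mul (mon_pm f)).ext_eq (((mon_pm (π * f * π⁻¹)).mul h).congr (by group) fun a => ?_)
  rw [hf, one_mul, mul_one]

end mono

variable {I F : Type*} [Fintype I] [DecidableEq I] [Field F]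

/-- sign change -/
def flp (p : I) : Perm (I ⊕ I) := ⟨fl p, fl p, fl_fl p, fl_fl p⟩

@[simp] theorem flp_apply (p : I) (a : I ⊕ I) : flp p a = fl p a := rfl

theorem flp_mul_self (p : I) : flp p * flp p = 1 := by
  ext1 a
  rw [Perm.mul_apply, flp_apply, flp_apply, fl_fl, Perm.one_apply]

theorem flp_comm (p q : I) : flp p * flp q = flp q * flp p := by
  ext1 a
  rw [Perm.mul_apply, Perm.mul_apply]
  simp only [flp_apply]
  rw [fl_comm]

theorem flp_inv (p : I) : (flp p)⁻¹ = flp p := inv_eq_of_mul_eq_one_right (flp_mul_self p)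

theorem flp_conj (π : Perm I) (p : I) : Equiv.sumCongr π π * flp p * (Equiv.sumCongr π π)⁻¹ = flp (π p) := by
  rw [mul_inv_eq_iff_eq_mul]
  ext1 a
  rw [Perm.mul_apply, Perm.mul_apply]
  simp only [flp_apply]
  rcases a with a | a
  · by_cases h : a = p
    · subst h
      rw [fl_self (p := a) (a := (.inl a : I ⊕ I)) rfl]
      rw [fl_self (p := π a) (a := Equiv.sumCongr π π (.inl a)) rfl]
      rfl
    · rw [fl_of_ne (p := p) (a := (.inl a : I ⊕ I)) (by simpa using h)]
      rw [fl_of_ne (p := π p) (a := Equiv.sumCongr π π (.inl a))]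
      exact fun e => h (π.injective e)
  · by_cases h : a = p
    · subst h
      rw [fl_self (p := a) (a := (.inr a : I ⊕ I)) rfl]
      rw [fl_self (p := π a) (a := Equiv.sumCongr π π (.inr a)) rfl]
      rfl
    · rw [fl_of_ne (p := p) (a := (.inr a : I ⊕ I)) (by simpa using h)]
      rw [fl_of_ne (p := π p) (a := Equiv.sumCongr π π (.inr a))]
      exact fun e => h (π.injective e)

/-- the double of a matrix -/
def dbl (g : Matrix.SpecialLinearGroup I F) : Matrix (I ⊕ I) (I ⊕ I) F :=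
  fromBlocks (g : Matrix I I F) 0 0 ((g⁻¹ : Matrix.SpecialLinearGroup I F) : Matrix I I F)ᵀ

theorem dbl_mul (g h : Matrix.SpecialLinearGroup I F) : dbl (g * h) = dbl g * dbl h := by
  unfold dbl
  rw [fromBlocks_multiply, _root_.mul_inv_rev, Matrix.SpecialLinearGroup.coe_mul, Matrix.SpecialLinearGroup.coe_mul,
    Matrix.transpose_mul]
  simp

theorem dbl_one : dbl (1 : Matrix.SpecialLinearGroup I F) = 1 := by
  unfold dbl
  rw [inv_one, Matrix.SpecialLinearGroup.coe_one, Matrix.transpose_one, fromBlocks_one]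

/-- `SL` in the model -/
def phm (I F : Type*) [Fintype I] [DecidableEq I] [Field F] : Matrix.SpecialLinearGroup I F →* GL (I ⊕ I) F where
  toFun g := ⟨dbl g, dbl g⁻¹, by rw [← dbl_mul, mul_inv_cancel, dbl_one], by rw [← dbl_mul, inv_mul_cancel, dbl_one]⟩
  map_one' := Units.ext dbl_one
  map_mul' g h := Units.ext (dbl_mul g h)

theorem coe_phm (g : Matrix.SpecialLinearGroup I F) : (phm I F g : Matrix (I ⊕ I) (I ⊕ I) F) = dbl g := rfl

theorem mon_phm {m : Matrix.SpecialLinearGroup I F} {π : Perm I} {e : I → F} (hm : Mon m π e) (he : Sgn e) :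
    MonG (phm I F m) (Equiv.sumCongr π π) (e ∘ idx) := by
  intro a b
  rw [coe_phm]
  unfold dbl
  rcases a with a | a <;> rcases b with b | b
  · rw [fromBlocks_apply₁₁, hm.1]
    simp
  · rw [fromBlocks_apply₁₂]; simp
  · rw [fromBlocks_apply₂₁]; simp
  · rw [fromBlocks_apply₂₂, transpose_apply, hm.inv.1]
    simp only [Equiv.sumCongr_apply, Sum.map_inr, Function.comp_apply, idx_inr, Sum.inr.injEq]
    by_cases h : a = π b
    · subst h
      have e1 : π⁻¹ (π b) = b := by simp
      rw [e1, if_pos rfl, if_pos rfl]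
      rcases he b with h1 | h1
      · rw [h1, inv_one]
      · rw [h1, inv_neg, inv_one]
    · rw [if_neg h, if_neg]
      rintro rfl
      exact h (by simp)

/-- the model element `s` -/
def sm (F : Type*) [Field F] (p q : I) : GL (I ⊕ I) F := pm F (flp p * flp q)

theorem sm_symm (p q : I) : sm F p q = sm F q p := by
  unfold sm; rw [flp_comm]

theorem sm_self (p : I) : sm F p p = 1 := by
  unfold sm; rw [flp_mul_self, map_one]

theorem sm_mul (p q r : I) : sm F p q * sm F q r = sm F p r := by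
  unfold sm
  rw [← map_mul]
  congr 1
  calc flp p * flp q * (flp q * flp r) = flp p * (flp q * flp q) * flp r := by group
    _ = _ := by rw [flp_mul_self, mul_one]

theorem sm_conj {m : Matrix.SpecialLinearGroup I F} {π : Perm I} {e : I → F} (hm : Mon m π e) (he : Sgn e) (p q : I) :
    MulAut.conj (phm I F m) (sm F p q) = sm F (π p) (π q) := by
  have h := (mon_phm hm he).pm_comm (f := flp p * flp q) (fun b => by
    simp only [Function.comp_apply, Perm.mul_apply, flp_apply, idx_fl])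
  rw [MulAut.conj_apply, mul_inv_eq_iff_eq_mul]
  unfold sm
  rw [h]
  congr 2
  rw [← flp_conj, ← flp_conj]
  group

/-- root elements -/
def ymat (a b : I ⊕ I) (t : F) : Matrix (I ⊕ I) (I ⊕ I) F := 1 + (single b (ng a) t - single a (ng b) t)

theorem dbl_X {i j : I} (hij : i ≠ j) (t : F) : dbl (X i j t) = ymat (.inr j) (.inl i) t := by
  unfold dbl ymat
  rw [X_inv, coe_X hij, coe_X hij, ng_inl, ng_inr]
  ext a b
  rcases a with a | a <;> rcases b with b | b
  · rw [fromBlocks_apply₁₁]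
    simp [Matrix.one_apply, single_apply]
  · rw [fromBlocks_apply₁₂]; simp [single_apply]
  · rw [fromBlocks_apply₂₁]; simp [single_apply]
  · rw [fromBlocks_apply₂₂]
    simp [Matrix.one_apply, single_apply]
    by_cases h1 : a = b
    · subst h1
      simp
      by_cases h2 : i = a <;> by_cases h3 : j = a <;> simp [h2, h3]
    · simp [h1, Ne.symm h1]
      by_cases h2 : i = b <;> by_cases h3 : j = a <;> simp [h2, h3]

end Cfsg.Agent.H110.D
end

-- part: H110/D/Model2
section
/-!
# The matrix model of type `D` satisfies the relations (helper110, for S2295)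
-/

set_option autoImplicit false

namespace Cfsg.Agent.H110.D

open Equiv Matrix

variable {I F : Type*} [Fintype I] [DecidableEq I] [Field F]

theorem pmat_single (f : Perm (I ⊕ I)) (x y : I ⊕ I) (t : F) : pmat F f * single x y t = single (f x) y t := by
  ext a b
  rw [pmat_mul, single_apply, single_apply]
  congr 1
  exact propext ⟨fun h => ⟨by rw [h.1]; simp, h.2⟩, fun h => ⟨by rw [← h.1]; simp, h.2⟩⟩

theorem single_pmat (f : Perm (I ⊕ I)) (x y : I ⊕ I) (t : F) : single x (f y) t * pmat F f = single x y t := by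
  ext a b
  rw [mul_pmat, single_apply, single_apply]
  simp

theorem pmat_ymat {f : Perm (I ⊕ I)} (hf : ∀ a, f (ng a) = ng (f a)) (a b : I ⊕ I) (t : F) :
    pmat F f * ymat a b t = ymat (f a) (f b) t * pmat F f := by
  unfold ymat
  rw [mul_add, mul_sub, add_mul, sub_mul, mul_one, one_mul, pmat_single, pmat_single, ← hf, ← hf, single_pmat,
    single_pmat]

theorem ng_flp (p q : I) (a : I ⊕ I) : (flp p * flp q) (ng a) = ng ((flp p * flp q) a) := by
  rw [Perm.mul_apply, Perm.mul_apply]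
  simp only [flp_apply]
  rw [ng_fl, ng_fl]

/-- conjugation of root elements by sign changes -/
theorem sm_conj_y {x y : GL (I ⊕ I) F} {a b : I ⊕ I} {t : F} (p q : I) (hx : (x : Matrix (I ⊕ I) (I ⊕ I) F) = ymat a b t)
    (hy : (y : Matrix (I ⊕ I) (I ⊕ I) F) = ymat (fl p (fl q a)) (fl p (fl q b)) t) :
    MulAut.conj (sm F p q) x = y := by
  rw [MulAut.conj_apply, mul_inv_eq_iff_eq_mul]
  apply Units.ext
  rw [Units.val_mul, Units.val_mul, hx, hy]
  exact pmat_ymat (ng_flp p q) a b t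

theorem sm_conj_y' {x : GL (I ⊕ I) F} {a b : I ⊕ I} {t : F} (p q : I) (hx : (x : Matrix (I ⊕ I) (I ⊕ I) F) = ymat a b t) :
    ((MulAut.conj (sm F p q) x : GL (I ⊕ I) F) : Matrix (I ⊕ I) (I ⊕ I) F) =
      ymat (fl p (fl q a)) (fl p (fl q b)) t := by
  have h := pmat_ymat (F := F) (ng_flp p q) a b t
  rw [MulAut.conj_apply, Units.val_mul, Units.val_mul, hx]
  change pmat F _ * ymat a b t * _ = _
  rw [h, mul_assoc]
  have : pmat F (flp p * flp q) * ((sm F p q)⁻¹ : GL (I ⊕ I) F) = 1 := by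
    change ((sm F p q : GL (I ⊕ I) F) : Matrix (I ⊕ I) (I ⊕ I) F) * ((sm F p q)⁻¹ : GL (I ⊕ I) F) = 1
    rw [← Units.val_mul, mul_inv_cancel, Units.val_one]
  rw [this, mul_one]
  rfl

theorem inC_inv {o l : I} {g : Matrix.SpecialLinearGroup I F} (hg : InC o l g) : InC o l g⁻¹ := by
  -- rows and columns of the inverse
  have h1 : ∀ p, p = o ∨ p = l → (∀ a, (g : Matrix I I F) a p = (1 : Matrix I I F) a p) ∧
      (∀ a, (g : Matrix I I F) p a = (1 : Matrix I I F) p a) := by
    rintro p (rfl | rfl)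
    · exact ⟨fun a => (hg a).1, fun a => (hg a).2.2.1⟩
    · exact ⟨fun a => (hg a).2.1, fun a => (hg a).2.2.2⟩
  have h2 : ∀ p, p = o ∨ p = l →
      (∀ a, ((g⁻¹ : Matrix.SpecialLinearGroup I F) : Matrix I I F) a p = (1 : Matrix I I F) a p) ∧
      (∀ a, ((g⁻¹ : Matrix.SpecialLinearGroup I F) : Matrix I I F) p a = (1 : Matrix I I F) p a) := by
    intro p hp
    obtain ⟨hc, hr⟩ := h1 p hp
    have e1 : ((g⁻¹ : Matrix.SpecialLinearGroup I F) : Matrix I I F) * (g : Matrix I I F) = 1 := by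
      rw [← Matrix.SpecialLinearGroup.coe_mul, inv_mul_cancel, Matrix.SpecialLinearGroup.coe_one]
    have e2 : (g : Matrix I I F) * ((g⁻¹ : Matrix.SpecialLinearGroup I F) : Matrix I I F) = 1 := by
      rw [← Matrix.SpecialLinearGroup.coe_mul, mul_inv_cancel, Matrix.SpecialLinearGroup.coe_one]
    constructor
    · intro a
      have := congrFun (congrFun e1 a) p
      rw [mul_apply] at this
      rw [← this, Finset.sum_congr rfl fun k _ => by rw [hc k]]
      simp [one_apply]
    · intro a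
      have := congrFun (congrFun e2 p) a
      rw [mul_apply] at this
      rw [← this, Finset.sum_congr rfl fun k _ => by rw [hr k]]
      simp [one_apply]
  intro a
  exact ⟨(h2 o (Or.inl rfl)).1 a, (h2 l (Or.inr rfl)).1 a, (h2 o (Or.inl rfl)).2 a, (h2 l (Or.inr rfl)).2 a⟩

theorem dbl_inC {o l : I} {g : Matrix.SpecialLinearGroup I F} (hg : InC o l g) {a b : I ⊕ I}
    (h : (idx a = o ∨ idx a = l) ∨ (idx b = o ∨ idx b = l)) : dbl g a b = (1 : Matrix (I ⊕ I) (I ⊕ I) F) a b := by
  have hg' := inC_inv hg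
  have key : ∀ {k : Matrix.SpecialLinearGroup I F}, InC o l k → ∀ a b : I,
      ((a = o ∨ a = l) ∨ (b = o ∨ b = l)) → (k : Matrix I I F) a b = (1 : Matrix I I F) a b := by
    rintro k hk a b ((rfl | rfl) | (rfl | rfl))
    · exact (hk b).2.2.1
    · exact (hk b).2.2.2
    · exact (hk a).1
    · exact (hk a).2.1
  unfold dbl
  rcases a with a | a <;> rcases b with b | b <;> simp only [idx_inl, idx_inr] at h
  · rw [fromBlocks_apply₁₁, key hg a b h]
    simp [one_apply]
  · simp
  · simp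
  · rw [fromBlocks_apply₂₂, transpose_apply, key hg' b a (Or.symm h)]
    simp [one_apply, eq_comm]

theorem sm_comm {o l : I} {g : Matrix.SpecialLinearGroup I F} (hg : InC o l g) :
    Commute (sm F o l) (phm I F g) := by
  apply Units.ext
  ext a b
  rw [Units.val_mul, Units.val_mul, coe_phm]
  change (pmat F (flp o * flp l) * dbl g) a b = (dbl g * pmat F (flp o * flp l)) a b
  rw [pmat_mul, mul_pmat, _root_.mul_inv_rev, flp_inv, flp_inv, ← flp_comm]
  simp only [Perm.mul_apply, flp_apply]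
  have e0 : ∀ x : I ⊕ I, idx (fl o (fl l x)) = idx x := by intro x; simp
  have e1 : ∀ x : I ⊕ I, ¬ (idx x = o ∨ idx x = l) → fl o (fl l x) = x := by
    intro x hx
    push Not at hx
    rw [fl_of_ne hx.2, fl_of_ne hx.1]
  by_cases h : (idx a = o ∨ idx a = l) ∨ (idx b = o ∨ idx b = l)
  · rw [dbl_inC hg (by rwa [e0]), dbl_inC hg (by rwa [e0]), one_apply, one_apply]
    congr 1
    apply propext
    constructor
    · intro h1
      rw [← h1]
      rw [fl_comm o l, fl_fl, fl_comm, fl_fl]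
    · rintro rfl
      rw [fl_comm o l, fl_fl, fl_comm, fl_fl]
  · rw [not_or] at h
    rw [e1 a h.1, e1 b h.2]

/-- the model -/
def pmod (F : Type*) [Field F] (o l c : I) : Pre I F (GL (I ⊕ I) F) where
  φ := phm I F
  s := sm F o l
  o := o
  l := l
  c := c

theorem coe_phm_X {i j : I} (hij : i ≠ j) (t : F) :
    ((phm I F (X i j t) : GL (I ⊕ I) F) : Matrix (I ⊕ I) (I ⊕ I) F) = ymat (.inr j) (.inl i) t := dbl_X hij t

theorem pmod_s1 {o l c : I} (hol : o ≠ l) (hoc : o ≠ c) (hlc : l ≠ c) (hI : 4 ≤ Fintype.card I) :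
    (pmod F o l c).S1 where
  hol := hol
  hoc := hoc
  hlc := hlc
  hI := hI
  sq := by
    change sm F o l * sm F o l = 1
    conv_lhs => rw [sm_symm o l]
    rw [sm_symm l o]
    conv_lhs => arg 2; rw [sm_symm o l]
    rw [sm_mul, sm_self]
  sC g hg := sm_comm hg
  sB t := by
    refine sm_conj_y (a := .inr l) (b := .inl o) (t := t) o l (coe_phm_X hol t) ?_
    change ((phm I F (X l o (-t)) : GL (I ⊕ I) F) : Matrix (I ⊕ I) (I ⊕ I) F) = _
    rw [coe_phm_X hol.symm]
    change ymat _ _ _ = _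
    rw [fl_self (p := l) (a := (.inr l : I ⊕ I)) rfl, fl_of_ne (p := l) (a := (.inl o : I ⊕ I)) hol,
      fl_self (p := o) (a := (.inl o : I ⊕ I)) rfl, fl_of_ne (p := o) (a := ng (.inr l : I ⊕ I)) hol.symm]
    unfold ymat
    simp only [ng_inl, ng_inr]
    congr 1
    rw [← Matrix.single_neg, ← Matrix.single_neg]
    abel
  s3 := by
    change sm F o l * MulAut.conj (phm I F (zz F o l c)) (sm F o l) *
      MulAut.conj (phm I F (zz F o l c * zz F o l c)) (sm F o l) = 1
    have hz := mon_zz (F := F) hol hoc hlc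
    rw [sm_conj hz (fun _ => Or.inl rfl), sm_conj (hz.mul hz) (fun _ => Or.inl (one_mul _)),
      Perm.mul_apply, Perm.mul_apply, tau_o hol hoc, tau_l hoc hlc, sm_mul, tau_c, sm_mul, sm_self]

end Cfsg.Agent.H110.D
end

-- part: H110/D/Model3
section
/-!
# Root elements of the matrix model of type `D` (helper110, for S2295)
-/

set_option autoImplicit false

namespace Cfsg.Agent.H110.D

open Equiv Matrix

variable {I F : Type*} [Fintype I] [DecidableEq I] [Field F]

theorem ssg {K : Type*} [Fintype K] [DecidableEq K] {i j k l : K} (h : j ≠ k) (a b : F) :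
    single i j a * single k l b = (0 : Matrix K K F) :=
  single_mul_single_of_ne (h := h) ..

/-- orthogonal root elements with disjoint indices commute -/
theorem ymat_comm3 {a b c' d : I ⊕ I} (h1 : idx a ≠ idx c') (h2 : idx a ≠ idx d) (h3 : idx b ≠ idx c')
    (h4 : idx b ≠ idx d) (t u : F) : ymat a b t * ymat c' d u = ymat c' d u * ymat a b t := by
  have n : ∀ {x y : I ⊕ I}, idx x ≠ idx y → ng x ≠ y := by
    rintro x y h rfl
    exact h (by rw [idx_ng])
  unfold ymat
  simp only [mul_add, add_mul, mul_sub, sub_mul, one_mul, mul_one, ssg (n h1), ssg (n h2), ssg (n h3), ssg (n h4),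
    ssg (n h1.symm), ssg (n h2.symm), ssg (n h3.symm), ssg (n h4.symm)]
  abel

theorem ymat_comm4 {a b : I ⊕ I} (h : idx a ≠ idx b) (t u : F) :
    ymat a b t * ymat a (ng b) u = ymat a (ng b) u * ymat a b t := by
  have n : ∀ {x y : I ⊕ I}, idx x ≠ idx y → x ≠ y := by
    rintro x y h rfl
    exact h rfl
  unfold ymat
  simp only [mul_add, add_mul, mul_sub, sub_mul, one_mul, mul_one, ng_ng]
  have e1 : single b (ng a) t * single (ng b) (ng a) u = (0 : Matrix (I ⊕ I) (I ⊕ I) F) :=
    ssg (n (by simpa using h)) _ _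
  have e2 : single b (ng a) t * single a b u = (0 : Matrix (I ⊕ I) (I ⊕ I) F) := ssg (ng_ne a) _ _
  have e3 : single a (ng b) t * single (ng b) (ng a) u = (single a (ng a) (t * u) : Matrix (I ⊕ I) (I ⊕ I) F) :=
    single_mul_single_same ..
  have e4 : single a (ng b) t * single a b u = (0 : Matrix (I ⊕ I) (I ⊕ I) F) :=
    ssg (n (by simpa using h.symm)) _ _
  have e5 : single (ng b) (ng a) u * single b (ng a) t = (0 : Matrix (I ⊕ I) (I ⊕ I) F) :=
    ssg (n (by simpa using h)) _ _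
  have e6 : single a b u * single b (ng a) t = (single a (ng a) (u * t) : Matrix (I ⊕ I) (I ⊕ I) F) :=
    single_mul_single_same ..
  have e7 : single (ng b) (ng a) u * single a (ng b) t = (0 : Matrix (I ⊕ I) (I ⊕ I) F) := ssg (ng_ne a) _ _
  have e8 : single a b u * single a (ng b) t = (0 : Matrix (I ⊕ I) (I ⊕ I) F) := ssg (n h.symm) _ _
  rw [e1, e2, e3, e4, e5, e6, e7, e8, mul_comm u t]
  abel

section

variable {o l c : I} (A : (pmod F o l c).S1)
include A

theorem pmod_σ (p q : I) : (pmod F o l c).σ p q = sm F p q := by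
  by_cases h : p = q
  · subst h
    rw [Pre.S1.σ_self, sm_self]
  · obtain ⟨m, π, e, hm, he, h1, h2, h3⟩ := Sys1.ss_spec A h
    change ss _ _ _ _ p q = _
    rw [h3]
    change MulAut.conj (phm I F m) (sm F o l) = _
    rw [sm_conj hm he]
    change π o = p at h1
    change π l = q at h2
    rw [h1, h2]

theorem pmod_Y {a b : I ⊕ I} (hab : idx a ≠ idx b) (t : F) :
    (((pmod F o l c).Y a b t : GL (I ⊕ I) F) : Matrix (I ⊕ I) (I ⊕ I) F) = ymat a b t := by
  obtain ⟨d, d1, d2, -⟩ := exists_out A.hI (idx a) (idx b) (idx b)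
  rcases a with j | j <;> rcases b with i | i <;> simp only [idx_inl, idx_inr] at hab d1 d2
  · rw [A.Y_ll d2 d1, pmod_σ A]
    change ((MulAut.conj (sm F d j) (phm I F (X i j t)) : GL (I ⊕ I) F) : Matrix (I ⊕ I) (I ⊕ I) F) = _
    rw [sm_conj_y' d j (coe_phm_X hab.symm t), fl_self (p := j) (a := (.inr j : I ⊕ I)) rfl,
      fl_of_ne (p := j) (a := (.inl i : I ⊕ I)) hab.symm, fl_of_ne (p := d) (a := (.inl i : I ⊕ I)) d2.symm,
      fl_of_ne (p := d) (a := ng (.inr j : I ⊕ I)) d1.symm]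
    rfl
  · rw [Pre.Y_lr]
    change ((phm I F (X j i (-t)) : GL (I ⊕ I) F) : Matrix (I ⊕ I) (I ⊕ I) F) = _
    rw [coe_phm_X hab]
    unfold ymat
    simp only [ng_inl, ng_inr]
    congr 1
    rw [← Matrix.single_neg, ← Matrix.single_neg]
    abel
  · rw [Pre.Y_rl]
    exact coe_phm_X hab.symm t
  · rw [A.Y_rr d2 d1, pmod_σ A]
    change ((MulAut.conj (sm F d i) (phm I F (X i j t)) : GL (I ⊕ I) F) : Matrix (I ⊕ I) (I ⊕ I) F) = _
    rw [sm_conj_y' d i (coe_phm_X hab.symm t), fl_of_ne (p := i) (a := (.inr j : I ⊕ I)) hab,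
      fl_of_ne (p := d) (a := (.inr j : I ⊕ I)) d1.symm, fl_self (p := i) (a := (.inl i : I ⊕ I)) rfl,
      fl_of_ne (p := d) (a := ng (.inl i : I ⊕ I)) d2.symm]
    rfl

end

theorem pmod_s2 {o l c : I} (hol : o ≠ l) (hoc : o ≠ c) (hlc : l ≠ c) (hI : 4 ≤ Fintype.card I)
    (hsq : (2 : F) = 0 → ∀ x : F, ∃ y, y * y = x) : (pmod F o l c).S2 where
  s1 := pmod_s1 hol hoc hlc hI
  sqr := hsq
  II := by
    intro _
    have A := pmod_s1 (F := F) hol hoc hlc hI
    apply Units.ext
    rw [Units.val_mul, Units.val_mul]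
    have e1 := pmod_Y A (a := .inl o) (b := .inl l) hol 1
    have e2 := pmod_Y A (a := .inl o) (b := .inr l) hol 1
    change (((pmod F o l c).Y (.inl o) (.inl l) 1 : GL (I ⊕ I) F) : Matrix (I ⊕ I) (I ⊕ I) F) *
      (((pmod F o l c).Y (.inl o) (.inr l) 1 : GL (I ⊕ I) F) : Matrix (I ⊕ I) (I ⊕ I) F) =
      (((pmod F o l c).Y (.inl o) (.inr l) 1 : GL (I ⊕ I) F) : Matrix (I ⊕ I) (I ⊕ I) F) *
      (((pmod F o l c).Y (.inl o) (.inl l) 1 : GL (I ⊕ I) F) : Matrix (I ⊕ I) (I ⊕ I) F)
    rw [e1, e2]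
    exact ymat_comm4 (a := .inl o) (b := .inl l) hol 1 1
  III := by
    intro _ _
    have A := pmod_s1 (F := F) hol hoc hlc hI
    obtain ⟨d, d1, d2, d3⟩ := exists_out hI o l c
    refine ⟨d, d1, d2, d3, ?_⟩
    apply Units.ext
    rw [Units.val_mul, Units.val_mul]
    have e1 := pmod_Y A (a := .inl o) (b := .inr l) hol 1
    have e2 := pmod_Y A (a := .inl c) (b := .inl d) d3.symm 1
    change (((pmod F o l c).Y (.inl o) (.inr l) 1 : GL (I ⊕ I) F) : Matrix (I ⊕ I) (I ⊕ I) F) *
      (((pmod F o l c).Y (.inl c) (.inl d) 1 : GL (I ⊕ I) F) : Matrix (I ⊕ I) (I ⊕ I) F) =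
      (((pmod F o l c).Y (.inl c) (.inl d) 1 : GL (I ⊕ I) F) : Matrix (I ⊕ I) (I ⊕ I) F) *
      (((pmod F o l c).Y (.inl o) (.inr l) 1 : GL (I ⊕ I) F) : Matrix (I ⊕ I) (I ⊕ I) F)
    rw [e1, e2]
    exact ymat_comm3 (a := .inl o) (b := .inr l) (c' := .inl c) (d := .inl d) hoc d1.symm hlc d2.symm 1 1

end Cfsg.Agent.H110.D
end

-- part: H110/D/Map
section
/-!
# Naturality (helper110, for S2295)
-/

set_option autoImplicit false

namespace Cfsg.Agent.H110.D

open Equiv Matrix

variable {I F : Type*} [Fintype I] [DecidableEq I] [Field F] {J J' : Type*} [Group J] [Group J']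

theorem map_conj (θ : J →* J') (x y : J) : θ (MulAut.conj x y) = MulAut.conj (θ x) (θ y) := by
  simp only [MulAut.conj_apply, map_mul, map_inv]

theorem map_ss (θ : J →* J') (φ : Matrix.SpecialLinearGroup I F →* J) (s : J) (o l p q : I) :
    ss (θ.comp φ) (θ s) o l p q = θ (ss φ s o l p q) := by
  unfold ss
  split_ifs
  · rw [map_conj]; rfl
  · rw [map_one]

/-- the image of the data under a homomorphism -/
def Pre.map (P : Pre I F J) (θ : J →* J') : Pre I F J' where
  φ := θ.comp P.φ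
  s := θ P.s
  o := P.o
  l := P.l
  c := P.c

variable {P : Pre I F J}

namespace Pre

theorem map_σ (θ : J →* J') (p q : I) : (P.map θ).σ p q = θ (P.σ p q) := map_ss θ _ _ _ _ _ _

theorem map_Y (θ : J →* J') (a b : I ⊕ I) (t : F) : (P.map θ).Y a b t = θ (P.Y a b t) := by
  rcases a with j | j <;> rcases b with i | i
  · change MulAut.conj ((P.map θ).σ (th i j) j) (θ (P.φ (X i j t))) = θ (MulAut.conj (P.σ (th i j) j) (P.φ (X i j t)))
    rw [map_conj, map_σ]
  · rfl
  · rfl
  · change MulAut.conj ((P.map θ).σ (th i j) i) (θ (P.φ (X i j t))) = θ (MulAut.conj (P.σ (th i j) i) (P.φ (X i j t)))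
    rw [map_conj, map_σ]

end Pre

/-- the matrix of a monomial matrix -/
theorem mon_phm' {m : Matrix.SpecialLinearGroup I F} {π : Perm I} {e : I → F} (hm : Mon m π e) :
    MonG (phm I F m) (Equiv.sumCongr π π) (Sum.elim e fun i => (e i)⁻¹) := by
  intro a b
  rw [coe_phm]
  unfold dbl
  rcases a with a | a <;> rcases b with b | b
  · rw [fromBlocks_apply₁₁, hm.1]
    simp
  · rw [fromBlocks_apply₁₂]; simp
  · rw [fromBlocks_apply₂₁]; simp
  · rw [fromBlocks_apply₂₂, transpose_apply, hm.inv.1]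
    simp only [Equiv.sumCongr_apply, Sum.map_inr, Sum.elim_inr, Sum.inr.injEq]
    by_cases h : a = π b
    · subst h
      have e1 : π⁻¹ (π b) = b := by simp
      rw [e1, if_pos rfl, if_pos rfl]
    · rw [if_neg h, if_neg]
      rintro rfl
      exact h (by simp)

/-- the image of the torus element -/
theorem map_HH (A : P.S1) (θ : J →* GL (I ⊕ I) F) (hφ : θ.comp P.φ = phm I F) (hσ : ∀ p q, θ (P.σ p q) = sm F p q)
    {v : F} (hv : v ≠ 0) (i : I) :
    ((θ (P.HH (.inl P.o) (.inl P.l) v) : GL (I ⊕ I) F) : Matrix (I ⊕ I) (I ⊕ I) F) (.inl i) (.inl i) =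
      if i = P.o ∨ i = P.l then v else 1 := by
  have hol : P.o ≠ P.l := A.hol
  obtain ⟨d, d1, d2, -⟩ := exists_out A.hI P.o P.l P.l
  have h1 := A.fl_HH (a := .inr P.o) (b := .inl P.l) hol d P.o v
  rw [fl_self (p := P.o) (a := (.inr P.o : I ⊕ I)) rfl,
    fl_of_ne (p := P.o) (a := (.inl P.l : I ⊕ I)) hol.symm, fl_of_ne (p := d) (a := (.inl P.l : I ⊕ I)) d2.symm,
    fl_of_ne (p := d) (a := ng (.inr P.o : I ⊕ I)) d1.symm, ng_inr] at h1
  have hb : P.HH (.inr P.o) (.inl P.l) v = P.φ (Hd P.l P.o v) := by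
    unfold Pre.HH Pre.WW Hd Wu
    simp only [ng_inl, ng_inr, Pre.Y_rl, Pre.Y_lr, map_mul]
  rw [← h1, hb, map_conj, hσ]
  have h2 : θ (P.φ (Hd P.l P.o v)) = phm I F (Hd P.l P.o v) := DFunLike.congr_fun hφ _
  rw [h2]
  have hm := mon_phm' (mon_Hd (F := F) hol.symm hv)
  have h3 : MulAut.conj (sm F d P.o) (phm I F (Hd P.l P.o v)) * sm F d P.o =
      sm F d P.o * phm I F (Hd P.l P.o v) := by
    rw [MulAut.conj_apply, inv_mul_cancel_right]
  set M := MulAut.conj (sm F d P.o) (phm I F (Hd P.l P.o v)) with hM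
  have h4 : (M : Matrix (I ⊕ I) (I ⊕ I) F) (.inl i) ((flp d * flp P.o) ((flp d * flp P.o) (.inl i))) =
      (phm I F (Hd P.l P.o v) : Matrix (I ⊕ I) (I ⊕ I) F) ((flp d * flp P.o)⁻¹ (.inl i))
        ((flp d * flp P.o) (.inl i)) := by
    have h5 := congrArg (fun N : GL (I ⊕ I) F => (N : Matrix (I ⊕ I) (I ⊕ I) F) (.inl i) ((flp d * flp P.o) (.inl i))) h3
    simp only [Units.val_mul] at h5
    change ((M : Matrix (I ⊕ I) (I ⊕ I) F) * pmat F (flp d * flp P.o)) _ _ =
      (pmat F (flp d * flp P.o) * (phm I F (Hd P.l P.o v) : Matrix (I ⊕ I) (I ⊕ I) F)) _ _ at h5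
    rwa [mul_pmat, pmat_mul] at h5
  have h6 : (flp d * flp P.o) ((flp d * flp P.o) (.inl i)) = (.inl i : I ⊕ I) := by
    simp only [Perm.mul_apply, flp_apply]
    rw [fl_comm d P.o, fl_fl, fl_comm, fl_fl]
  have h7 : (flp d * flp P.o)⁻¹ = (flp d * flp P.o : Perm (I ⊕ I)) := by
    rw [_root_.mul_inv_rev, flp_inv, flp_inv, flp_comm]
  rw [h6, h7, hm] at h4
  rw [h4]
  have e1 : (Equiv.sumCongr (1 : Perm I) (1 : Perm I)) = (1 : Perm (I ⊕ I)) := by
    ext x; rcases x with x | x <;> rfl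
  rw [e1, Perm.one_apply, if_pos rfl]
  simp only [Perm.mul_apply, flp_apply]
  by_cases hio : i = P.o
  · subst hio
    rw [fl_self (p := P.o) (a := (.inl P.o : I ⊕ I)) rfl, fl_of_ne (p := d) (a := ng (.inl P.o : I ⊕ I)) d1.symm,
      ng_inl, Sum.elim_inr, if_neg hol, if_pos rfl, if_pos (Or.inl rfl), inv_inv]
  · rw [fl_of_ne (p := P.o) (a := (.inl i : I ⊕ I)) hio]
    by_cases hil : i = P.l
    · subst hil
      rw [fl_of_ne (p := d) (a := (.inl P.l : I ⊕ I)) d2.symm, Sum.elim_inl, if_pos rfl, if_pos (Or.inr rfl)]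
    · rw [if_neg (by rintro (h | h); exacts [hio h, hil h])]
      by_cases hid : i = d
      · subst hid
        rw [fl_self (p := i) (a := (.inl i : I ⊕ I)) rfl, ng_inl, Sum.elim_inr, if_neg hil, if_neg hio, inv_one]
      · rw [fl_of_ne (p := d) (a := (.inl i : I ⊕ I)) hid, Sum.elim_inl, if_neg hil, if_neg hio]

/-- torus elements are determined by their image -/
theorem tor_inj (A : P.S2) (θ : J →* GL (I ⊕ I) F) (hφ : θ.comp P.φ = phm I F) (hσ : ∀ p q, θ (P.σ p q) = sm F p q)
    {h : J} (hh : h ∈ P.H) (h1 : ∀ i, ((θ h : GL (I ⊕ I) F) : Matrix (I ⊕ I) (I ⊕ I) F) (.inl i) (.inl i) = 1) :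
    h = 1 := by
  have hol : P.o ≠ P.l := A.s1.hol
  obtain ⟨g, hg, v, hv, rfl⟩ := A.s1.exists_form hh
  obtain ⟨c, hc⟩ := mon_of_mem hg
  have hm := mon_phm' hc
  have e1 : (Equiv.sumCongr (1 : Perm I) (1 : Perm I)) = (1 : Perm (I ⊕ I)) := by
    ext x; rcases x with x | x <;> rfl
  have e2 : θ (P.φ g) = phm I F g := DFunLike.congr_fun hφ _
  have h2 : ∀ i, c i * (if i = P.o ∨ i = P.l then v else 1) = 1 := by
    intro i
    have := h1 i
    rw [map_mul, Units.val_mul, mul_apply, Finset.sum_eq_single (.inl i), e2, hm, e1, Perm.one_apply, if_pos rfl,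
      map_HH A.s1 θ hφ hσ hv, Sum.elim_inl] at this
    · exact this
    · intro k _ hk
      rw [e2, hm, e1, Perm.one_apply, if_neg (Ne.symm hk), zero_mul]
    · intro h; exact absurd (Finset.mem_univ _) h
  have h3 : ∀ i, i ≠ P.o → i ≠ P.l → c i = 1 := by
    intro i i1 i2
    have := h2 i
    rwa [if_neg (by rintro (h | h); exacts [i1 h, i2 h]), mul_one] at this
  have h4 : c P.o = v⁻¹ := by
    have := h2 P.o
    rw [if_pos (Or.inl rfl)] at this
    exact eq_inv_of_mul_eq_one_left this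
  have h5 : c P.l = v⁻¹ := by
    have := h2 P.l
    rw [if_pos (Or.inr rfl)] at this
    exact eq_inv_of_mul_eq_one_left this
  have hdiag : (g : Matrix I I F) = diagonal c := by
    ext a b
    rw [hc.1, diagonal_apply, Perm.one_apply]
    by_cases hab : a = b
    · rw [if_pos hab, if_pos hab, hab]
    · rw [if_neg hab, if_neg hab]
  have hdet := g.2
  rw [hdiag, det_diagonal, Finset.prod_eq_mul P.o P.l hol (fun i _ hi => h3 i hi.1 hi.2)
    (fun h => absurd (Finset.mem_univ _) h) (fun h => absurd (Finset.mem_univ _) h), h4, h5] at hdet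
  have hv2 : v = 1 ∨ v = -1 := by
    have : v * v = 1 := by
      field_simp at hdet
      rw [← sq, ← hdet]
    exact mul_self_eq_one_iff.1 this
  rcases hv2 with rfl | rfl
  · have hg1 : g = 1 := hc.ext_eq (Mon.one.congr rfl fun a => by
      by_cases ha : a = P.o
      · rw [ha, h4, inv_one]
      · by_cases ha' : a = P.l
        · rw [ha', h5, inv_one]
        · exact (h3 a ha ha').symm)
    rw [hg1, map_one, one_mul, A.s1.HH_one (by simpa using hol)]
  · have hg1 : g = Hd P.l P.o (-1) := hc.ext_eq ((mon_Hd hol.symm (neg_ne_zero.2 one_ne_zero)).congr rfl fun a => by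
      by_cases ha : a = P.l
      · rw [if_pos ha, ha, h5, inv_neg, inv_one]
      · rw [if_neg ha]
        by_cases ha' : a = P.o
        · rw [if_pos ha', ha', h4]
        · rw [if_neg ha']
          exact (h3 a ha' ha).symm)
    rw [hg1]
    exact A.HH_neg_one hol.symm

end Cfsg.Agent.H110.D
end
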