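import Cfsg.Agent.H110.D.Comm
set_option linter.all false

-- part: H110/D/Tor
section
/-!
# The abstract group of type `D`: Weyl elements and torus (helper110, for S2295)
-/

set_option autoImplicit false

namespace Cfsg.Agent.H110.D

open Equiv Matrix

section rho

variable {I : Type*} [DecidableEq I]

/-- the reflection of the root `a + b` on signed indices -/
def rho (a b x : I ⊕ I) : I ⊕ I :=
  if idx x = idx a then (if x = a then ng b else b) else
    if idx x = idx b then (if x = b then ng a else a) else x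

theorem eq_or_ng {x y : I ⊕ I} (h : idx x = idx y) : x = y ∨ x = ng y := by
  rcases x with x | x <;> rcases y with y | y <;> simp only [idx_inl, idx_inr] at h <;> subst h <;> simp

theorem ng_ne (x : I ⊕ I) : ng x ≠ x := by rcases x with x | x <;> simp

theorem rho_left (a b : I ⊕ I) : rho a b a = ng b := by simp [rho]
theorem rho_left' (a b : I ⊕ I) : rho a b (ng a) = b := by simp [rho, ng_ne]
theorem rho_right {a b : I ⊕ I} (hab : idx a ≠ idx b) : rho a b b = ng a := by simp [rho, hab.symm]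
theorem rho_right' {a b : I ⊕ I} (hab : idx a ≠ idx b) : rho a b (ng b) = a := by simp [rho, hab.symm, ng_ne]
theorem rho_other {a b x : I ⊕ I} (h1 : idx x ≠ idx a) (h2 : idx x ≠ idx b) : rho a b x = x := by
  simp [rho, h1, h2]

/-- case analysis -/
theorem rho_cases {a b : I ⊕ I} (Q : I ⊕ I → Prop) (h1 : Q a) (h2 : Q (ng a)) (h3 : Q b) (h4 : Q (ng b))
    (h5 : ∀ x, idx x ≠ idx a → idx x ≠ idx b → Q x) (x : I ⊕ I) : Q x := by
  by_cases ha : idx x = idx a
  · rcases eq_or_ng ha with rfl | rfl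
    · exact h1
    · exact h2
  · by_cases hb : idx x = idx b
    · rcases eq_or_ng hb with rfl | rfl
      · exact h3
      · exact h4
    · exact h5 x ha hb

theorem idx_rho {a b : I ⊕ I} (hab : idx a ≠ idx b) (x : I ⊕ I) : idx (rho a b x) = swap (idx a) (idx b) (idx x) := by
  refine rho_cases (a := a) (b := b) (fun x => idx (rho a b x) = swap (idx a) (idx b) (idx x)) ?_ ?_ ?_ ?_ ?_ x
  · rw [rho_left, idx_ng, swap_apply_left]
  · rw [rho_left', idx_ng, swap_apply_left]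
  · rw [rho_right hab, idx_ng, swap_apply_right]
  · rw [rho_right' hab, idx_ng, swap_apply_right]
  · intro x h1 h2
    rw [rho_other h1 h2, swap_apply_of_ne_of_ne h1 h2]

theorem rho_ng {a b : I ⊕ I} (hab : idx a ≠ idx b) (x : I ⊕ I) : rho a b (ng x) = ng (rho a b x) := by
  refine rho_cases (a := a) (b := b) (fun x => rho a b (ng x) = ng (rho a b x)) ?_ ?_ ?_ ?_ ?_ x
  · rw [rho_left, rho_left', ng_ng]
  · rw [ng_ng, rho_left, rho_left']
  · rw [rho_right hab, rho_right' hab, ng_ng]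
  · rw [ng_ng, rho_right hab, rho_right' hab]
  · intro x h1 h2
    rw [rho_other h1 h2, rho_other (by simpa using h1) (by simpa using h2)]

theorem rho_rho {a b : I ⊕ I} (hab : idx a ≠ idx b) (x : I ⊕ I) : rho a b (rho a b x) = x := by
  refine rho_cases (a := a) (b := b) (fun x => rho a b (rho a b x) = x) ?_ ?_ ?_ ?_ ?_ x
  · rw [rho_left, rho_right' hab]
  · rw [rho_left', rho_right hab]
  · rw [rho_right hab, rho_left']
  · rw [rho_right' hab, rho_left]
  · intro x h1 h2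
    rw [rho_other h1 h2, rho_other h1 h2]

theorem rho_fl {a b : I ⊕ I} (hab : idx a ≠ idx b) (p : I) (x : I ⊕ I) :
    rho (fl p a) (fl p b) (fl p x) = fl p (rho a b x) := by
  have hab' : idx (fl p a) ≠ idx (fl p b) := by simpa using hab
  refine rho_cases (a := a) (b := b) (fun x => rho (fl p a) (fl p b) (fl p x) = fl p (rho a b x)) ?_ ?_ ?_ ?_ ?_ x
  · rw [rho_left, rho_left, ng_fl]
  · rw [rho_left', ← ng_fl, rho_left']
  · rw [rho_right hab, rho_right hab', ng_fl]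
  · rw [rho_right' hab, ← ng_fl, rho_right' hab']
  · intro x h1 h2
    rw [rho_other h1 h2, rho_other (by simpa using h1) (by simpa using h2)]

theorem rho_map {i j : I} (hij : i ≠ j) (x : I ⊕ I) :
    rho (.inr i) (.inl j) x = Sum.map (swap j i) (swap j i) x := by
  refine rho_cases (a := .inr i) (b := .inl j)
    (fun x => rho (.inr i) (.inl j) x = Sum.map (swap j i) (swap j i) x) ?_ ?_ ?_ ?_ ?_ x
  · rw [rho_left]; simp
  · rw [rho_left']; simp
  · rw [rho_right (by simpa using hij)]; simp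
  · rw [rho_right' (by simpa using hij)]; simp
  · intro x h1 h2
    rw [rho_other h1 h2]
    rcases x with x | x <;> simp only [idx_inl, idx_inr] at h1 h2 <;>
      simp [swap_apply_of_ne_of_ne h2 h1]

end rho

variable {I F : Type*} [Fintype I] [DecidableEq I] [Field F] {J : Type*} [Group J] {P : Pre I F J}

namespace Pre.S1

variable (A : P.S1)
include A

theorem WW_inv {a b : I ⊕ I} (u : F) : (P.WW a b u)⁻¹ = P.WW a b (-u) := by
  unfold WW
  rw [_root_.mul_inv_rev, _root_.mul_inv_rev, A.Y_inv, A.Y_inv, inv_neg, ← mul_assoc]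

theorem WW_base (i j : I) (u : F) : P.WW (.inr j) (.inl i) u = P.φ (Wu i j u) := by
  unfold WW Wu
  simp only [ng_inl, ng_inr, Y_rl, Y_lr, map_mul]

/-- conjugation by Weyl elements -/
theorem WW_conj {a b : I ⊕ I} (hab : idx a ≠ idx b) : ∀ c d : I ⊕ I, idx c ≠ idx d →
    ∃ κ : F, (κ = 1 ∨ κ = -1) ∧
      (∀ t, MulAut.conj (P.WW a b 1) (P.Y c d t) = P.Y (rho a b c) (rho a b d) (κ * t)) ∧
      ∀ t, MulAut.conj (P.WW a b 1) (P.Y (ng c) (ng d) t) = P.Y (ng (rho a b c)) (ng (rho a b d)) (κ * t) := by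
  refine A.flips (Q := fun a b => ∀ c d : I ⊕ I, idx c ≠ idx d →
    ∃ κ : F, (κ = 1 ∨ κ = -1) ∧
      (∀ t, MulAut.conj (P.WW a b 1) (P.Y c d t) = P.Y (rho a b c) (rho a b d) (κ * t)) ∧
      ∀ t, MulAut.conj (P.WW a b 1) (P.Y (ng c) (ng d) t) = P.Y (ng (rho a b c)) (ng (rho a b d)) (κ * t)) hab ?_
    (a₀ := .inr (idx a)) (b₀ := .inl (idx b)) rfl rfl ?_ rfl rfl
  · intro a' b' p q ha hb h c d hcd
    have hab' : idx a' ≠ idx b' := by rw [ha, hb]; exact hab
    have e : ∀ a : I ⊕ I, fl p (fl q (fl p (fl q a))) = a := by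
      intro a
      rw [fl_comm q p, fl_fl, fl_fl]
    obtain ⟨κ, k1, k2, k3⟩ := h (fl p (fl q c)) (fl p (fl q d)) (by simpa using hcd)
    have hr : ∀ x, rho (fl p (fl q a')) (fl p (fl q b')) x = fl p (fl q (rho a' b' (fl p (fl q x)))) := by
      intro x
      rw [← rho_fl hab', ← rho_fl (by simpa using hab'), e]
    have h1 : idx (rho a' b' (fl p (fl q c))) ≠ idx (rho a' b' (fl p (fl q d))) := by
      rw [idx_rho hab', idx_rho hab']
      intro e
      exact hcd (by simpa using (swap _ _).injective e)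
    refine ⟨κ, k1, fun t => ?_, fun t => ?_⟩
    · have h2 := congrArg (MulAut.conj (P.σ p q)) (k2 t)
      rw [← conj_conj, A.fl_WW hab', A.fl_conj (by simpa using hcd), A.fl_conj h1, e, e, ← hr, ← hr] at h2
      exact h2
    · have h2 := congrArg (MulAut.conj (P.σ p q)) (k3 t)
      rw [← conj_conj, A.fl_WW hab', A.fl_conj (by simpa using hcd), A.fl_conj (by simpa using h1)] at h2
      rw [hr, hr]
      simp only [ng_fl] at h2 ⊢
      rw [e, e] at h2
      exact h2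
  · intro c d hcd
    rw [A.WW_base]
    have hij : idx b ≠ idx a := hab.symm
    have hm := mon_Wu (F := F) hij one_ne_zero
    have he := sgn_Wu (F := F) (idx b) (idx a)
    rw [rho_map hab, rho_map hab]
    refine ⟨_, ?_, fun t => A.mon_conj hm he hcd t, fun t => ?_⟩
    · rcases he (idx c) with h1 | h1 <;> rcases he (idx d) with h2 | h2 <;>
        · simp only at h1 h2
          rw [h1, h2]
          simp
    · have h := A.mon_conj hm he (a := ng c) (b := ng d) (by simpa using hcd) t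
      rw [idx_ng, idx_ng] at h
      rw [h]
      have e : ∀ x : I ⊕ I, Sum.map (swap (idx b) (idx a)) (swap (idx b) (idx a)) (ng x) =
          ng (Sum.map (swap (idx b) (idx a)) (swap (idx b) (idx a)) x) := by
        intro x; rcases x with x | x <;> rfl
      rw [e, e]

theorem HH_mul {a b : I ⊕ I} (hab : idx a ≠ idx b) {u v : F} (hu : u ≠ 0) (hv : v ≠ 0) :
    P.HH a b (u * v) = P.HH a b u * P.HH a b v := by
  obtain ⟨x, -, -, -, h⟩ := A.exists_conj' hab
  rw [h, h, h, ← map_mul, ← map_mul, Hd_mul hab.symm hu hv]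

theorem HH_one {a b : I ⊕ I} (hab : idx a ≠ idx b) : P.HH a b 1 = 1 := by
  have h := A.HH_mul hab one_ne_zero one_ne_zero
  rw [mul_one] at h
  exact mul_eq_left.1 h.symm

theorem HH_inv {a b : I ⊕ I} (hab : idx a ≠ idx b) {u : F} (hu : u ≠ 0) : (P.HH a b u)⁻¹ = P.HH a b u⁻¹ := by
  rw [inv_eq_iff_mul_eq_one, ← A.HH_mul hab hu (inv_ne_zero hu), mul_inv_cancel₀ hu, A.HH_one hab]

theorem HH_div {a b : I ⊕ I} (u v : F) :
    P.WW a b u * P.WW a b (-v) = P.HH a b u * (P.HH a b v)⁻¹ := by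
  unfold HH
  rw [_root_.mul_inv_rev, A.WW_inv v, A.WW_inv (-1), neg_neg, ← mul_assoc, mul_assoc (P.WW a b u)]
  have : P.WW a b (-1) * P.WW a b 1 = 1 := by rw [← A.WW_inv, inv_mul_cancel]
  rw [this, mul_one]

theorem HH_symm {a b : I ⊕ I} (hab : idx a ≠ idx b) {u : F} (hu : u ≠ 0) : P.HH b a u = P.HH a b u := by
  have h1 : ∀ v, P.WW b a v = P.WW a b (-v) := by
    intro v
    unfold WW
    rw [A.Y_symm hab, A.Y_symm (a := ng a) (b := ng b) (by simpa using hab), inv_neg]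
  obtain ⟨x, -, -, h2, h3⟩ := A.exists_conj' hab
  unfold HH
  rw [h1, h1, neg_neg, h2, h2, ← map_mul, ← map_mul, Wu_neg_mul hab.symm hu, ← h3]
  rfl

theorem HH_ng {a b : I ⊕ I} (hab : idx a ≠ idx b) {u : F} (hu : u ≠ 0) : P.HH (ng a) (ng b) u = P.HH a b u⁻¹ := by
  obtain ⟨x, h1, h2, h3, h4⟩ := A.exists_conj' hab
  have h5 : ∀ v, P.WW (ng a) (ng b) v = MulAut.conj x (P.φ (Wu (idx a) (idx b) (-v))) := by
    intro v
    unfold WW Wu
    rw [ng_ng, ng_ng, h1, h2, ← map_mul, ← map_mul, ← map_mul, ← map_mul, inv_neg, neg_neg]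
  unfold HH
  rw [h5, h5, neg_neg, ← map_mul, ← map_mul, Wu_neg_mul hab hu, Hd_symm hab.symm hu, ← h4]
  rfl

/-- elements acting by scalars centralize the torus -/
theorem Scal_comm {g : J} (hg : P.Scal g) {a b : I ⊕ I} (hab : idx a ≠ idx b) {u : F} (hu : u ≠ 0) :
    MulAut.conj g (P.HH a b u) = P.HH a b u := by
  obtain ⟨κ, h1, h2, h3⟩ := hg a b hab
  have h4 : ∀ v, MulAut.conj g (P.WW a b v) = P.WW a b (κ * v) := by
    intro v
    unfold WW
    rw [map_mul, map_mul, h2, h3, mul_inv]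
  have : MulAut.conj g (P.HH a b u) = P.WW a b (κ * u) * P.WW a b (-κ) := by
    unfold HH
    rw [map_mul, h4, h4, mul_neg, mul_one]
  rw [this, A.HH_div, mul_comm κ u, A.HH_mul hab hu h1, mul_inv_cancel_right]

end Pre.S1

end Cfsg.Agent.H110.D
end

-- part: H110/D/Tor2
section
/-!
# The abstract group of type `D`: the torus (helper110, for S2295)
-/

set_option autoImplicit false

namespace Cfsg.Agent.H110.D

open Equiv Matrix

variable {I F : Type*} [Fintype I] [DecidableEq I] [Field F] {J : Type*} [Group J] {P : Pre I F J}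

/-- the torus -/
def Pre.H (P : Pre I F J) : Subgroup J :=
  Subgroup.closure {x | ∃ a b : I ⊕ I, ∃ u : F, idx a ≠ idx b ∧ u ≠ 0 ∧ x = P.HH a b u}

/-- the torus of `SL` -/
def HSL (I F : Type*) [Fintype I] [DecidableEq I] [Field F] : Subgroup (Matrix.SpecialLinearGroup I F) :=
  Subgroup.closure {x | ∃ i j : I, ∃ u : F, i ≠ j ∧ u ≠ 0 ∧ x = Hd i j u}

theorem Hd_mem {i j : I} (hij : i ≠ j) {u : F} (hu : u ≠ 0) : Hd i j u ∈ HSL I F :=
  Subgroup.subset_closure ⟨i, j, u, hij, hu, rfl⟩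

theorem mon_of_mem {g : Matrix.SpecialLinearGroup I F} (hg : g ∈ HSL I F) : ∃ c, Mon g 1 c := by
  unfold HSL at hg
  induction hg using Subgroup.closure_induction with
  | mem x hx =>
    obtain ⟨i, j, u, hij, hu, rfl⟩ := hx
    exact ⟨_, mon_Hd hij hu⟩
  | one => exact ⟨_, Mon.one⟩
  | mul x y _ _ hx hy =>
    obtain ⟨c, hc⟩ := hx
    obtain ⟨d, hd⟩ := hy
    exact ⟨_, (hc.mul hd).congr (one_mul _) fun _ => rfl⟩
  | inv x _ hx =>
    obtain ⟨c, hc⟩ := hx
    exact ⟨_, hc.inv.congr inv_one fun _ => rfl⟩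

namespace Pre

theorem HH_mem {a b : I ⊕ I} (hab : idx a ≠ idx b) {u : F} (hu : u ≠ 0) : P.HH a b u ∈ P.H :=
  Subgroup.subset_closure ⟨a, b, u, hab, hu, rfl⟩

namespace S1

variable (A : P.S1)
include A

theorem Scal_of_mem {h : J} (hh : h ∈ P.H) : P.Scal h := by
  unfold Pre.H at hh
  induction hh using Subgroup.closure_induction with
  | mem x hx =>
    obtain ⟨a, b, u, hab, hu, rfl⟩ := hx
    exact A.Scal_HH hab hu
  | one => exact Scal.one
  | mul x y _ _ hx hy => exact hx.mul hy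
  | inv x _ hx => exact hx.inv

theorem Scal_φ {g : Matrix.SpecialLinearGroup I F} (hg : g ∈ HSL I F) : P.Scal (P.φ g) := by
  unfold HSL at hg
  induction hg using Subgroup.closure_induction with
  | mem x hx =>
    obtain ⟨i, j, u, hij, hu, rfl⟩ := hx
    exact A.Scal_Hd hij hu
  | one => rw [map_one]; exact Scal.one
  | mul x y _ _ hx hy => rw [map_mul]; exact hx.mul hy
  | inv x _ hx => rw [map_inv]; exact hx.inv

theorem WW_mul_mem {a b : I ⊕ I} (hab : idx a ≠ idx b) {u v : F} (hu : u ≠ 0) (hv : v ≠ 0) :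
    P.WW a b u * P.WW a b v ∈ P.H := by
  have h := A.HH_div (a := a) (b := b) u (-v)
  rw [neg_neg] at h
  rw [h]
  exact P.H.mul_mem (HH_mem hab hu) (P.H.inv_mem (HH_mem hab (neg_ne_zero.2 hv)))

theorem WW_conj_WW {a b c d : I ⊕ I} (hab : idx a ≠ idx b) (hcd : idx c ≠ idx d) : ∃ κ : F,
    κ ≠ 0 ∧ ∀ u, MulAut.conj (P.WW a b 1) (P.WW c d u) = P.WW (rho a b c) (rho a b d) (κ * u) := by
  obtain ⟨κ, h1, h2, h3⟩ := A.WW_conj hab c d hcd
  refine ⟨κ, ?_, fun u => ?_⟩
  · rcases h1 with rfl | rfl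
    · exact one_ne_zero
    · exact neg_ne_zero.2 one_ne_zero
  · unfold WW
    unfold WW at h2 h3
    rw [map_mul, map_mul, h2, h3]
    have : (κ * u)⁻¹ = κ * u⁻¹ := by
      rcases h1 with rfl | rfl
      · rw [one_mul, one_mul]
      · rw [neg_one_mul, neg_one_mul, inv_neg]
    rw [this]

theorem WW_conj_HH {a b c d : I ⊕ I} (hab : idx a ≠ idx b) (hcd : idx c ≠ idx d) {u : F} (hu : u ≠ 0) :
    MulAut.conj (P.WW a b 1) (P.HH c d u) = P.HH (rho a b c) (rho a b d) u := by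
  obtain ⟨κ, h1, h2⟩ := A.WW_conj_WW hab hcd
  have hcd' : idx (rho a b c) ≠ idx (rho a b d) := by
    rw [idx_rho hab, idx_rho hab]
    exact (swap _ _).injective.ne hcd
  have h3 : MulAut.conj (P.WW a b 1) (P.HH c d u) =
      P.WW (rho a b c) (rho a b d) (κ * u) * P.WW (rho a b c) (rho a b d) (-κ) := by
    rw [HH, map_mul, h2, h2, mul_neg, mul_one]
  rw [h3, A.HH_div, mul_comm κ u, A.HH_mul hcd' hu h1, mul_inv_cancel_right]

theorem WW_conj_mem {a b : I ⊕ I} (hab : idx a ≠ idx b) {h : J} (hh : h ∈ P.H) :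
    P.WW a b 1 * h * (P.WW a b 1)⁻¹ ∈ P.H := by
  have key : P.H ≤ P.H.comap (MulAut.conj (P.WW a b 1)).toMonoidHom := by
    conv_lhs => unfold Pre.H
    rw [Subgroup.closure_le]
    rintro x ⟨c, d, u, hcd, hu, rfl⟩
    change MulAut.conj (P.WW a b 1) (P.HH c d u) ∈ P.H
    rw [A.WW_conj_HH hab hcd hu]
    refine HH_mem ?_ hu
    rw [idx_rho hab, idx_rho hab]
    exact (swap _ _).injective.ne hcd
  exact key hh

/-- change of an index -/
theorem HH_change {i j k : I} (hij : i ≠ j) (hik : i ≠ k) (hjk : j ≠ k) {u : F} (hu : u ≠ 0) :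
    P.HH (.inl k) (.inl i) u = P.φ (Hd i j u) * P.HH (.inl k) (.inl j) u := by
  have h := congrArg P.φ (Hd_trans hij hik hjk hu)
  rw [map_mul] at h
  have hb : ∀ x y : I, ∀ v, P.φ (Hd x y v) = P.HH (.inr y) (.inl x) v := by
    intro x y v
    unfold HH WW Hd Wu
    simp only [ng_inl, ng_inr, Y_rl, Y_lr, map_mul]
  obtain ⟨d, d1, d2, d3⟩ := exists_out A.hI i j k
  have h' := congrArg (MulAut.conj (P.σ k d)) h
  rw [map_mul, A.σ_Hd hik.symm hjk.symm d1 d2, hb i k, hb j k, A.fl_HH (by simpa using hik.symm),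
    A.fl_HH (by simpa using hjk.symm)] at h'
  rw [fl_of_ne (p := d) (a := (.inr k : I ⊕ I)) (by simpa using d3.symm), fl_self (p := k) (a := (.inr k : I ⊕ I)) rfl,
    fl_of_ne (p := d) (a := (.inl i : I ⊕ I)) (by simpa using d1.symm),
    fl_of_ne (p := k) (a := (.inl i : I ⊕ I)) (by simpa using hik),
    fl_of_ne (p := d) (a := (.inl j : I ⊕ I)) (by simpa using d2.symm),
    fl_of_ne (p := k) (a := (.inl j : I ⊕ I)) (by simpa using hjk)] at h'
  exact h'

theorem HH_ll {k i : I} (hki : k ≠ i) {u : F} (hu : u ≠ 0) :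
    ∃ g ∈ HSL I F, P.HH (.inl k) (.inl i) u = P.φ g * P.HH (.inl P.o) (.inl P.l) u := by
  have step : ∀ k i j : I, i ≠ j → i ≠ k → j ≠ k →
      (∃ g ∈ HSL I F, P.HH (.inl k) (.inl j) u = P.φ g * P.HH (.inl P.o) (.inl P.l) u) →
      (∃ g ∈ HSL I F, P.HH (.inl k) (.inl i) u = P.φ g * P.HH (.inl P.o) (.inl P.l) u) := by
    rintro k i j hij hik hjk ⟨g, hg, e⟩
    refine ⟨Hd i j u * g, (HSL I F).mul_mem (Hd_mem hij hu) hg, ?_⟩
    rw [A.HH_change hij hik hjk hu, e, map_mul, mul_assoc]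
  have sy : ∀ k i : I, k ≠ i →
      (∃ g ∈ HSL I F, P.HH (.inl k) (.inl i) u = P.φ g * P.HH (.inl P.o) (.inl P.l) u) →
      (∃ g ∈ HSL I F, P.HH (.inl i) (.inl k) u = P.φ g * P.HH (.inl P.o) (.inl P.l) u) := by
    rintro k i h ⟨g, hg, e⟩
    exact ⟨g, hg, by rw [A.HH_symm (by simpa using h) hu, e]⟩
  have h0 : ∃ g ∈ HSL I F, P.HH (.inl P.o) (.inl P.l) u = P.φ g * P.HH (.inl P.o) (.inl P.l) u :=
    ⟨1, (HSL I F).one_mem, by rw [map_one, one_mul]⟩
  have hol : P.o ≠ P.l := A.hol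
  -- the first index is `o`
  have h1 : ∀ i, P.o ≠ i →
      ∃ g ∈ HSL I F, P.HH (.inl P.o) (.inl i) u = P.φ g * P.HH (.inl P.o) (.inl P.l) u := by
    intro i hi
    by_cases hil : i = P.l
    · subst hil; exact h0
    · exact step P.o i P.l hil hi.symm hol.symm h0
  by_cases hko : k = P.o
  · subst hko; exact h1 i hki
  · by_cases hio : i = P.o
    · subst hio
      exact sy _ _ hki.symm (h1 k hki.symm)
    · refine sy i k hki.symm (step i k P.o hko hki (Ne.symm hio) ?_)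
      exact sy _ _ (Ne.symm hio) (h1 i (Ne.symm hio))

theorem exists_form {h : J} (hh : h ∈ P.H) :
    ∃ g ∈ HSL I F, ∃ v : F, v ≠ 0 ∧ h = P.φ g * P.HH (.inl P.o) (.inl P.l) v := by
  have hol : idx (.inl P.o : I ⊕ I) ≠ idx (.inl P.l : I ⊕ I) := A.hol
  have hc : ∀ {g : Matrix.SpecialLinearGroup I F}, g ∈ HSL I F → ∀ {v : F}, v ≠ 0 →
      P.HH (.inl P.o) (.inl P.l) v * P.φ g = P.φ g * P.HH (.inl P.o) (.inl P.l) v := by
    intro g hg v hv
    have := A.Scal_comm (A.Scal_φ hg) hol hv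
    rw [MulAut.conj_apply, mul_inv_eq_iff_eq_mul] at this
    exact this.symm
  have hb : ∀ x y : I, ∀ v, P.φ (Hd x y v) = P.HH (.inr y) (.inl x) v := by
    intro x y v
    unfold HH WW Hd Wu
    simp only [ng_inl, ng_inr, Y_rl, Y_lr, map_mul]
  have hll : ∀ {k i : I}, k ≠ i → ∀ {u : F}, u ≠ 0 → ∃ g ∈ HSL I F, ∃ v : F, v ≠ 0 ∧
      P.HH (.inl k) (.inl i) u = P.φ g * P.HH (.inl P.o) (.inl P.l) v := by
    intro k i hki u hu
    obtain ⟨g, hg, e⟩ := A.HH_ll hki hu
    exact ⟨g, hg, u, hu, e⟩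
  have hrl : ∀ {k i : I}, k ≠ i → ∀ {u : F}, u ≠ 0 → ∃ g ∈ HSL I F, ∃ v : F, v ≠ 0 ∧
      P.HH (.inr k) (.inl i) u = P.φ g * P.HH (.inl P.o) (.inl P.l) v := by
    intro k i hki u hu
    exact ⟨Hd i k u, Hd_mem hki.symm hu, 1, one_ne_zero, by rw [A.HH_one hol, mul_one, hb]⟩
  unfold Pre.H at hh
  induction hh using Subgroup.closure_induction with
  | mem x hx =>
    obtain ⟨a, b, u, hab, hu, rfl⟩ := hx
    rcases a with k | k <;> rcases b with i | i
    · exact hll hab hu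
    · have h := hrl (k := i) (i := k) (Ne.symm hab) hu
      rwa [A.HH_symm (a := .inl k) (b := .inr i) hab hu] at h
    · exact hrl hab hu
    · have h := hll (k := k) (i := i) hab (inv_ne_zero hu)
      have e := A.HH_ng (a := .inl k) (b := .inl i) hab hu
      rw [ng_inl, ng_inl] at e
      rwa [← e] at h
  | one => exact ⟨1, (HSL I F).one_mem, 1, one_ne_zero, by rw [map_one, A.HH_one hol, one_mul]⟩
  | mul x y _ _ hx hy =>
    obtain ⟨g, hg, v, hv, rfl⟩ := hx
    obtain ⟨g', hg', v', hv', rfl⟩ := hy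
    refine ⟨g * g', (HSL I F).mul_mem hg hg', v * v', mul_ne_zero hv hv', ?_⟩
    rw [A.HH_mul hol hv hv', map_mul, mul_assoc, ← mul_assoc _ (P.φ g'), hc hg' hv]
    simp only [mul_assoc]
  | inv x _ hx =>
    obtain ⟨g, hg, v, hv, rfl⟩ := hx
    refine ⟨g⁻¹, (HSL I F).inv_mem hg, v⁻¹, inv_ne_zero hv, ?_⟩
    rw [_root_.mul_inv_rev, A.HH_inv hol hv, ← map_inv, hc ((HSL I F).inv_mem hg) (inv_ne_zero hv)]

/-- sign changes as products of Weyl elements -/
theorem σ_eq {p q : I} (hpq : p ≠ q) :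
    P.σ p q = P.WW (.inl q) (.inl p) 1 * (P.WW (.inr q) (.inl p) 1)⁻¹ := by
  obtain ⟨r, r1, r2, -⟩ := exists_out A.hI p q q
  have hw : P.WW (.inr q) (.inl p) 1 = P.φ (Wu p q 1) := A.WW_base _ _ _
  have h1 := A.fl_WW (a := .inr q) (b := .inl p) (by simpa using hpq.symm) q r 1
  rw [fl_of_ne (p := r) (a := (.inr q : I ⊕ I)) (by simpa using r2.symm), fl_self (p := q) (a := (.inr q : I ⊕ I)) rfl,
    fl_of_ne (p := r) (a := (.inl p : I ⊕ I)) (by simpa using r1.symm),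
    fl_of_ne (p := q) (a := (.inl p : I ⊕ I)) (by simpa using hpq), ng_inr] at h1
  rw [← h1, hw]
  have h2 : MulAut.conj (P.φ (Wu p q 1)) (P.σ q r) = P.σ p r := by
    have := Sys1.ss_conj A (mon_Wu (F := F) hpq one_ne_zero) (sgn_Wu p q) q r
    rwa [swap_apply_right, swap_apply_of_ne_of_ne r1 r2] at this
  have h3 : MulAut.conj (P.σ q r) (P.φ (Wu p q 1)) * (P.φ (Wu p q 1))⁻¹ =
      P.σ q r * (MulAut.conj (P.φ (Wu p q 1)) (P.σ q r))⁻¹ := by
    simp only [MulAut.conj_apply]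
    group
  rw [h3, h2, A.σ_inv, A.σ_symm p r, A.σ_mul, A.σ_symm]

end S1

namespace S2

variable (A : P.S2)
include A

theorem comm4' {a b : I ⊕ I} (hab : idx a ≠ idx b) (u t : F) : Commute (P.Y a b u) (P.Y (ng a) b t) := by
  rw [A.s1.Y_symm hab.symm, A.s1.Y_symm (a := b) (b := ng a) (by simpa using hab.symm)]
  exact A.comm4 hab.symm _ _

theorem WW_comm {a b : I ⊕ I} (hab : idx a ≠ idx b) (u v : F) : Commute (P.WW a b u) (P.WW (ng a) b v) := by
  unfold WW
  have c1 := A.comm4' hab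
  have c2 : ∀ u t, Commute (P.Y a b u) (P.Y (ng (ng a)) (ng b) t) := fun u t => by
    rw [ng_ng]; exact A.comm4 hab _ _
  have c3 : ∀ u t, Commute (P.Y (ng a) (ng b) u) (P.Y (ng a) b t) := fun u t => by
    have := A.comm4 (a := ng a) (b := ng b) (by simpa using hab) u t
    rwa [ng_ng] at this
  have c4 : ∀ u t, Commute (P.Y (ng a) (ng b) u) (P.Y (ng (ng a)) (ng b) t) := fun u t =>
    A.comm4' (by simpa using hab) _ _
  have d1 : ∀ u, Commute (P.Y a b u) (P.Y (ng a) b v * P.Y (ng (ng a)) (ng b) v⁻¹ * P.Y (ng a) b v) := fun u =>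
    ((c1 u _).mul_right (c2 u _)).mul_right (c1 u _)
  have d2 : ∀ u, Commute (P.Y (ng a) (ng b) u) (P.Y (ng a) b v * P.Y (ng (ng a)) (ng b) v⁻¹ * P.Y (ng a) b v) :=
    fun u => ((c3 u _).mul_right (c4 u _)).mul_right (c3 u _)
  exact ((d1 _).mul_left (d2 _)).mul_left (d1 _)

theorem HH_neg_one {p q : I} (hpq : p ≠ q) : P.φ (Hd p q (-1)) * P.HH (.inl q) (.inl p) (-1) = 1 := by
  have hq : idx (.inl q : I ⊕ I) ≠ idx (.inl p : I ⊕ I) := hpq.symm
  have hq' : idx (.inr q : I ⊕ I) ≠ idx (.inl p : I ⊕ I) := hpq.symm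
  have h1 := A.s1.σ_sq p q
  have hc : Commute (P.WW (.inl q) (.inl p) 1) (P.WW (.inr q) (.inl p) 1) := A.WW_comm hq 1 1
  rw [A.s1.σ_eq hpq] at h1
  have h2 : P.WW (.inl q) (.inl p) 1 * P.WW (.inl q) (.inl p) 1 =
      P.WW (.inr q) (.inl p) 1 * P.WW (.inr q) (.inl p) 1 := by
    set x := P.WW (.inl q) (.inl p) 1
    set y := P.WW (.inr q) (.inl p) 1
    have h3 : x * y⁻¹ = y⁻¹ * x := hc.inv_right.eq
    have h4 : x * x * y⁻¹ * y⁻¹ = 1 := by
      rw [← h1]
      calc x * x * y⁻¹ * y⁻¹ = x * (x * y⁻¹) * y⁻¹ := by group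
        _ = x * (y⁻¹ * x) * y⁻¹ := by rw [h3]
        _ = _ := by group
    calc x * x = (x * x * y⁻¹ * y⁻¹) * (y * y) := by group
      _ = y * y := by rw [h4, one_mul]
  have h3 : ∀ {a b : I ⊕ I}, idx a ≠ idx b → P.WW a b 1 * P.WW a b 1 = (P.HH a b (-1))⁻¹ := by
    intro a b hab
    have := A.s1.HH_div (a := a) (b := b) 1 (-1)
    rwa [neg_neg, A.s1.HH_one hab, one_mul] at this
  rw [h3 hq, h3 hq', _root_.inv_inj] at h2
  have hb : P.φ (Hd p q (-1)) = P.HH (.inr q) (.inl p) (-1) := by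
    unfold HH WW Hd Wu
    simp only [ng_inl, ng_inr, Y_rl, Y_lr, map_mul]
  rw [hb, h2, ← A.s1.HH_mul hq' (neg_ne_zero.2 one_ne_zero) (neg_ne_zero.2 one_ne_zero), neg_mul_neg, mul_one,
    A.s1.HH_one hq']

end S2

end Pre

end Cfsg.Agent.H110.D
end
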